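import Mathlib
import Cfsg.Agent.Helper24.BP29
import Cfsg.Agent.Helper5.BlkSMT
import Cfsg.Agent.Helper5.BlkBr2
import Cfsg.Agent.Helper5.BlkDef
import Cfsg.Agent.Helper5.BlkPair

/-!
helper24: transitivity of block induction through a subgroup, existence of a maximal Brauer pair
at a defect group, and the defect groups of a block induced from a subgroup containing the
centralizer of a defect group.
-/

set_option autoImplicit false

namespace Cfsg.Agent.Helper24

open Cfsg Cfsg.Agent.Helper5 Cfsg.Agent.Helper22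

universe u

variable {G : Type u} [Group G] [Fintype G]

theorem bh_ind_core {M : Ideal AlgInt} [hMp : M.IsPrime] (H : Subgroup G) [Fintype H]
    (K' : Subgroup H) [Fintype K'] (K : Subgroup G) [Fintype K] (φ : K' ≃* K)
    (hφ : ∀ k' : K', ((φ k' : K) : G) = ((k' : H) : G))
    (c' : Set (IrrCharacter K')) (f : Set (IrrCharacter H)) (hind : IsInducedBlock M K' c' f)
    (ξ' : IrrCharacter K') (hξ' : ξ' ∈ c') (χH : IrrCharacter H) (hχH : χH ∈ f) (g : G) :
    MemLocalIdeal M (inducedCentralChar K ((fm_pb φ.symm ξ' : IrrCharacter K) : K → ℂ) g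
      - inducedCentralChar H (χH : H → ℂ) g) := by
  classical
  obtain ⟨Φ, hΦ⟩ : ∃ Φ : H → ℂ, Φ = fun h : H => if IsConj g (h : G) then (1:ℂ) else 0 := ⟨_, rfl⟩
  have hΦcl : IsClassFunction H Φ := by
    intro h x
    rw [hΦ]
    show (if IsConj g ((x * h * x⁻¹ : H) : G) then (1:ℂ) else 0)
      = if IsConj g (h : G) then 1 else 0
    have hiff : IsConj g ((x * h * x⁻¹ : H) : G) ↔ IsConj g (h : G) := by
      have hc : IsConj (h : G) ((x * h * x⁻¹ : H) : G) := isConj_iff.mpr ⟨(x : G), rfl⟩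
      exact ⟨fun h1 => h1.trans hc.symm, fun h1 => h1.trans hc⟩
    rw [if_congr hiff rfl rfl]
  obtain ⟨ι, hι⟩ := exists_class_reps H
  have e1 : inducedCentralChar H (χH : H → ℂ) g
      = ∑ r ∈ ι, Φ r * centralChar (χH : H → ℂ) r := by
    rw [inducedCentralChar_eq, ← classFun_value hΦcl ι hι χH, hΦ]
  have e2 : inducedCentralChar K ((fm_pb φ.symm ξ' : IrrCharacter K) : K → ℂ) g
      = ∑ r ∈ ι, Φ r * inducedCentralChar K' (ξ' : K' → ℂ) r := by
    rw [sum_reps_induced K' (ξ' : K' → ℂ) Φ hΦcl ι hι, inducedCentralChar_eq]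
    have h1 : ((fm_pb φ.symm ξ' : IrrCharacter K) : K → ℂ) 1 = (ξ' : K' → ℂ) 1 := by
      show (ξ' : K' → ℂ) (φ.symm 1) = _
      rw [map_one]
    rw [h1]
    congr 1
    refine (Fintype.sum_equiv φ.toEquiv _ _ (fun k' => ?_)).symm
    show Φ (k' : H) * (ξ' : K' → ℂ) k'
      = (if IsConj g ((φ k' : K) : G) then (1:ℂ) else 0) * (ξ' : K' → ℂ) (φ.symm (φ k'))
    rw [φ.symm_apply_apply, hφ, hΦ]
  rw [e1, e2, ← Finset.sum_sub_distrib]
  refine memLocalIdeal_sum _ _ fun r _ => ?_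
  rw [← mul_sub]
  have hS : MemLocalRing M (Φ r) := by
    rw [hΦ]
    show MemLocalRing M (if IsConj g (r : G) then (1:ℂ) else 0)
    split_ifs
    · exact (locRing M).one_mem
    · exact (locRing M).zero_mem
  exact memLocalIdeal_mul_left hS (hind.2.2 ξ' hξ' χH hχH r)

theorem bh_ind_down {M : Ideal AlgInt} [hMp : M.IsPrime] (H : Subgroup G) [Fintype H]
    (K' : Subgroup H) [Fintype K'] (K : Subgroup G) [Fintype K] (φ : K' ≃* K)
    (hφ : ∀ k' : K', ((φ k' : K) : G) = ((k' : H) : G))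
    (c' : Set (IrrCharacter K')) (f : Set (IrrCharacter H)) (hind : IsInducedBlock M K' c' f)
    (B : Set (IrrCharacter G)) (hB : IsInducedBlock M H f B) :
    IsInducedBlock M K (fm_tr φ c') B := by
  obtain ⟨χf, hχf⟩ := hind.2.1
  have hχfmem : χf ∈ f := by
    rw [hχf]
    exact sameBlock_refl _
  refine ⟨fm_tr_isPBlock φ c' hind.1, hB.2.1, fun θ hθ χ hχ g => ?_⟩
  rw [fm_tr_mem'] at hθ
  have h1 := bh_ind_core H K' K φ hφ c' f hind (fm_pb φ θ) hθ χf hχfmem g
  rw [fm_pb_symm'] at h1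
  have h2 := hB.2.2 χf hχfmem χ hχ g
  have h3 := memLocalIdeal_add hMp h1 h2
  rwa [sub_add_sub_cancel] at h3

theorem bh_ind_up {M : Ideal AlgInt} [hMp : M.IsPrime] (H : Subgroup G) [Fintype H]
    (K' : Subgroup H) [Fintype K'] (K : Subgroup G) [Fintype K] (φ : K' ≃* K)
    (hφ : ∀ k' : K', ((φ k' : K) : G) = ((k' : H) : G))
    (c' : Set (IrrCharacter K')) (f : Set (IrrCharacter H)) (hind : IsInducedBlock M K' c' f)
    (B : Set (IrrCharacter G)) (hB : IsInducedBlock M K (fm_tr φ c') B) :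
    IsInducedBlock M H f B := by
  obtain ⟨ξc, hξc⟩ := hind.1
  have hξcmem : ξc ∈ c' := by
    rw [hξc]
    exact sameBlock_refl _
  have hmem : fm_pb φ.symm ξc ∈ fm_tr φ c' := by
    rw [fm_tr_mem', fm_pb_symm]
    exact hξcmem
  refine ⟨hind.2.1, hB.2.1, fun χH hχH χ hχ g => ?_⟩
  have h1 := bh_ind_core H K' K φ hφ c' f hind ξc hξcmem χH hχH g
  have h2 := hB.2.2 _ hmem χ hχ g
  have h3 := memLocalIdeal_sub h2 h1
  have e : inducedCentralChar K ((fm_pb φ.symm ξc : IrrCharacter K) : K → ℂ) g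
        - centralChar (χ : G → ℂ) g
      - (inducedCentralChar K ((fm_pb φ.symm ξc : IrrCharacter K) : K → ℂ) g
        - inducedCentralChar H (χH : H → ℂ) g)
      = inducedCentralChar H (χH : H → ℂ) g - centralChar (χ : G → ℂ) g := by ring
  rwa [e] at h3

/-- a defect group is the subgroup of a maximal Brauer pair, whose block induces the block. -/
theorem bp_defect_pair {p : ℕ} [Fact p.Prime] {M : Ideal AlgInt} (hM : IsPModular p M)
    [hMp : M.IsPrime] (χ₀ : IrrCharacter G) (D : Subgroup G)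
    (hD : IsDefectGroup p M (blockOf M (χ₀ : G → ℂ)) D) :
    ∃ e : Set (IrrCharacter (Subgroup.centralizer (D : Set G))),
      IsInducedBlock M (Subgroup.centralizer (D : Set G)) e (blockOf M (χ₀ : G → ℂ)) ∧
      IsMaximalBrauerPair p M (blockOf M (χ₀ : G → ℂ)) D e := by
  classical
  haveI : Fintype (Subgroup.centralizer (D : Set G)) := Fintype.ofFinite _
  obtain ⟨z, hz, Q, hQ⟩ := id hD
  have hDp : IsPGroup p D := by
    rw [hQ]
    exact Q.isPGroup'.map _
  have hzC : z ∈ Subgroup.centralizer (D : Set G) := by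
    rw [Subgroup.mem_centralizer_iff]
    intro d hd
    rw [hQ] at hd
    obtain ⟨d', -, rfl⟩ := hd
    exact (Subgroup.mem_centralizer_iff.mp d'.2 z (Set.mem_singleton z)).symm
  have hβ : ¬ MemLocalIdeal M (blockCoeff (blockOf M (χ₀ : G → ℂ)) z) := hz.2.1
  obtain ⟨c, hc, hcv⟩ := osima (M := M) χ₀
  have hcoef := blockCoeff_eq_specFun (blockOf M (χ₀ : G → ℂ)) c (fun ψ hψ => (hcv ψ).1 hψ)
    (fun ψ hψ => (hcv ψ).2 hψ) z
  rw [hcoef] at hβ
  have hcc : c * c = c := by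
    funext ψ
    by_cases h : SameBlock M (χ₀ : G → ℂ) (ψ : G → ℂ)
    · show c ψ * c ψ = c ψ
      rw [(hcv ψ).1 h, mul_one]
    · show c ψ * c ψ = c ψ
      rw [(hcv ψ).2 h, mul_zero]
  have hCH : Subgroup.centralizer (D : Set G) ≤ Subgroup.centralizer (D : Set G) := le_rfl
  have hHN : Subgroup.centralizer (D : Set G) ≤ Subgroup.normalizer (D : Set G) :=
    Subgroup.centralizer_le_normalizer _
  have hex : ∃ ξ : IrrCharacter (Subgroup.centralizer (D : Set G)),
      ¬ MemLocalIdeal M (brLam D (Subgroup.centralizer (D : Set G))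
        (ξ : Subgroup.centralizer (D : Set G) → ℂ) c) := by
    by_contra hall
    push Not at hall
    have hidem : ∀ h : Subgroup.centralizer (D : Set G),
        MemLocalIdeal M (brF D (Subgroup.centralizer (D : Set G)) c h
        - ∑ x : Subgroup.centralizer (D : Set G), brF D (Subgroup.centralizer (D : Set G)) c x
            * brF D (Subgroup.centralizer (D : Set G)) c (x⁻¹ * h)) := by
      intro h
      have h1 := brF_mul_sub_conv_mem hM D (Subgroup.centralizer (D : Set G)) hDp hCH hc hc h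
      rwa [hcc] at h1
    have h2 := classFun_mem_of_idem (brF D (Subgroup.centralizer (D : Set G)) c)
      (brF_isClassFunction D (Subgroup.centralizer (D : Set G)) hHN c)
      (brF_memLocalRing D (Subgroup.centralizer (D : Set G)) hc) hidem (fun ξ => hall ξ)
      ⟨z, hCH hzC⟩
    rw [brF_mem D (Subgroup.centralizer (D : Set G)) c _ hzC] at h2
    exact hβ h2
  obtain ⟨ξ, hξ⟩ := hex
  have hbr := brauer_block_of_lam hM D (Subgroup.centralizer (D : Set G)) hDp hCH hHN ξ χ₀ c hc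
    hcv hξ
  obtain ⟨χ₁, hbr₁, hind₁⟩ := centralizer_induced hM D hDp ξ
  have hsame : SameBlock M (χ₁ : G → ℂ) (χ₀ : G → ℂ) := by
    intro g
    have h3 := memLocalIdeal_sub (hbr g) (hbr₁ g)
    have e : brauerCentralChar D (Subgroup.centralizer (D : Set G))
          (ξ : Subgroup.centralizer (D : Set G) → ℂ) g - centralChar (χ₀ : G → ℂ) g
        - (brauerCentralChar D (Subgroup.centralizer (D : Set G))
          (ξ : Subgroup.centralizer (D : Set G) → ℂ) g - centralChar (χ₁ : G → ℂ) g)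
        = centralChar (χ₁ : G → ℂ) g - centralChar (χ₀ : G → ℂ) g := by ring
    rwa [e] at h3
  have hblk : blockOf M (χ₁ : G → ℂ) = blockOf M (χ₀ : G → ℂ) := blockOf_eq_of_sameBlock hsame
  rw [hblk] at hind₁
  have hpair := bp_of_induced hM D hDp _ _ hind₁
  exact ⟨_, hind₁, bp_defect_max hM _ D _ hpair hD⟩

set_option maxHeartbeats 1600000 in
/-- a pair carrying a weight-like character: the centralizer part of any maximal pair above it
lies in the subgroup. -/
theorem bp_weight_cent {p : ℕ} [Fact p.Prime] {M : Ideal AlgInt} (hM : IsPModular p M)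
    [hMp : M.IsPrime] (Q : Subgroup G) (e : Set (IrrCharacter (Subgroup.centralizer (Q : Set G)))) (he : IsBrauerPair p M Q e)
    (θ : IrrCharacter (Subgroup.centralizer (Q : Set G))) (hθ : θ ∈ e)
    (h1 : ∀ z : (Subgroup.centralizer (Q : Set G)), (z : G) ∈ Q → (θ : (Subgroup.centralizer (Q : Set G)) → ℂ) z = (θ : (Subgroup.centralizer (Q : Set G)) → ℂ) 1)
    (h2 : (charDegree (θ : (Subgroup.centralizer (Q : Set G)) → ℂ)).factorization p + (Nat.card ↥(Q ⊓ (Subgroup.centralizer (Q : Set G)))).factorization p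
      = (Nat.card (Subgroup.centralizer (Q : Set G))).factorization p)
    (B : Set (IrrCharacter G)) (b : BrauerPairIdx G)
    (hchain : Relation.ReflTransGen (NormalSubpairRel p M) ⟨Q, e⟩ b)
    (hmax' : IsMaximalBrauerPair p M B b.1 b.2) :
    ∀ c : G, c ∈ b.1 → c ∈ (Subgroup.centralizer (Q : Set G)) → c ∈ Q := by
  classical
  have hp := (Fact.out : p.Prime)
  haveI : Fintype (Subgroup.centralizer (Q : Set G)) := Fintype.ofFinite _
  obtain ⟨Z', hZ'⟩ : ∃ Z' : Subgroup (Subgroup.centralizer (Q : Set G)), Z' = (Q ⊓ (Subgroup.centralizer (Q : Set G))).subgroupOf (Subgroup.centralizer (Q : Set G)) := ⟨_, rfl⟩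
  have hZmem : ∀ z : (Subgroup.centralizer (Q : Set G)), z ∈ Z' ↔ (z : G) ∈ Q := by
    intro z
    rw [hZ', Subgroup.mem_subgroupOf]
    exact ⟨fun h => h.1, fun h => ⟨h, z.2⟩⟩
  have hZc : Z' ≤ Subgroup.center (Subgroup.centralizer (Q : Set G)) := by
    intro z hz
    rw [Subgroup.mem_center_iff]
    intro c
    apply Subtype.ext
    have hzQ := (hZmem z).mp hz
    have hcz := Subgroup.mem_centralizer_iff.mp c.2 (z : G) hzQ
    show (c : G) * (z : G) = (z : G) * (c : G)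
    exact hcz.symm
  haveI hZn : Z'.Normal := ⟨fun n hn g => by
    have h := Subgroup.mem_center_iff.mp (hZc hn) g
    rw [h, mul_inv_cancel_right]
    exact hn⟩
  have hZp : IsPGroup p Z' := by
    rw [hZ']
    exact (he.1.to_le inf_le_left).comap_subtype
  have hZcard : Nat.card Z' = Nat.card ↥(Q ⊓ (Subgroup.centralizer (Q : Set G))) := by
    rw [hZ']
    exact Nat.card_congr (Subgroup.subgroupOfEquivOfLe inf_le_right).toEquiv
  have hD : IsDefectGroup p M (blockOf M (θ : (Subgroup.centralizer (Q : Set G)) → ℂ)) Z' :=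
    defect_of_central_quot hM Z' hZp hZc θ (fun z hz => h1 z ((hZmem z).mp hz))
      (by rw [hZcard]; exact le_of_eq h2.symm)
  obtain ⟨χ₀, hχ₀⟩ := he.2
  have hθ' : SameBlock M (χ₀ : (Subgroup.centralizer (Q : Set G)) → ℂ) (θ : (Subgroup.centralizer (Q : Set G)) → ℂ) := by
    rw [hχ₀] at hθ
    exact hθ
  have heθ : e = blockOf M (θ : (Subgroup.centralizer (Q : Set G)) → ℂ) := by
    rw [hχ₀]
    exact blockOf_eq_of_sameBlock hθ'
  have hQb : Q ≤ b.1 := pf_le _ _ hchain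
  obtain ⟨b', hb'max, hb'le⟩ := bp_cent_defect_le hM B b.1 Q b.2 e hmax' hQb he.2 hchain
  have hD' := bp_max_defect hM e b'.1 b'.2 hb'max
  rw [heθ] at hD'
  obtain ⟨z, hz⟩ := defect_groups_conj hM θ _ _ hD hD'
  have hcard : Nat.card b'.1 = Nat.card Z' := by
    rw [hz, Subgroup.card_map_of_injective (f := (MulAut.conj z).toMonoidHom)
      (MulAut.conj z).injective]
  have hZb : Z' ≤ b'.1 := by
    refine le_trans ?_ hb'le
    intro c hc
    rw [Subgroup.mem_subgroupOf]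
    exact ⟨hQb ((hZmem c).mp hc), c.2⟩
  have hZeq : Z' = b'.1 := Subgroup.eq_of_le_of_card_ge hZb (le_of_eq hcard)
  intro c hcP hcC
  have h : (⟨c, hcC⟩ : (Subgroup.centralizer (Q : Set G))) ∈ b'.1 := hb'le (Subgroup.mem_subgroupOf.mpr ⟨hcP, hcC⟩)
  rw [← hZeq] at h
  exact (hZmem _).mp h

set_option maxHeartbeats 1600000 in
theorem bp_ind_center {p : ℕ} [Fact p.Prime] {M : Ideal AlgInt} (hM : IsPModular p M)
    [hMp : M.IsPrime] (H : Subgroup G) (b : Set (IrrCharacter ↥H)) (hb : IsPBlock M b)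
    (D₀ : Subgroup ↥H) (hD₀ : IsDefectGroup p M b D₀)
    (hC : Subgroup.centralizer ((D₀.map H.subtype : Subgroup G) : Set G) ≤ H) :
    InducedBlockDefined M H b ∧ ∀ B : Set (IrrCharacter G), IsInducedBlock M H b B →
      (∃ D : Subgroup G, IsDefectGroup p M B D ∧
        (Subgroup.center ↥D).map D.subtype
          ≤ ((Subgroup.center ↥D₀).map D₀.subtype).map H.subtype ∧
        ((Subgroup.center ↥D₀).map D₀.subtype).map H.subtype ≤ D₀.map H.subtype ∧
        D₀.map H.subtype ≤ D) ∧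
      (∀ D : Subgroup G, IsDefectGroup p M B D → IsMulCommutative ↥D →
        IsDefectGroup p M B (D₀.map H.subtype)) := by
  classical
  have hp := (Fact.out : p.Prime)
  haveI : Fintype H := Fintype.ofFinite _
  obtain ⟨χb, rfl⟩ := hb
  obtain ⟨e₀, hindH, hmaxH⟩ := bp_defect_pair hM χb D₀ hD₀
  have hD₀p : IsPGroup p D₀ := hmaxH.1.1.1
  obtain ⟨θ₀, hθ₀, hθ1, hθ2, -⟩ := bp_weight_of_max hM (blockOf M (χb : H → ℂ)) D₀ e₀ hmaxH
  obtain ⟨D₀', hD₀'⟩ : ∃ D₀' : Subgroup G, D₀' = D₀.map H.subtype := ⟨_, rfl⟩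
  rw [← hD₀'] at hC ⊢
  have hs : bh_sub H D₀ D₀' := by
    rw [hD₀']
    exact bh_sub_map H D₀
  have hD₀'p : IsPGroup p D₀' := by
    rw [hD₀']
    exact hD₀p.map _
  obtain ⟨φ, hφ⟩ : ∃ φ : ↥(Subgroup.centralizer (D₀ : Set H)) ≃*
      ↥(Subgroup.centralizer (D₀' : Set G)),
      ∀ k' : ↥(Subgroup.centralizer (D₀ : Set H)),
        ((φ k' : ↥(Subgroup.centralizer (D₀' : Set G))) : G) = ((k' : H) : G) :=
    ⟨bh_equiv H D₀ D₀' hs hC, fun _ => rfl⟩
  haveI : Fintype ↥(Subgroup.centralizer (D₀' : Set G)) := Fintype.ofFinite _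
  haveI : Fintype ↥(Subgroup.centralizer (D₀ : Set H)) := Fintype.ofFinite _
  obtain ⟨e₀', he₀'⟩ : ∃ e₀' : Set (IrrCharacter ↥(Subgroup.centralizer (D₀' : Set G))),
      e₀' = fm_tr φ e₀ := ⟨_, rfl⟩
  have he₀'blk : IsPBlock M e₀' := by
    rw [he₀']
    exact fm_tr_isPBlock φ e₀ hindH.1
  obtain ⟨θ', hθ'⟩ : ∃ θ' : IrrCharacter ↥(Subgroup.centralizer (D₀' : Set G)),
      θ' = fm_pb φ.symm θ₀ := ⟨_, rfl⟩
  have hθ'mem : θ' ∈ e₀' := by
    rw [he₀', hθ', fm_tr_mem', fm_pb_symm]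
    exact hθ₀
  have hθ'val : ∀ c : ↥(Subgroup.centralizer (D₀' : Set G)),
      (θ' : ↥(Subgroup.centralizer (D₀' : Set G)) → ℂ) c
        = (θ₀ : ↥(Subgroup.centralizer (D₀ : Set H)) → ℂ) (φ.symm c) := by
    intro c
    rw [hθ']
    rfl
  have h1' : ∀ z : ↥(Subgroup.centralizer (D₀' : Set G)), (z : G) ∈ D₀' →
      (θ' : ↥(Subgroup.centralizer (D₀' : Set G)) → ℂ) z
        = (θ' : ↥(Subgroup.centralizer (D₀' : Set G)) → ℂ) 1 := by
    intro z hz
    rw [hθ'val, hθ'val, map_one]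
    apply hθ1
    obtain ⟨k, hk, hkz⟩ := (hs (z : G)).mp hz
    have hk' : ((φ.symm z : ↥(Subgroup.centralizer (D₀ : Set H))) : H) = k := by
      apply Subtype.ext
      rw [hkz, ← hφ (φ.symm z), φ.apply_symm_apply]
    rw [hk']
    exact hk
  have hcardC : Nat.card ↥(Subgroup.centralizer (D₀' : Set G))
      = Nat.card ↥(Subgroup.centralizer (D₀ : Set H)) := (Nat.card_congr φ.toEquiv).symm
  have hmapZ : (D₀ ⊓ Subgroup.centralizer (D₀ : Set H)).map H.subtype
      = D₀' ⊓ Subgroup.centralizer (D₀' : Set G) := by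
    ext g
    constructor
    · rintro ⟨h, hh, rfl⟩
      refine ⟨(hs _).mpr ⟨h, hh.1, rfl⟩, ?_⟩
      refine Subgroup.mem_centralizer_iff.mpr (fun d hd => ?_)
      obtain ⟨d', hd', rfl⟩ := (hs d).mp hd
      have h3 := Subgroup.mem_centralizer_iff.mp hh.2 d' hd'
      exact congrArg Subtype.val h3
    · rintro ⟨hg1, hg2⟩
      obtain ⟨h, hh, rfl⟩ := (hs g).mp hg1
      refine ⟨h, ⟨hh, ?_⟩, rfl⟩
      refine Subgroup.mem_centralizer_iff.mpr (fun d' hd' => ?_)
      apply Subtype.ext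
      exact Subgroup.mem_centralizer_iff.mp hg2 (d' : G) ((hs _).mpr ⟨d', hd', rfl⟩)
  have hcardZ : Nat.card ↥(D₀' ⊓ Subgroup.centralizer (D₀' : Set G))
      = Nat.card ↥(D₀ ⊓ Subgroup.centralizer (D₀ : Set H)) := by
    rw [← hmapZ]
    exact Subgroup.card_map_of_injective (Subgroup.subtype_injective H)
  have hdeg : charDegree (θ' : ↥(Subgroup.centralizer (D₀' : Set G)) → ℂ)
      = charDegree (θ₀ : ↥(Subgroup.centralizer (D₀ : Set H)) → ℂ) := by
    unfold charDegree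
    rw [hθ'val, map_one]
  have h2' : (charDegree (θ' : ↥(Subgroup.centralizer (D₀' : Set G)) → ℂ)).factorization p
      + (Nat.card ↥(D₀' ⊓ Subgroup.centralizer (D₀' : Set G))).factorization p
      = (Nat.card ↥(Subgroup.centralizer (D₀' : Set G))).factorization p := by
    rw [hdeg, hcardZ, hcardC]
    exact hθ2
  -- the induced block is defined
  obtain ⟨ξ₀', hξ₀'⟩ := id he₀'blk
  obtain ⟨χ₁, -, hind₁⟩ := centralizer_induced hM D₀' hD₀'p ξ₀'
  rw [← hξ₀', he₀'] at hind₁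
  have hdef : IsInducedBlock M H (blockOf M (χb : H → ℂ)) (blockOf M (χ₁ : G → ℂ)) :=
    bh_ind_up H (Subgroup.centralizer (D₀ : Set H)) (Subgroup.centralizer (D₀' : Set G)) φ hφ
      e₀ _ hindH _ hind₁
  refine ⟨⟨_, hdef⟩, fun B hB => ?_⟩
  have hindB : IsInducedBlock M (Subgroup.centralizer (D₀' : Set G)) e₀' B := by
    rw [he₀']
    exact bh_ind_down H (Subgroup.centralizer (D₀ : Set H))
      (Subgroup.centralizer (D₀' : Set G)) φ hφ e₀ _ hindH B hB
  have hpair := bp_of_induced hM D₀' hD₀'p e₀' B hindB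
  obtain ⟨bm, hchain, hmaxB⟩ := bp_exists_max (p := p) (M := M) B _ ⟨D₀', e₀'⟩ hpair le_rfl
  have hle : D₀' ≤ bm.1 := pf_le _ _ hchain
  have hW := bp_weight_cent hM D₀' e₀' ⟨hD₀'p, he₀'blk⟩ θ' hθ'mem h1' h2' B bm hchain hmaxB
  have hDdef := bp_max_defect hM B bm.1 bm.2 hmaxB
  have hZ : (Subgroup.center ↥bm.1).map bm.1.subtype
      ≤ ((Subgroup.center ↥D₀).map D₀.subtype).map H.subtype := by
    rintro _ ⟨z, hz, rfl⟩
    have hzc : (z : G) ∈ Subgroup.centralizer (D₀' : Set G) := by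
      rw [Subgroup.mem_centralizer_iff]
      intro d hd
      have h3 := Subgroup.mem_center_iff.mp hz ⟨d, hle hd⟩
      exact congrArg Subtype.val h3
    have hzD : (z : G) ∈ D₀' := hW _ z.2 hzc
    obtain ⟨k, hk, hkz⟩ := (hs _).mp hzD
    refine ⟨k, ⟨⟨k, hk⟩, ?_, rfl⟩, hkz⟩
    refine Subgroup.mem_center_iff.mpr (fun d => ?_)
    apply Subtype.ext
    apply Subtype.ext
    show ((d : H) : G) * (k : G) = (k : G) * ((d : H) : G)
    have hd' : ((d : H) : G) ∈ D₀' := (hs _).mpr ⟨d, d.2, rfl⟩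
    have h3 := Subgroup.mem_center_iff.mp hz ⟨_, hle hd'⟩
    have h4 := congrArg Subtype.val h3
    rw [hkz]
    exact h4
  have hZ2 : ((Subgroup.center ↥D₀).map D₀.subtype).map H.subtype ≤ D₀' := by
    rw [hD₀']
    refine Subgroup.map_mono ?_
    rintro _ ⟨z, -, rfl⟩
    exact z.2
  refine ⟨⟨bm.1, hDdef, hZ, hZ2, hle⟩, fun D hD hcomm => ?_⟩
  obtain ⟨χB, hχB⟩ := hB.2.1
  rw [hχB] at hD hDdef
  obtain ⟨x, hx⟩ := defect_groups_conj hM χB _ _ hD hDdef
  have hcommD : ∀ u ∈ bm.1, ∀ v ∈ bm.1, u * v = v * u := by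
    intro u hu v hv
    rw [hx] at hu hv
    obtain ⟨u', hu', rfl⟩ := hu
    obtain ⟨v', hv', rfl⟩ := hv
    have h3 := hcomm.is_comm.comm (⟨u', hu'⟩ : D) ⟨v', hv'⟩
    have h4 : u' * v' = v' * u' := congrArg Subtype.val h3
    show (MulAut.conj x) u' * (MulAut.conj x) v' = (MulAut.conj x) v' * (MulAut.conj x) u'
    rw [← map_mul, ← map_mul, h4]
  have hle2 : bm.1 ≤ D₀' := by
    intro u hu
    have hmem : u ∈ (Subgroup.center ↥bm.1).map bm.1.subtype := by
      refine ⟨⟨u, hu⟩, ?_, rfl⟩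
      refine Subgroup.mem_center_iff.mpr (fun v => ?_)
      apply Subtype.ext
      exact hcommD v v.2 u hu
    exact hZ2 (hZ hmem)
  have heq : D₀' = bm.1 := le_antisymm hle hle2
  rw [heq, hχB]
  exact hDdef

end Cfsg.Agent.Helper24
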