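import Cfsg.Agent.Helper24.Coh
import Cfsg.Agent.Helper5.Isom

/-!
# Linear characters and a character extending from a non-abelian minimal normal subgroup
(helper24)
-/

set_option autoImplicit false

namespace Cfsg.Agent.Helper24

open Cfsg Module
open scoped commutatorElement

universe u

variable {G : Type u} [Group G]

/-- A linear character is trivial on the commutator subgroup. -/
theorem linear_one_of_mem_commutator (χ : IrrCharacter G) (h1 : (χ : G → ℂ) 1 = 1) (g : G)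
    (hg : g ∈ commutator G) : (χ : G → ℂ) g = 1 := by
  rw [commutator_eq_closure] at hg
  have hmul := irr_linear_mul χ h1
  have hinv : ∀ x : G, (χ : G → ℂ) x * (χ : G → ℂ) x⁻¹ = 1 := by
    intro x
    rw [← hmul, mul_inv_cancel, h1]
  refine Subgroup.closure_induction (p := fun g _ => (χ : G → ℂ) g = 1) ?_ h1 ?_ ?_ hg
  · intro x hx
    obtain ⟨a, b, rfl⟩ := hx
    rw [commutatorElement_def, hmul, hmul, hmul]
    calc (χ : G → ℂ) a * (χ : G → ℂ) b * (χ : G → ℂ) a⁻¹ * (χ : G → ℂ) b⁻¹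
        = ((χ : G → ℂ) a * (χ : G → ℂ) a⁻¹) * ((χ : G → ℂ) b * (χ : G → ℂ) b⁻¹) := by ring
      _ = 1 := by rw [hinv, hinv, mul_one]
  · intro x y _ _ hx hy
    rw [hmul, hx, hy, mul_one]
  · intro x _ hx
    have := hinv x
    rw [hx, one_mul] at this
    exact this

/-- The restriction of a linear character to a subgroup is an irreducible character. -/
theorem isIrrCharacter_restrict_linear (H : Subgroup G) (χ : IrrCharacter G)
    (h1 : (χ : G → ℂ) 1 = 1) : IsIrrCharacter H (fun h : H => (χ : G → ℂ) h) := by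
  obtain ⟨n, ρ, hρ, hχ⟩ := χ.2
  have hn : finrank ℂ (Fin n → ℂ) = 1 := by
    have : ((finrank ℂ (Fin n → ℂ) : ℕ) : ℂ) = 1 := by
      rw [← Representation.char_one ρ, hχ]; exact h1
    exact_mod_cast this
  refine ⟨n, ρ.comp H.subtype, isIrreducible_of_finrank_eq_one _ hn, ?_⟩
  funext h
  rw [← hχ]
  rfl

theorem one_of_charDegree_one (χ : IrrCharacter G) (h : charDegree (χ : G → ℂ) = 1) :
    (χ : G → ℂ) 1 = 1 := by
  obtain ⟨d, hd⟩ := irr_one_eq_natCast χ
  rw [charDegree_of_eq hd] at h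
  rw [hd, h, Nat.cast_one]

/-- Linear characters agreeing on a subgroup `I`: at most `|G : I|` of them. -/
theorem card_linear_agree_le [Fintype G] (I : Subgroup G) (B : Finset (IrrCharacter G))
    (lam₀ : G → ℂ)
    (hB : ∀ χ ∈ B, (χ : G → ℂ) 1 = 1 ∧ ∀ g ∈ I, (χ : G → ℂ) g = lam₀ g) :
    B.card ≤ I.index := by
  classical
  rcases Finset.eq_empty_or_nonempty B with hemp | ⟨χ₁, hχ₁⟩
  · rw [hemp, Finset.card_empty]; exact Nat.zero_le _
  have hG : (Nat.card G : ℂ) ≠ 0 := Nat.cast_ne_zero.mpr Nat.card_pos.ne'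
  have hnorm : ∀ g ∈ I, lam₀ g * starRingEnd ℂ (lam₀ g) = 1 := by
    intro g hg
    rw [← (hB χ₁ hχ₁).2 g hg, ← irr_inv, ← irr_linear_mul χ₁ (hB χ₁ hχ₁).1, mul_inv_cancel]
    exact (hB χ₁ hχ₁).1
  obtain ⟨f, hf⟩ : ∃ f : G → ℂ, f = ∑ χ ∈ B, (χ : G → ℂ) := ⟨_, rfl⟩
  have hff : classInner f f = (B.card : ℂ) := by
    rw [hf, classInner_sum_left]
    have h1 : ∀ χ ∈ B, classInner (χ : G → ℂ) (∑ χ' ∈ B, (χ' : G → ℂ)) = 1 := by
      intro χ hχ
      rw [classInner_sum_right]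
      simp only [irr_orthonormal]
      rw [Finset.sum_ite_eq B χ, if_pos hχ]
    rw [Finset.sum_congr rfl h1, Finset.sum_const, nsmul_eq_mul, mul_one]
  have hfI : ∀ g ∈ I, f g * starRingEnd ℂ (f g) = (B.card : ℂ) ^ 2 := by
    intro g hg
    have e : f g = (B.card : ℂ) * lam₀ g := by
      rw [hf, Finset.sum_apply, Finset.sum_congr rfl fun χ hχ => (hB χ hχ).2 g hg,
        Finset.sum_const, nsmul_eq_mul]
    rw [e, map_mul, Complex.conj_natCast]
    calc (B.card : ℂ) * lam₀ g * ((B.card : ℂ) * starRingEnd ℂ (lam₀ g))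
        = (B.card : ℂ) ^ 2 * (lam₀ g * starRingEnd ℂ (lam₀ g)) := by ring
      _ = (B.card : ℂ) ^ 2 := by rw [hnorm g hg, mul_one]
  have hsum : ∑ g : G, Complex.normSq (f g) = (Nat.card G : ℝ) * B.card := by
    rw [classInner_def'] at hff
    have h2 : ∑ g : G, f g * starRingEnd ℂ (f g) = (Nat.card G : ℂ) * B.card := by
      rw [← hff, mul_inv_cancel_left₀ hG]
    have h3 : ((∑ g : G, Complex.normSq (f g) : ℝ) : ℂ) =
        (((Nat.card G : ℝ) * B.card : ℝ) : ℂ) := by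
      push_cast
      rw [← h2]
      exact Finset.sum_congr rfl fun g _ => (Complex.mul_conj (f g)).symm
    exact_mod_cast h3
  have hlow : (Nat.card I : ℝ) * (B.card : ℝ) ^ 2 ≤ ∑ g : G, Complex.normSq (f g) := by
    have h4 : ∑ g ∈ Finset.univ.filter (fun g : G => g ∈ I), Complex.normSq (f g) =
        (Nat.card I : ℝ) * (B.card : ℝ) ^ 2 := by
      have h5 : ∀ g ∈ Finset.univ.filter (fun g : G => g ∈ I),
          Complex.normSq (f g) = (B.card : ℝ) ^ 2 := by
        intro g hg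
        have hgI : g ∈ I := (Finset.mem_filter.mp hg).2
        have h6 := hfI g hgI
        rw [Complex.mul_conj] at h6
        exact_mod_cast h6
      rw [Finset.sum_congr rfl h5, Finset.sum_const, nsmul_eq_mul]
      congr 1
      rw [Nat.card_eq_fintype_card, Fintype.card_subtype]
    rw [← h4]
    exact Finset.sum_le_sum_of_subset_of_nonneg (Finset.filter_subset _ _)
      (fun g _ _ => Complex.normSq_nonneg _)
  rw [hsum] at hlow
  have hBpos : (0 : ℝ) < B.card := by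
    exact_mod_cast Finset.card_pos.mpr ⟨χ₁, hχ₁⟩
  have h7 : (Nat.card I : ℝ) * (B.card : ℝ) ≤ (Nat.card G : ℝ) := by
    have h8 : (Nat.card I : ℝ) * (B.card : ℝ) * B.card ≤ (Nat.card G : ℝ) * B.card := by
      calc (Nat.card I : ℝ) * (B.card : ℝ) * B.card = (Nat.card I : ℝ) * (B.card : ℝ) ^ 2 := by
            ring
        _ ≤ (Nat.card G : ℝ) * B.card := hlow
    exact le_of_mul_le_mul_right h8 hBpos
  have h9 : Nat.card I * B.card ≤ Nat.card I * I.index := by
    rw [Subgroup.card_mul_index]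
    exact_mod_cast h7
  exact Nat.le_of_mul_le_mul_left h9 Nat.card_pos

/-- Linear characters versus characters of degree `φ(1) |G : I|` when `φ ∈ Irr(N)` extends to
its stabilizer, `N` a non-abelian minimal normal subgroup. -/
theorem card_linear_le_of_extends [Finite G] (N : Subgroup G) (hN : N.Normal)
    (hmin : ∀ M : Subgroup G, M.Normal → M ≤ N → M = ⊥ ∨ M = N)
    (hna : ¬ IsMulCommutative ↥N) (φ : IrrCharacter ↥N) (I : Subgroup G)
    (hI : ∀ g : G, g ∈ I ↔ ∀ n n' : ↥N, (n' : G) = g * (n : G) * g⁻¹ →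
      (φ : ↥N → ℂ) n' = (φ : ↥N → ℂ) n) (hNI : N ≤ I)
    (hext : ∃ ψ : IrrCharacter ↥I, ∀ n : ↥N,
      (ψ : ↥I → ℂ) (Subgroup.inclusion hNI n) = (φ : ↥N → ℂ) n) :
    Nat.card {χ : IrrCharacter G // charDegree (χ : G → ℂ) = 1} ≤
      I.index * Nat.card {χ : IrrCharacter G //
        charDegree (χ : G → ℂ) = charDegree (φ : ↥N → ℂ) * I.index} := by
  classical
  haveI := Fintype.ofFinite G
  haveI : Fintype N := Fintype.ofFinite N
  haveI : Fintype I := Fintype.ofFinite I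
  haveI := hN
  obtain ⟨ψ, hψ⟩ := hext
  -- `N ≤ G'`
  have hNc : N ≤ commutator G := by
    have hn2 : (⁅N, N⁆ : Subgroup G).Normal := Subgroup.commutator_normal N N
    have hle : ⁅N, N⁆ ≤ N := Subgroup.commutator_le_left N N
    rcases hmin _ hn2 hle with h | h
    · exfalso
      apply hna
      rw [Subgroup.commutator_eq_bot_iff_le_centralizer] at h
      exact ⟨⟨fun a b => Subtype.ext ((h a.2 (b : G) b.2).symm)⟩⟩
    · rw [← h, commutator_def]
      exact Subgroup.commutator_mono le_top le_top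
  have hlinN : ∀ lam : IrrCharacter G, (lam : G → ℂ) 1 = 1 → ∀ n ∈ N, (lam : G → ℂ) n = 1 :=
    fun lam h1 n hn => linear_one_of_mem_commutator lam h1 n (hNc hn)
  have hT : ∀ g : G, g ∈ I ↔ ∀ n : N,
      (φ : N → ℂ) ⟨g * n * g⁻¹, hN.conj_mem (n : G) n.2 g⟩ = (φ : N → ℂ) n := by
    intro g
    rw [hI g]
    constructor
    · intro h n
      exact h n ⟨g * n * g⁻¹, hN.conj_mem (n : G) n.2 g⟩ rfl
    · intro h n n' hn'
      have e : n' = ⟨g * n * g⁻¹, hN.conj_mem (n : G) n.2 g⟩ := Subtype.ext hn'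
      rw [e]
      exact h n
  obtain ⟨hc1, hc2, -⟩ := Helper5.clifford_corr N (φ : N → ℂ) φ.2 I hT hNI
  have hψres : (fun n : N => (ψ : I → ℂ) ⟨n, hNI n.2⟩) = (φ : N → ℂ) := funext fun n => hψ n
  obtain ⟨Ψ, hΨ⟩ : ∃ Ψ : G → ℂ, Ψ = indFun I (ψ : I → ℂ) := ⟨_, rfl⟩
  have hΨirr : IsIrrCharacter G Ψ := by
    rw [hΨ]
    exact (hc1 ψ (by rw [hψres, irr_inner_self]; exact one_ne_zero)).1
  obtain ⟨cφ, hcφ⟩ := irr_one_eq_natCast φ
  have hcdφ : charDegree (φ : N → ℂ) = cφ := charDegree_of_eq hcφ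
  have hΨ1 : Ψ 1 = ((cφ * I.index : ℕ) : ℂ) := by
    rw [hΨ, Helper5.indFun_one]
    have e : (ψ : I → ℂ) 1 = (φ : N → ℂ) 1 := hψ 1
    rw [e, hcφ]
    push_cast
    ring
  -- the twisted characters of `I`
  have hθirr : ∀ lam : IrrCharacter G, (lam : G → ℂ) 1 = 1 →
      IsIrrCharacter I ((ψ : I → ℂ) * fun x : I => (lam : G → ℂ) x) := by
    intro lam h1
    rw [mul_comm]
    exact linear_mul_irr _ _ (isIrrCharacter_restrict_linear I lam h1) h1 ψ.2
  have hθres : ∀ lam : IrrCharacter G, (lam : G → ℂ) 1 = 1 →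
      (fun n : N => ((ψ : I → ℂ) * fun x : I => (lam : G → ℂ) x) ⟨n, hNI n.2⟩) =
        (φ : N → ℂ) := by
    intro lam h1
    funext n
    show (ψ : I → ℂ) ⟨n, hNI n.2⟩ * (lam : G → ℂ) n = _
    rw [hlinN lam h1 n n.2, mul_one]
    exact hψ n
  have hθind : ∀ lam : IrrCharacter G,
      indFun I ((ψ : I → ℂ) * fun x : I => (lam : G → ℂ) x) = Ψ * (lam : G → ℂ) := by
    intro lam
    rw [hΨ]
    exact Helper5.indFun_mul_res I (ψ : I → ℂ) (lam : G → ℂ) (irr_isClassFunction lam)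
  -- Gallagher on `I`
  haveI hN'n : (N.subgroupOf I).Normal := inferInstance
  have hgal := (Helper5.gallagher_bij (N.subgroupOf I) (fun _ => (1 : ℂ))
    (Helper5.resSub N I (φ : N → ℂ)) isIrrCharacter_one (fun _ _ => rfl)
    (fun g n => (hT (g : G)).mp g.2 ⟨((n : I) : G), Subgroup.mem_subgroupOf.mp n.2⟩)
    (by
      have e : ((fun _ => (1 : ℂ)) * Helper5.resSub N I (φ : N → ℂ)) =
          Helper5.resSub N I (φ : N → ℂ) := by
        funext x
        simp
      rw [e]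
      exact Helper5.isIrrCharacter_resSub hNI _ φ.2)
    (ψ : I → ℂ) ψ.2
    (fun n => hψ ⟨((n : I) : G), Subgroup.mem_subgroupOf.mp n.2⟩)).2.1
  have hagree : ∀ lam lam₀ : IrrCharacter G, (lam : G → ℂ) 1 = 1 → (lam₀ : G → ℂ) 1 = 1 →
      (lam : G → ℂ) * Ψ = (lam₀ : G → ℂ) * Ψ → ∀ g ∈ I, (lam : G → ℂ) g = (lam₀ : G → ℂ) g := by
    intro lam lam₀ h1 h10 heq g hg
    have e1 : indFun I ((ψ : I → ℂ) * fun x : I => (lam : G → ℂ) x) =
        indFun I ((ψ : I → ℂ) * fun x : I => (lam₀ : G → ℂ) x) := by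
      rw [hθind, hθind, mul_comm, heq, mul_comm]
    have e2 := hc2 ⟨_, hθirr lam h1⟩ ⟨_, hθirr lam₀ h10⟩
      (by
        show classInner (fun n : N => ((ψ : I → ℂ) * fun x : I => (lam : G → ℂ) x)
          ⟨n, hNI n.2⟩) (φ : N → ℂ) ≠ 0
        rw [hθres lam h1, irr_inner_self]; exact one_ne_zero)
      (by
        show classInner (fun n : N => ((ψ : I → ℂ) * fun x : I => (lam₀ : G → ℂ) x)
          ⟨n, hNI n.2⟩) (φ : N → ℂ) ≠ 0
        rw [hθres lam₀ h10, irr_inner_self]; exact one_ne_zero) e1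
    have e3 : ((ψ : I → ℂ) * fun x : I => (lam : G → ℂ) x) =
        ((ψ : I → ℂ) * fun x : I => (lam₀ : G → ℂ) x) := congrArg Subtype.val e2
    have hβ : ∀ mu : IrrCharacter G, (mu : G → ℂ) 1 = 1 →
        classInner (indFun (N.subgroupOf I) (fun _ => (1 : ℂ)))
          (fun x : I => (mu : G → ℂ) x) ≠ 0 := by
      intro mu hmu
      haveI : Fintype (N.subgroupOf I) := Fintype.ofFinite _
      rw [classInner_indFun (N.subgroupOf I) _ _
        (irr_isClassFunction ⟨_, isIrrCharacter_restrict_linear I mu hmu⟩)]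
      have e4 : (fun h : N.subgroupOf I => (fun x : I => (mu : G → ℂ) x) h) =
          fun _ => (1 : ℂ) := by
        funext h
        exact hlinN mu hmu _ (Subgroup.mem_subgroupOf.mp h.2)
      rw [e4]
      have e5 := irr_inner_self (⟨fun _ => 1, isIrrCharacter_one⟩ :
        IrrCharacter (N.subgroupOf I))
      rw [e5]
      exact one_ne_zero
    have e6 := hgal ⟨_, isIrrCharacter_restrict_linear I lam h1⟩
      ⟨_, isIrrCharacter_restrict_linear I lam₀ h10⟩ (hβ lam h1) (hβ lam₀ h10)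
      (by
        show (fun x : I => (lam : G → ℂ) x) * (ψ : I → ℂ) =
          (fun x : I => (lam₀ : G → ℂ) x) * (ψ : I → ℂ)
        rw [mul_comm, e3, mul_comm])
    have e7 : (fun x : I => (lam : G → ℂ) x) = fun x : I => (lam₀ : G → ℂ) x :=
      congrArg Subtype.val e6
    exact congrFun e7 ⟨g, hg⟩
  -- the map
  have hirrF : ∀ lam : {χ : IrrCharacter G // charDegree (χ : G → ℂ) = 1},
      IsIrrCharacter G ((lam.1 : G → ℂ) * Ψ) :=
    fun lam => linear_mul_irr _ _ lam.1.2 (one_of_charDegree_one lam.1 lam.2) hΨirr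
  have hdegF : ∀ lam : {χ : IrrCharacter G // charDegree (χ : G → ℂ) = 1},
      charDegree ((lam.1 : G → ℂ) * Ψ) = charDegree (φ : ↥N → ℂ) * I.index := by
    intro lam
    rw [hcdφ]
    apply charDegree_of_eq
    rw [Pi.mul_apply, one_of_charDegree_one lam.1 lam.2, one_mul, hΨ1]
  obtain ⟨F, hF⟩ : ∃ F : {χ : IrrCharacter G // charDegree (χ : G → ℂ) = 1} →
      {χ : IrrCharacter G // charDegree (χ : G → ℂ) = charDegree (φ : ↥N → ℂ) * I.index},
      ∀ lam, ((F lam).1 : G → ℂ) = (lam.1 : G → ℂ) * Ψ :=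
    ⟨fun lam => ⟨⟨_, hirrF lam⟩, hdegF lam⟩, fun _ => rfl⟩
  have hfiber : ∀ b ∈ (Finset.univ : Finset {χ : IrrCharacter G //
      charDegree (χ : G → ℂ) = 1}).image F,
      (Finset.univ.filter (fun a => F a = b)).card ≤ I.index := by
    intro b hb
    obtain ⟨lam₀, -, rfl⟩ := Finset.mem_image.mp hb
    rw [← Finset.card_image_of_injective _ Subtype.val_injective]
    apply card_linear_agree_le I _ (lam₀.1 : G → ℂ)
    intro χ hχ
    obtain ⟨lam, hlam, rfl⟩ := Finset.mem_image.mp hχ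
    have hFeq : F lam = F lam₀ := (Finset.mem_filter.mp hlam).2
    have h1 := one_of_charDegree_one lam.1 lam.2
    have h10 := one_of_charDegree_one lam₀.1 lam₀.2
    refine ⟨h1, hagree lam.1 lam₀.1 h1 h10 ?_⟩
    rw [← hF lam, ← hF lam₀, hFeq]
  rw [Nat.card_eq_fintype_card, Nat.card_eq_fintype_card, ← Finset.card_univ,
    ← Finset.card_univ (α := {χ : IrrCharacter G //
      charDegree (χ : G → ℂ) = charDegree (φ : ↥N → ℂ) * I.index})]
  calc (Finset.univ : Finset {χ : IrrCharacter G // charDegree (χ : G → ℂ) = 1}).card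
      ≤ I.index * (Finset.univ.image F).card := Finset.card_le_mul_card_image _ _ hfiber
    _ ≤ I.index * Finset.univ.card :=
      Nat.mul_le_mul_left _ (Finset.card_le_card (Finset.subset_univ _))

end Cfsg.Agent.Helper24
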