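import Mathlib
import Cfsg.Agent.Helper24.D1c

/-!
helper24: `2`-blocks with a defect group of order two have exactly two characters.
-/

set_option autoImplicit false
set_option maxHeartbeats 1600000

namespace Cfsg.Agent.Helper24

open Cfsg Cfsg.Agent.Helper22 Cfsg.Agent.Helper5

universe u

theorem d1_core {G : Type u} [Group G] [Finite G] (M : Ideal AlgInt) (hM : IsPModular 2 M)
    (x : G) (hx : orderOf x = 2) (B : Set (IrrCharacter G)) (hB : IsPBlock M B)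
    (hBD : IsDefectGroup 2 M B (Subgroup.zpowers x)) (C : Subgroup G)
    (hC : C = Subgroup.centralizer ({x} : Set G)) (b : Set (IrrCharacter C))
    (hb : IsInducedBlock M C b B) (θ : IrrCharacter C) (hθ : θ ∈ b)
    (hθx : ∀ z : C, (z : G) = x → θ.1 z = θ.1 1) :
    Nat.card B = 2 ∧
    (∀ χ ∈ B, ∀ ψ ∈ B, ∀ g : G, ¬ 2 ∣ orderOf g → χ.1 g = ψ.1 g) ∧
    ∃ χ₁ ∈ B, ∃ χ₂ ∈ B, χ₁ ≠ χ₂ ∧ ∃ ε₁ ε₂ : ℤ, (ε₁ = 1 ∨ ε₁ = -1) ∧ (ε₂ = 1 ∨ ε₂ = -1) ∧
      ε₁ * ε₂ = -1 ∧ ∀ y : C, ¬ 2 ∣ orderOf y →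
        χ₁.1 (x * (y : G)) = (ε₁ : ℂ) * θ.1 y ∧ χ₂.1 (x * (y : G)) = (ε₂ : ℂ) * θ.1 y := by
  classical
  haveI : Fintype G := Fintype.ofFinite G
  haveI : Fintype C := Fintype.ofFinite C
  haveI hMp : M.IsPrime := hM.2.1.isPrime
  haveI : Fact (Nat.Prime 2) := ⟨Nat.prime_two⟩
  obtain ⟨χ₀, rfl⟩ := hB
  have hB : IsPBlock M (blockOf M (χ₀ : G → ℂ)) := ⟨χ₀, rfl⟩
  have hconjint : ∀ k : ℤ, starRingEnd ℂ ((k : ℤ) : ℂ) = ((k : ℤ) : ℂ) :=
    fun k => Complex.conj_eq_iff_re.mpr rfl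
  have hG0 : (Nat.card G : ℂ) ≠ 0 := Nat.cast_ne_zero.mpr Nat.card_pos.ne'
  have hC0 : (Nat.card C : ℂ) ≠ 0 := Nat.cast_ne_zero.mpr Nat.card_pos.ne'
  have hmemC : ∀ c : G, c ∈ C ↔ c * x = x * c := fun c => by
    rw [hC]; exact Subgroup.mem_centralizer_singleton_iff
  have hxC : x ∈ C := (hmemC x).mpr rfl
  obtain ⟨z, hzdef⟩ : ∃ z : C, z = ⟨x, hxC⟩ := ⟨_, rfl⟩
  have hzx : (z : G) = x := by rw [hzdef]
  have hz : orderOf z = 2 := by rw [← Subgroup.orderOf_coe, hzx, hx]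
  have hzc : ∀ h : C, z * h = h * z := fun h => Subtype.ext (by
    show (z : G) * (h : G) = (h : G) * (z : G)
    rw [hzx]
    exact ((hmemC h).mp h.2).symm)
  have hz2 : z * z = 1 := by rw [← sq, ← hz]; exact pow_orderOf_eq_one z
  have hzp : Subgroup.zpowers z = (Subgroup.zpowers x).subgroupOf C := by
    ext c
    rw [Subgroup.mem_subgroupOf, Subgroup.mem_zpowers_iff, Subgroup.mem_zpowers_iff]
    constructor
    · rintro ⟨k, hk⟩
      exact ⟨k, by rw [← hk, Subgroup.coe_zpow, hzx]⟩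
    · rintro ⟨k, hk⟩
      exact ⟨k, Subtype.ext (by rw [Subgroup.coe_zpow, hzx, hk])⟩
  have hPx : IsPGroup 2 (Subgroup.zpowers x) :=
    IsPGroup.of_card (n := 1) (by rw [Nat.card_zpowers, hx, pow_one])
  have hdefall : ∀ b'' : Set (IrrCharacter C), IsInducedBlock M C b'' (blockOf M (χ₀ : G → ℂ)) →
      (∀ D' : Subgroup C, IsDefectGroup 2 M b'' D' →
        D' = (Subgroup.zpowers x).subgroupOf C) ∧
      ∃ D' : Subgroup C, IsDefectGroup 2 M b'' D' := by
    intro b'' hb''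
    refine ⟨fun D' hD' => d1_defect_eq M hM x hx _ hB hBD C (fun c hc => (hmemC c).mp hc) hxC
      b'' hb'' D' hD', ?_⟩
    obtain ⟨g, hg⟩ := Cfsg.Agent.S0906.result 2 M hM b'' hb''.1
    obtain ⟨Q⟩ : Nonempty (Sylow 2 (Subgroup.centralizer ({g} : Set C))) := inferInstance
    exact ⟨_, ⟨g, hg, Q, rfl⟩⟩
  obtain ⟨ξ₀, rfl⟩ := hb.1
  have hdefb := hdefall _ hb
  obtain ⟨hreg, hθnorm⟩ := d1_local hM z hz hzc ξ₀
    (fun D hD => by rw [hzp]; exact hdefb.1 D hD) hdefb.2 θ hθ (hθx z hzx)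
  have huniqb : ∀ b'' : Set (IrrCharacter C), IsPBlock M b'' →
      IsInducedBlock M C b'' (blockOf M (χ₀ : G → ℂ)) → b'' = blockOf M (ξ₀ : C → ℂ) := by
    intro b'' hb''1 hb''
    obtain ⟨D', hD'⟩ := (hdefall b'' hb'').2
    obtain ⟨D₀, hD₀⟩ := hdefb.2
    have e1 := (hdefall b'' hb'').1 D' hD'
    have e0 := hdefb.1 D₀ hD₀
    rw [e1] at hD'
    rw [e0] at hD₀
    exact d1_unique 2 M hM (Subgroup.zpowers x) hPx _ hB hBD C
      (hC.trans (d1_cent_eq_norm x hx)) b'' _ hb''1 hD' hb'' hb.1 hD₀ hb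
  -- second main theorem
  have hsmt : ∀ χ ∈ blockOf M (χ₀ : G → ℂ), ∃ d : ℤ, ∀ y : C, ¬ 2 ∣ orderOf y →
      χ.1 (x * (y : G)) = (d : ℂ) * θ.1 y := by
    intro χ hχ
    have hsm := d1_smt M hM x hx _ hB χ hχ C hC
    obtain ⟨φ, hφ⟩ : ∃ φ : C → ℂ, φ = fun c : C => χ.1 (x * (c : G)) := ⟨_, rfl⟩
    rw [← hφ] at hsm
    have hφapp : ∀ c : C, φ c = χ.1 (x * (c : G)) := fun c => by rw [hφ]
    have hφcf : IsClassFunction C φ := by
      intro g t
      rw [hφapp, hφapp]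
      have ht : (t : G) * x = x * (t : G) := (hmemC t).mp t.2
      have h1 : x * ((t * g * t⁻¹ : C) : G) = (t : G) * (x * (g : G)) * (t : G)⁻¹ := by
        show x * ((t : G) * (g : G) * (t : G)⁻¹) = (t : G) * (x * (g : G)) * (t : G)⁻¹
        rw [show x * ((t : G) * (g : G) * (t : G)⁻¹) = (x * (t : G)) * (g : G) * (t : G)⁻¹ by
          simp only [mul_assoc], ← ht]
        simp only [mul_assoc]
      rw [h1, irr_conj]
    have hint : ∀ ψ : IrrCharacter C, ∃ k : ℤ, classInner φ (ψ : C → ℂ) = k := by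
      intro ψ
      obtain ⟨n, hn⟩ := isCharacter_inner_irr
        (isCharacter_restrict C (isCharacter_of_isIrrCharacter χ.2)) ψ
      have hn' : (Nat.card C : ℂ)⁻¹ * ∑ c : C, χ.1 (c : G) * starRingEnd ℂ (ψ.1 c) = n := hn
      have hre : ∑ c : C, χ.1 (c : G) * starRingEnd ℂ (ψ.1 c)
          = ∑ c : C, χ.1 (x * (c : G)) * starRingEnd ℂ (ψ.1 (z * c)) := by
        rw [← Equiv.sum_comp (Equiv.mulLeft z)
          (fun c : C => χ.1 (c : G) * starRingEnd ℂ (ψ.1 c))]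
        refine Finset.sum_congr rfl fun c _ => ?_
        show χ.1 ((z * c : C) : G) * starRingEnd ℂ (ψ.1 (z * c)) = _
        rw [Subgroup.coe_mul, hzx]
      rcases d1_central_sign ψ z hz2 hzc with hs | hs
      · refine ⟨n, ?_⟩
        rw [Int.cast_natCast, ← hn', classInner_def']
        congr 1
        rw [hre]
        refine Finset.sum_congr rfl fun c _ => ?_
        rw [hφapp, hs c]
      · refine ⟨-n, ?_⟩
        rw [Int.cast_neg, Int.cast_natCast, ← hn', classInner_def', ← mul_neg]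
        congr 1
        rw [hre, ← Finset.sum_neg_distrib]
        refine Finset.sum_congr rfl fun c _ => ?_
        rw [hφapp, hs c, map_neg, mul_neg, neg_neg]
    choose k hk using hint
    refine ⟨∑ ψ : IrrCharacter C, if ψ ∈ blockOf M (ξ₀ : C → ℂ) then k ψ else 0,
      fun y hy => ?_⟩
    have hexp : φ y = ∑ ψ : IrrCharacter C, classInner φ (ψ : C → ℂ) * ψ.1 y := by
      have h := congrFun (classFunction_eq_sum_irr φ hφcf) y
      rw [Finset.sum_apply] at h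
      exact h.trans (Finset.sum_congr rfl fun ψ _ => by rw [Pi.smul_apply, smul_eq_mul])
    have hblocks := sum_irr_eq_sum_blocks hM
      (fun ψ : IrrCharacter C => classInner φ (ψ : C → ℂ) * ψ.1 y)
    have h₀' : ∀ e : Set (IrrCharacter C), e ≠ blockOf M (ξ₀ : C → ℂ) →
        (if IsPBlock M e then (∑ ψ : IrrCharacter C,
          if ψ ∈ e then classInner φ (ψ : C → ℂ) * ψ.1 y else 0) else 0) = 0 := by
      intro e hne
      by_cases he : IsPBlock M e
      · rw [if_pos he]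
        have hnot : ¬ IsInducedBlock M C e (blockOf M (χ₀ : G → ℂ)) :=
          fun h => hne (huniqb e he h)
        have h0 := hsm e he hnot y hy
        rw [blockPart_eq_spec e (fun ψ => if ψ ∈ e then (1 : ℂ) else 0)
          (fun ψ h => if_pos h) (fun ψ h => if_neg h) φ y] at h0
        refine Eq.trans (Finset.sum_congr rfl fun ψ _ => ?_) h0
        by_cases hψ : ψ ∈ e
        · rw [if_pos hψ, if_pos hψ, one_mul]
        · rw [if_neg hψ, if_neg hψ, zero_mul]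
      · rw [if_neg he]
    have h1 := hexp.trans hblocks
    rw [Finset.sum_eq_single (blockOf M (ξ₀ : C → ℂ)) (fun e _ hne => h₀' e hne)
      (fun h => absurd (Finset.mem_univ _) h), if_pos hb.1] at h1
    rw [← hφapp y, h1, Int.cast_sum, Finset.sum_mul]
    refine Finset.sum_congr rfl fun ψ _ => ?_
    by_cases hψ : ψ ∈ blockOf M (ξ₀ : C → ℂ)
    · rw [if_pos hψ, if_pos hψ, hk ψ, hreg ψ hψ y hy]
    · rw [if_neg hψ, if_neg hψ, Int.cast_zero, zero_mul]
  choose! d hd using hsmt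
  have hχ₀B : χ₀ ∈ blockOf M (χ₀ : G → ℂ) := sameBlock_refl _
  -- vanishing outside the sections of `1` and `x`
  have hvanG : ∀ χ ∈ blockOf M (χ₀ : G → ℂ), ∀ g u : G, IsPPart 2 g u → u ≠ 1 →
      ¬ IsConj u x → χ.1 g = 0 := by
    intro χ hχ g u hu hu1 hux
    have hbe : blockOf M (χ : G → ℂ) = blockOf M (χ₀ : G → ℂ) :=
      blockOf_eq_of_sameBlock (sameBlock_symm hχ)
    refine vanish_of_ppart hM χ g u hu (fun D hD hmem => ?_)
    rw [hbe] at hD
    obtain ⟨t, ht⟩ := defect_group_conj_mem hM χ₀ (Subgroup.zpowers x) D hBD hD u hmem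
    rcases d1_zpowers_two x hx _ ht with h | h
    · apply hu1
      have h4 := congrArg (fun w => t⁻¹ * w * t) h
      simpa [mul_assoc] using h4
    · exact hux (isConj_iff.mpr ⟨t, h⟩)
  -- nonvanishing of the generalized decomposition numbers
  have hdne : ∀ χ ∈ blockOf M (χ₀ : G → ℂ), d χ ≠ 0 := by
    obtain ⟨g, hg, P, hP⟩ := hBD
    have hgreg : ¬ 2 ∣ orderOf g := by
      intro h2
      have h0 := weak_block_orth hM χ₀ 1 g (by rw [orderOf_one]; decide) h2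
      apply hg.2.1
      have h3 : blockCoeff (blockOf M (χ₀ : G → ℂ)) g = 0 := by
        unfold blockCoeff
        rw [h0, mul_zero]
      rw [h3]
      exact memLocalIdeal_zero hMp.ne_top
    have hxmem : x ∈ (P : Subgroup (Subgroup.centralizer ({g} : Set G))).map
        (Subgroup.centralizer ({g} : Set G)).subtype := by
      rw [← hP]; exact Subgroup.mem_zpowers x
    obtain ⟨x'', hx''P, hx''⟩ := Subgroup.mem_map.mp hxmem
    have hx''x : (x'' : G) = x := hx''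
    have hcommP : ∀ w ∈ (P : Subgroup (Subgroup.centralizer ({g} : Set G))),
        x'' * w = w * x'' := by
      intro w hw
      have hwz : (w : G) ∈ Subgroup.zpowers x := by
        rw [hP]; exact Subgroup.mem_map.mpr ⟨w, hw, rfl⟩
      apply Subtype.ext
      show (x'' : G) * (w : G) = (w : G) * (x'' : G)
      rw [hx''x]
      rcases d1_zpowers_two x hx _ hwz with h | h
      · rw [h, mul_one, one_mul]
      · rw [h]
    have hS := (Cfsg.Agent.S0927.result 2 M hM _ hB g hg P x'' hx''P).2 hcommP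
    intro χ hχ hd0
    apply hS χ hχ
    have hxg : x * g = g * x := by
      have h5 := Subgroup.mem_centralizer_singleton_iff.mp x''.2
      rw [hx''x] at h5
      exact h5
    have hgC : g ∈ C := (hmemC g).mpr hxg.symm
    have hval := hd χ hχ ⟨g, hgC⟩ (by rw [← Subgroup.orderOf_coe]; exact hgreg)
    rw [hd0, Int.cast_zero, zero_mul] at hval
    have hval' : χ.1 (x * g) = 0 := hval
    have h6 : centralChar (χ : G → ℂ) ((x'' : G) * g) = 0 := by
      unfold centralChar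
      rw [hx''x, hval', mul_zero, zero_div]
    rw [h6]
    exact memLocalIdeal_zero hMp.ne_top
  have hsumG : ∀ χ χ' : IrrCharacter G, ∑ g : G, χ.1 g * starRingEnd ℂ (χ'.1 g)
      = if χ = χ' then (Nat.card G : ℂ) else 0 := by
    intro χ χ'
    have h := irr_orthonormal χ χ'
    rw [classInner_def'] at h
    have h1 : ∑ g : G, χ.1 g * starRingEnd ℂ (χ'.1 g)
        = (Nat.card G : ℂ) * ((Nat.card G : ℂ)⁻¹ * ∑ g : G, χ.1 g * starRingEnd ℂ (χ'.1 g)) := by
      rw [← mul_assoc, mul_inv_cancel₀ hG0, one_mul]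
    rw [h1, h]
    by_cases e : χ = χ'
    · rw [if_pos e, if_pos e, mul_one]
    · rw [if_neg e, if_neg e, mul_zero]
  have hN2 : ∀ (ξ : G → ℂ), (∀ g t : G, ξ (t * g * t⁻¹) = ξ g) →
      (∀ g u : G, IsPPart 2 g u → u ≠ 1 → ¬ IsConj u x → ξ g = 0) → ∀ (D : ℂ),
      (∀ y : C, ¬ 2 ∣ orderOf y → ξ (x * (y : G)) = D * θ.1 y) →
      ∑ g : G, ξ g * starRingEnd ℂ (ξ g)
        = ∑ g ∈ Finset.univ.filter (fun g : G => ¬ 2 ∣ orderOf g), ξ g * starRingEnd ℂ (ξ g)
          + (Nat.card G : ℂ) * (D * starRingEnd ℂ D) / 2 := by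
    intro ξ hξ hvan D hD
    rw [d1_gnorm x hx C hC θ.1 _ hθnorm ξ hξ hvan D hD]
    congr 1
    field_simp
  have hdpm : ∀ χ ∈ blockOf M (χ₀ : G → ℂ), d χ = 1 ∨ d χ = -1 := by
    intro χ hχ
    have h1 := hN2 χ.1 (fun g t => irr_conj χ g t)
      (fun g u hu hu1 hux => hvanG χ hχ g u hu hu1 hux) (d χ) (hd χ hχ)
    rw [hsumG χ χ, if_pos rfl, hconjint] at h1
    have h2 : ∑ g ∈ Finset.univ.filter (fun g : G => ¬ 2 ∣ orderOf g),
        χ.1 g * starRingEnd ℂ (χ.1 g)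
        = ((∑ g ∈ Finset.univ.filter (fun g : G => ¬ 2 ∣ orderOf g),
          Complex.normSq (χ.1 g) : ℝ) : ℂ) := by
      rw [Complex.ofReal_sum]
      exact Finset.sum_congr rfl fun g _ => Complex.mul_conj _
    rw [h2] at h1
    have hrpos : 0 < ∑ g ∈ Finset.univ.filter (fun g : G => ¬ 2 ∣ orderOf g),
        Complex.normSq (χ.1 g) := by
      have h1mem : (1 : G) ∈ Finset.univ.filter (fun g : G => ¬ 2 ∣ orderOf g) :=
        Finset.mem_filter.mpr ⟨Finset.mem_univ _, by rw [orderOf_one]; decide⟩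
      have hpos : 0 < Complex.normSq (χ.1 1) :=
        Complex.normSq_pos.mpr (Cfsg.Agent.Helper24.irr_one_ne_zero χ)
      exact lt_of_lt_of_le hpos (Finset.single_le_sum
        (f := fun g => Complex.normSq (χ.1 g)) (fun g _ => Complex.normSq_nonneg _) h1mem)
    have h3 : (Nat.card G : ℝ) = ∑ g ∈ Finset.univ.filter (fun g : G => ¬ 2 ∣ orderOf g),
        Complex.normSq (χ.1 g) + (Nat.card G : ℝ) * ((d χ : ℝ) * (d χ : ℝ)) / 2 := by
      exact_mod_cast h1
    have hGpos : (0 : ℝ) < Nat.card G := Nat.cast_pos.mpr Nat.card_pos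
    have h4 : ((d χ : ℝ) * (d χ : ℝ)) < 2 := by
      by_contra hge
      rw [not_lt] at hge
      have h5 := mul_le_mul_of_nonneg_left hge hGpos.le
      linarith
    have h5 : d χ * d χ < 2 := by exact_mod_cast h4
    have h6 := hdne χ hχ
    have h7 : -1 ≤ d χ ∧ d χ ≤ 1 := by constructor <;> nlinarith
    omega
  have hpair : ∀ χ ∈ blockOf M (χ₀ : G → ℂ), ∀ χ' ∈ blockOf M (χ₀ : G → ℂ), χ ≠ χ' →
      d χ * d χ' = -1 ∧ ∀ g : G, ¬ 2 ∣ orderOf g → χ.1 g = χ'.1 g := by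
    intro χ hχ χ' hχ' hne
    obtain ⟨e, he⟩ : ∃ e : ℤ, e = d χ * d χ' := ⟨_, rfl⟩
    have hee : e = 1 ∨ e = -1 := by
      rcases hdpm χ hχ with h | h <;> rcases hdpm χ' hχ' with h' | h' <;>
        rw [he, h, h'] <;> norm_num
    have hee1 : e * e = 1 := by rcases hee with h | h <;> rw [h] <;> norm_num
    obtain ⟨ξ, hξdef⟩ : ∃ ξ : G → ℂ, ξ = fun g => χ.1 g + (e : ℂ) * χ'.1 g := ⟨_, rfl⟩
    have hξapp : ∀ g, ξ g = χ.1 g + (e : ℂ) * χ'.1 g := fun g => by rw [hξdef]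
    have hd'2 : (d χ' : ℂ) * (d χ' : ℂ) = 1 := by
      rcases hdpm χ' hχ' with h | h <;> rw [h] <;> norm_num
    have hd2 : (d χ : ℂ) * (d χ : ℂ) = 1 := by
      rcases hdpm χ hχ with h | h <;> rw [h] <;> norm_num
    have hD : ∀ y : C, ¬ 2 ∣ orderOf y → ξ (x * (y : G)) = ((2 * d χ : ℤ) : ℂ) * θ.1 y := by
      intro y hy
      rw [hξapp, hd χ hχ y hy, hd χ' hχ' y hy, he]
      push_cast
      linear_combination (d χ : ℂ) * θ.1 y * hd'2
    have h1 := hN2 ξ (fun g t => by rw [hξapp, hξapp, irr_conj, irr_conj])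
      (fun g u hu hu1 hux => by
        rw [hξapp, hvanG χ hχ g u hu hu1 hux, hvanG χ' hχ' g u hu hu1 hux, mul_zero, add_zero])
      _ hD
    have htot : ∑ g : G, ξ g * starRingEnd ℂ (ξ g) = 2 * (Nat.card G : ℂ) := by
      have hexp : ∀ g : G, ξ g * starRingEnd ℂ (ξ g)
          = χ.1 g * starRingEnd ℂ (χ.1 g) + (e : ℂ) * (χ.1 g * starRingEnd ℂ (χ'.1 g))
            + (e : ℂ) * (χ'.1 g * starRingEnd ℂ (χ.1 g))
            + ((e * e : ℤ) : ℂ) * (χ'.1 g * starRingEnd ℂ (χ'.1 g)) := by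
        intro g
        rw [hξapp, map_add, map_mul, hconjint]
        push_cast
        ring
      rw [Finset.sum_congr rfl (fun g _ => hexp g), Finset.sum_add_distrib,
        Finset.sum_add_distrib, Finset.sum_add_distrib, ← Finset.mul_sum, ← Finset.mul_sum,
        ← Finset.mul_sum, hsumG χ χ, hsumG χ χ', hsumG χ' χ, hsumG χ' χ', if_pos rfl,
        if_neg hne, if_neg (Ne.symm hne), if_pos rfl, hee1]
      push_cast
      ring
    rw [htot, hconjint] at h1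
    have hzero : ∑ g ∈ Finset.univ.filter (fun g : G => ¬ 2 ∣ orderOf g),
        ξ g * starRingEnd ℂ (ξ g) = 0 := by
      have h8 : (Nat.card G : ℂ) * (((2 * d χ : ℤ) : ℂ) * ((2 * d χ : ℤ) : ℂ)) / 2
          = 2 * (Nat.card G : ℂ) := by
        push_cast
        linear_combination (2 * (Nat.card G : ℂ)) * hd2
      rw [h8] at h1
      linear_combination -h1
    have hzero' : ∑ g ∈ Finset.univ.filter (fun g : G => ¬ 2 ∣ orderOf g),
        Complex.normSq (ξ g) = 0 := by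
      have h2 : ∑ g ∈ Finset.univ.filter (fun g : G => ¬ 2 ∣ orderOf g),
          ξ g * starRingEnd ℂ (ξ g)
          = ((∑ g ∈ Finset.univ.filter (fun g : G => ¬ 2 ∣ orderOf g),
            Complex.normSq (ξ g) : ℝ) : ℂ) := by
        rw [Complex.ofReal_sum]
        exact Finset.sum_congr rfl fun g _ => Complex.mul_conj _
      rw [h2] at hzero
      exact_mod_cast hzero
    have hξ0 : ∀ g : G, ¬ 2 ∣ orderOf g → ξ g = 0 := by
      intro g hg
      have h9 := (Finset.sum_eq_zero_iff_of_nonneg (fun g _ => Complex.normSq_nonneg _)).mp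
        hzero' g (Finset.mem_filter.mpr ⟨Finset.mem_univ _, hg⟩)
      exact Complex.normSq_eq_zero.mp h9
    obtain ⟨n, hn0, hn⟩ := Cfsg.Agent.Helper5.irr_one_eq_natCast_pos χ
    obtain ⟨n', hn'0, hn'⟩ := Cfsg.Agent.Helper5.irr_one_eq_natCast_pos χ'
    have h1' := hξ0 1 (by rw [orderOf_one]; decide)
    rw [hξapp, hn, hn'] at h1'
    have he1 : e = -1 := by
      rcases hee with h | h
      · exfalso
        rw [h] at h1'
        have h10 : ((n + n' : ℕ) : ℂ) = 0 := by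
          push_cast
          linear_combination h1'
        rw [Nat.cast_eq_zero] at h10
        omega
      · exact h
    refine ⟨by rw [← he]; exact he1, fun g hg => ?_⟩
    have h2 := hξ0 g hg
    rw [hξapp, he1] at h2
    push_cast at h2
    linear_combination h2
  have hex2 : ∃ χ₂ ∈ blockOf M (χ₀ : G → ℂ), χ₂ ≠ χ₀ := by
    by_contra hcon
    push Not at hcon
    have hw := weak_block_orth_sum hM χ₀ 1 x (by rw [orderOf_one]; decide) (by rw [hx])
    have hfilter : Finset.univ.filter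
        (fun χ : IrrCharacter G => SameBlock M (χ₀ : G → ℂ) (χ : G → ℂ)) = {χ₀} := by
      ext χ
      rw [Finset.mem_filter, Finset.mem_singleton]
      exact ⟨fun h => hcon χ h.2, fun h => ⟨Finset.mem_univ _, h ▸ hχ₀B⟩⟩
    rw [hfilter, Finset.sum_singleton] at hw
    have h1reg : ¬ 2 ∣ orderOf (1 : C) := by rw [orderOf_one]; decide
    have hval := hd χ₀ hχ₀B 1 h1reg
    rw [Subgroup.coe_one, mul_one] at hval
    rw [hval] at hw
    have h0 : (χ₀ : G → ℂ) 1 ≠ 0 := Cfsg.Agent.Helper24.irr_one_ne_zero χ₀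
    have hθ0 : θ.1 1 ≠ 0 := Cfsg.Agent.Helper24.irr_one_ne_zero θ
    have hd0 : ((d χ₀ : ℤ) : ℂ) ≠ 0 := Int.cast_ne_zero.mpr (hdne χ₀ hχ₀B)
    rcases mul_eq_zero.mp hw with h | h
    · exact h0 h
    · rw [map_mul] at h
      rcases mul_eq_zero.mp h with h' | h'
      · exact hd0 ((map_eq_zero _).mp h')
      · exact hθ0 ((map_eq_zero _).mp h')
  obtain ⟨χ₂, hχ₂B, hχ₂ne⟩ := hex2
  have hall : ∀ χ ∈ blockOf M (χ₀ : G → ℂ), χ = χ₀ ∨ χ = χ₂ := by
    intro χ hχ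
    by_contra hcon
    push Not at hcon
    have h1 := (hpair χ₀ hχ₀B χ₂ hχ₂B (Ne.symm hχ₂ne)).1
    have h2 := (hpair χ hχ χ₀ hχ₀B hcon.1).1
    have h3 := (hpair χ hχ χ₂ hχ₂B hcon.2).1
    have h4 : (d χ * d χ₀ * d χ₂) * (d χ * d χ₀ * d χ₂) = -1 := by
      calc (d χ * d χ₀ * d χ₂) * (d χ * d χ₀ * d χ₂)
          = (d χ₀ * d χ₂) * (d χ * d χ₀) * (d χ * d χ₂) := by ring
        _ = -1 := by rw [h1, h2, h3]; norm_num
    nlinarith [mul_self_nonneg (d χ * d χ₀ * d χ₂)]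
  have hBeq : blockOf M (χ₀ : G → ℂ) = {χ₀, χ₂} := by
    ext χ
    constructor
    · intro hχ
      rcases hall χ hχ with h | h
      · rw [h]; exact Set.mem_insert _ _
      · rw [h]; exact Set.mem_insert_of_mem _ rfl
    · intro hχ
      rcases hχ with h | h
      · rw [h]; exact hχ₀B
      · rw [Set.mem_singleton_iff] at h; rw [h]; exact hχ₂B
  refine ⟨?_, ?_, χ₀, hχ₀B, χ₂, hχ₂B, Ne.symm hχ₂ne, d χ₀, d χ₂, hdpm χ₀ hχ₀B, hdpm χ₂ hχ₂B,
    (hpair χ₀ hχ₀B χ₂ hχ₂B (Ne.symm hχ₂ne)).1, fun y hy => ⟨hd χ₀ hχ₀B y hy, hd χ₂ hχ₂B y hy⟩⟩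
  · rw [hBeq, Nat.card_coe_set_eq, Set.ncard_pair (Ne.symm hχ₂ne)]
  · intro χ hχ ψ hψ g hg
    by_cases e : χ = ψ
    · rw [e]
    · exact (hpair χ hχ ψ hψ e).2 g hg

end Cfsg.Agent.Helper24
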