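import Cfsg.Agent.Helper5.CycExt
import Cfsg.Agent.Helper5.Cliff
import Cfsg.Agent.Helper24.CharLinear
import Cfsg.Agent.Helper24.CharIntegral

/-!
# Fully ramified characters

* `sum_sub_conj`, `sum_sub_char_conj_mul` : averaging over a subgroup on which a representation
  restricts irreducibly.
* `fully_ramified_vanish` : a fully ramified character vanishes off the normal subgroup.
* `fully_ramified_no_selfcent_cyclic` : if `χ` is fully ramified over `Z ≠ G` then `G ⧸ Z` has no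
  self-centralizing cyclic subgroup.
-/

set_option autoImplicit false

namespace Cfsg.Agent.Helper24

open Cfsg Module
open scoped Classical

universe u v

variable {G : Type u} [Group G]

theorem sum_sub_conj (N : Subgroup G) [Fintype N] {V : Type v} [AddCommGroup V]
    [Module ℂ V] [FiniteDimensional ℂ V] (ρ' : Representation ℂ G V)
    (hirr : Representation.IsIrreducible (MonoidHom.comp ρ' N.subtype : Representation ℂ N V))
    (b : G) :
    ∑ w : N, ρ' ((w : G) * b * (w : G)⁻¹) =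
      ((Nat.card N : ℂ) * ρ'.character b / (finrank ℂ V : ℂ)) • LinearMap.id := by
  haveI := hirr
  have hcomm : ∀ n : N, (∑ w : N, ρ' ((w : G) * b * (w : G)⁻¹)) ∘ₗ
      (MonoidHom.comp ρ' N.subtype : Representation ℂ N V) n =
      (MonoidHom.comp ρ' N.subtype : Representation ℂ N V) n ∘ₗ
        (∑ w : N, ρ' ((w : G) * b * (w : G)⁻¹)) := by
    intro n
    ext v
    simp only [LinearMap.comp_apply, LinearMap.sum_apply, map_sum]
    refine (Fintype.sum_equiv (Equiv.mulLeft n) _ _ fun x => ?_).symm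
    simp only [Equiv.coe_mulLeft]
    have e : ρ' (((n * x : N) : G) * b * ((n * x : N) : G)⁻¹) * ρ' (n : G) =
        ρ' (n : G) * ρ' ((x : G) * b * (x : G)⁻¹) := by
      rw [← map_mul, ← map_mul]
      congr 1
      push_cast
      group
    exact (LinearMap.congr_fun e v).symm
  have h := eq_smul_of_comm_of_irreducible
    (MonoidHom.comp ρ' N.subtype : Representation ℂ N V) _ hcomm
  rw [h]
  congr 2
  rw [map_sum]
  have h2 : ∀ x : N, LinearMap.trace ℂ V (ρ' ((x : G) * b * (x : G)⁻¹)) = ρ'.character b :=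
    fun x => Representation.char_conj ρ' b x
  simp only [h2, Finset.sum_const, Finset.card_univ, nsmul_eq_mul, Nat.card_eq_fintype_card]

theorem sum_sub_char_conj_mul (N : Subgroup G) [Fintype N] {V : Type v} [AddCommGroup V]
    [Module ℂ V] [FiniteDimensional ℂ V] (ρ' : Representation ℂ G V)
    (hirr : Representation.IsIrreducible (MonoidHom.comp ρ' N.subtype : Representation ℂ N V))
    (a b : G) :
    ∑ w : N, ρ'.character (a * (w : G) * b * (w : G)⁻¹) =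
      (Nat.card N : ℂ) * ρ'.character a * ρ'.character b / (finrank ℂ V : ℂ) := by
  have key := sum_sub_conj N ρ' hirr b
  have h : ρ' a * (∑ w : N, ρ' ((w : G) * b * (w : G)⁻¹)) =
      ((Nat.card N : ℂ) * ρ'.character b / (finrank ℂ V : ℂ)) • ρ' a := by
    rw [key]
    ext v
    simp
  have h' := congrArg (LinearMap.trace ℂ V) h
  rw [Finset.mul_sum, map_sum, map_smul, smul_eq_mul] at h'
  have h2 : ∀ x : N, LinearMap.trace ℂ V (ρ' a * ρ' ((x : G) * b * (x : G)⁻¹)) =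
      ρ'.character (a * (x : G) * b * (x : G)⁻¹) := by
    intro x; rw [← map_mul]
    have : a * ((x : G) * b * (x : G)⁻¹) = a * (x : G) * b * (x : G)⁻¹ := by group
    rw [this]; rfl
  simp only [h2] at h'
  rw [h']
  change _ * ρ'.character a = _
  ring

theorem fully_ramified_vanish [Fintype G] (Z : Subgroup G) [Fintype Z] (χ : IrrCharacter G)
    (θ : IrrCharacter Z) (e : ℕ) (he : e ^ 2 = Z.index)
    (hχ : ∀ z : Z, (χ : G → ℂ) z = (e : ℂ) * (θ : Z → ℂ) z) (g : G) (hg : g ∉ Z) :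
    (χ : G → ℂ) g = 0 := by
  have hG : (Nat.card G : ℂ) ≠ 0 := Nat.cast_ne_zero.mpr Nat.card_pos.ne'
  have hZ0 : (Nat.card Z : ℂ) ≠ 0 := Nat.cast_ne_zero.mpr Nat.card_pos.ne'
  have h1 : ∑ g : G, Complex.normSq ((χ : G → ℂ) g) = (Nat.card G : ℝ) := by
    have h := irr_inner_self χ
    rw [classInner_def', inv_mul_eq_one₀ hG] at h
    have h' : ((∑ g : G, Complex.normSq ((χ : G → ℂ) g) : ℝ) : ℂ) = ((Nat.card G : ℝ) : ℂ) := by
      push_cast
      rw [h]
      exact Finset.sum_congr rfl fun g _ => (Complex.mul_conj _).symm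
    exact_mod_cast h'
  have h2 : ∑ z : Z, Complex.normSq ((χ : G → ℂ) z) = (Nat.card G : ℝ) := by
    have h := irr_inner_self θ
    rw [classInner_def', inv_mul_eq_one₀ hZ0] at h
    have h' : ((∑ z : Z, Complex.normSq ((χ : G → ℂ) z) : ℝ) : ℂ) = ((Nat.card G : ℝ) : ℂ) := by
      push_cast
      have e1 : ∀ z : Z, ((Complex.normSq ((χ : G → ℂ) z) : ℝ) : ℂ) =
          (e : ℂ) ^ 2 * ((θ : Z → ℂ) z * starRingEnd ℂ ((θ : Z → ℂ) z)) := by
        intro z
        rw [hχ z, ← Complex.mul_conj, map_mul, Complex.conj_natCast]; ring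
      rw [Finset.sum_congr rfl (fun z _ => e1 z), ← Finset.mul_sum, ← h,
        ← Subgroup.index_mul_card Z, ← he]
      push_cast; ring
    exact_mod_cast h'
  have h3 : ∑ g ∈ Finset.univ.filter (fun g : G => g ∈ Z), Complex.normSq ((χ : G → ℂ) g) =
      ∑ z : Z, Complex.normSq ((χ : G → ℂ) z) :=
    Finset.sum_subtype (Finset.univ.filter (fun g : G => g ∈ Z)) (p := fun g : G => g ∈ Z)
      (by intro s; simp) (fun g => Complex.normSq ((χ : G → ℂ) g))
  have h4 := Finset.sum_filter_add_sum_filter_not Finset.univ (fun g : G => g ∈ Z)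
    (fun g => Complex.normSq ((χ : G → ℂ) g))
  rw [h1, h3, h2] at h4
  have h5 : ∑ g ∈ Finset.univ.filter (fun g : G => ¬ g ∈ Z), Complex.normSq ((χ : G → ℂ) g) = 0 := by
    linarith
  have h6 := (Finset.sum_eq_zero_iff_of_nonneg (fun g _ => Complex.normSq_nonneg _)).mp h5 g
    (by rw [Finset.mem_filter]; exact ⟨Finset.mem_univ _, hg⟩)
  exact Complex.normSq_eq_zero.mp h6

theorem fully_ramified_no_selfcent_cyclic [Finite G] (Z : Subgroup G) [hZn : Z.Normal]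
    (χ : IrrCharacter G)
    (hfr : ∃ (θ : IrrCharacter Z) (e : ℕ), e ^ 2 = Z.index ∧
      ∀ z : Z, (χ : G → ℂ) z = (e : ℂ) * (θ : Z → ℂ) z)
    (hZ : Z ≠ ⊤) (C : Subgroup (G ⧸ Z)) (hC : IsCyclic C) :
    Subgroup.centralizer (C : Set (G ⧸ Z)) ≠ C := by
  haveI := Fintype.ofFinite G
  haveI : Fintype Z := Fintype.ofFinite Z
  obtain ⟨θ, e, he, hχZ⟩ := hfr
  intro hcent
  have he0 : e ≠ 0 := by
    rintro rfl
    have := Subgroup.index_ne_zero_of_finite (H := Z)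
    simp at he
    exact this he.symm
  have hec : (e : ℂ) ≠ 0 := Nat.cast_ne_zero.mpr he0
  obtain ⟨c₀, hc₀⟩ := hC.exists_generator
  obtain ⟨g₀, hg₀⟩ := QuotientGroup.mk_surjective (c₀ : G ⧸ Z)
  have hCpow : ∀ y ∈ C, ∃ i : ℤ, y = (c₀ : G ⧸ Z) ^ i := by
    intro y hy
    obtain ⟨i, hi⟩ := Subgroup.mem_zpowers_iff.mp (hc₀ ⟨y, hy⟩)
    refine ⟨i, ?_⟩
    have := congrArg Subtype.val hi
    simpa using this.symm
  obtain ⟨D, hD⟩ : ∃ D : Subgroup G, D = C.comap (QuotientGroup.mk' Z) := ⟨_, rfl⟩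
  have hmemD : ∀ x : G, x ∈ D ↔ (x : G ⧸ Z) ∈ C := by intro x; rw [hD]; rfl
  have hZD : Z ≤ D := by
    intro z hz; rw [hmemD, (QuotientGroup.eq_one_iff z).mpr hz]; exact C.one_mem
  have hg₀D : g₀ ∈ D := by rw [hmemD, hg₀]; exact c₀.2
  have hg₀Z : g₀ ∉ Z := by
    intro h
    have h1 : (c₀ : G ⧸ Z) = 1 := by rw [← hg₀]; exact (QuotientGroup.eq_one_iff g₀).mpr h
    have hCbot : ∀ y ∈ C, y = 1 := by
      intro y hy
      obtain ⟨i, hi⟩ := hCpow y hy
      rw [hi, h1, one_zpow]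
    apply hZ
    rw [eq_top_iff]; intro x _
    have hx : (x : G ⧸ Z) ∈ Subgroup.centralizer (C : Set (G ⧸ Z)) := by
      rw [Subgroup.mem_centralizer_iff]
      intro y hy
      rw [hCbot y hy, one_mul, mul_one]
    rw [hcent] at hx
    exact (QuotientGroup.eq_one_iff x).mp (hCbot _ hx)
  have hcomm_mem : ∀ x g : G, x ∈ D → (g : G ⧸ Z) ∈ C → x * g * x⁻¹ * g⁻¹ ∈ Z := by
    intro x g hx hg
    rw [← QuotientGroup.eq_one_iff]
    obtain ⟨i, hi⟩ := hCpow _ ((hmemD x).mp hx)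
    obtain ⟨j, hj⟩ := hCpow _ hg
    simp only [QuotientGroup.mk_mul, QuotientGroup.mk_inv, hi, hj]
    rw [← zpow_add, ← zpow_neg, ← zpow_add, ← zpow_neg, ← zpow_add]
    have : i + j + -i + -j = 0 := by ring
    rw [this, zpow_zero]
  have hcomm_conv : ∀ x g : G, (g : G ⧸ Z) = (c₀ : G ⧸ Z) → x * g * x⁻¹ * g⁻¹ ∈ Z → x ∈ D := by
    intro x g hg hx
    rw [hmemD, ← hcent, Subgroup.mem_centralizer_iff]
    intro y hy
    obtain ⟨i, hi⟩ := hCpow y hy
    have hxg : Commute (c₀ : G ⧸ Z) (x : G ⧸ Z) := by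
      have h1 := (QuotientGroup.eq_one_iff _).mpr hx
      simp only [QuotientGroup.mk_mul, QuotientGroup.mk_inv, hg] at h1
      have h2 : (x : G ⧸ Z) * (c₀ : G ⧸ Z) * (x : G ⧸ Z)⁻¹ = (c₀ : G ⧸ Z) := mul_inv_eq_one.mp h1
      show (c₀ : G ⧸ Z) * (x : G ⧸ Z) = (x : G ⧸ Z) * (c₀ : G ⧸ Z)
      nth_rewrite 1 [← h2]
      group
    rw [hi]
    exact (hxg.zpow_left i).eq
  -- the quotient D ⧸ Z' is cyclic
  have hcyc : IsCyclic (D ⧸ Z.subgroupOf D) := by
    refine ⟨⟨((⟨g₀, hg₀D⟩ : D) : D ⧸ Z.subgroupOf D), fun q => ?_⟩⟩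
    obtain ⟨d, rfl⟩ := QuotientGroup.mk_surjective q
    obtain ⟨i, hi⟩ := hCpow _ ((hmemD d).mp d.2)
    refine ⟨i, ?_⟩
    show ((⟨g₀, hg₀D⟩ : D) : D ⧸ Z.subgroupOf D) ^ i = (d : D ⧸ Z.subgroupOf D)
    rw [← QuotientGroup.mk_zpow, QuotientGroup.eq, Subgroup.mem_subgroupOf]
    rw [← QuotientGroup.eq_one_iff]
    push_cast
    simp only [QuotientGroup.mk_mul, QuotientGroup.mk_inv, QuotientGroup.mk_zpow, hg₀, hi]
    rw [inv_mul_cancel]
  -- the character θ' on Z' and its extension to D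
  have hθirr := Cfsg.Agent.Helper5.isIrrCharacter_resSub hZD (θ : Z → ℂ) θ.2
  obtain ⟨d, ρ, hρ, hρθ⟩ := hθirr
  have hθχ : ∀ z : Z, (θ : Z → ℂ) z = (χ : G → ℂ) z / (e : ℂ) := by
    intro z; rw [hχZ z]; field_simp
  have hinv : ∀ (g : D) (n : Z.subgroupOf D),
      ρ.character ⟨g * n * g⁻¹, (inferInstance : (Z.subgroupOf D).Normal).conj_mem n n.2 g⟩ =
        ρ.character n := by
    intro g n
    rw [hρθ]
    show (θ : Z → ℂ) ⟨_, _⟩ = (θ : Z → ℂ) ⟨_, _⟩
    rw [hθχ, hθχ]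
    congr 1
    exact irr_conj χ _ _
  obtain ⟨ρ', hρ'⟩ := Cfsg.Agent.Helper5.exists_extension_of_cyclic (Z.subgroupOf D) hcyc ρ hρ hinv
  have hirr' : Representation.IsIrreducible
      (MonoidHom.comp ρ' (Z.subgroupOf D).subtype : Representation ℂ (Z.subgroupOf D) (Fin d → ℂ)) := by
    have : (MonoidHom.comp ρ' (Z.subgroupOf D).subtype :
        Representation ℂ (Z.subgroupOf D) (Fin d → ℂ)) = ρ := MonoidHom.ext fun n => hρ' n
    rw [this]; exact hρ
  haveI : ρ.IsIrreducible := hρ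
  have hd0 : (d : ℂ) ≠ 0 := by
    have := finrank_pos_of_irreducible ρ
    rw [Module.finrank_fin_fun] at this
    exact Nat.cast_ne_zero.mpr this.ne'
  have hψZ : ∀ (y : D) (hy : (y : G) ∈ Z), ρ'.character y = (θ : Z → ℂ) ⟨(y : G), hy⟩ := by
    intro y hy
    have h1 : ρ'.character y = ρ.character ⟨y, Subgroup.mem_subgroupOf.mpr hy⟩ := by
      show LinearMap.trace ℂ _ (ρ' y) = LinearMap.trace ℂ _ (ρ _)
      rw [← hρ']
    rw [h1, hρθ]; rfl
  have hψirr : IsIrrCharacter D ρ'.character := by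
    refine ⟨d, ρ', ?_, rfl⟩
    rw [isIrreducible_iff_forall_submodule] at hρ ⊢
    refine ⟨hρ.1, fun W hW => hρ.2 W (fun n v hv => ?_)⟩
    rw [← hρ' n]
    exact hW n v hv
  -- key vanishing identity
  obtain ⟨n, R, hR, hRχ⟩ := χ.2
  haveI : R.IsIrreducible := hR
  have key : ∀ w : Z.subgroupOf D,
      ∑ x : D, ρ'.character (x * (⟨g₀, hg₀D⟩ * (w : D)) * x⁻¹ * (⟨g₀, hg₀D⟩ * (w : D))⁻¹) = 0 := by
    intro w
    have hwZ : ((w : D) : G) ∈ Z := Subgroup.mem_subgroupOf.mp w.2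
    obtain ⟨gw, hgw⟩ : ∃ gw : G, gw = g₀ * ((w : D) : G) := ⟨_, rfl⟩
    have hgwq : (gw : G ⧸ Z) = (c₀ : G ⧸ Z) := by
      rw [hgw, QuotientGroup.mk_mul, (QuotientGroup.eq_one_iff _).mpr hwZ, mul_one, hg₀]
    have hgwZ : gw ∉ Z := by
      intro h
      apply hg₀Z
      have : g₀ = gw * ((w : D) : G)⁻¹ := by rw [hgw]; group
      rw [this]; exact Z.mul_mem h (Z.inv_mem hwZ)
    have h0 : (χ : G → ℂ) gw = 0 := fully_ramified_vanish Z χ θ e he hχZ gw hgwZ
    have h1 := sum_char_conj_mul R gw gw⁻¹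
    rw [hRχ, h0, mul_zero, zero_mul, zero_div] at h1
    rw [← Finset.sum_filter_of_ne (p := fun x : G => x ∈ D)] at h1
    · rw [Finset.sum_subtype (Finset.univ.filter (fun x : G => x ∈ D)) (p := fun x : G => x ∈ D)
        (by intro s; simp) (fun x => (χ : G → ℂ) (x * gw * x⁻¹ * gw⁻¹))] at h1
      have h2 : ∀ x : D, (χ : G → ℂ) ((x : G) * gw * (x : G)⁻¹ * gw⁻¹) =
          (e : ℂ) * ρ'.character (x * (⟨g₀, hg₀D⟩ * (w : D)) * x⁻¹ * (⟨g₀, hg₀D⟩ * (w : D))⁻¹) := by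
        intro x
        have hm : (x : G) * gw * (x : G)⁻¹ * gw⁻¹ ∈ Z :=
          hcomm_mem x gw x.2 (by rw [hgwq]; exact c₀.2)
        have hy : ((x * (⟨g₀, hg₀D⟩ * (w : D)) * x⁻¹ * (⟨g₀, hg₀D⟩ * (w : D))⁻¹ : D) : G) =
            (x : G) * gw * (x : G)⁻¹ * gw⁻¹ := by
          rw [hgw]; push_cast; rfl
        rw [hψZ _ (by rw [hy]; exact hm), ← hχZ]
        exact congrArg _ hy.symm
      rw [Finset.sum_congr rfl (fun x _ => h2 x), ← Finset.mul_sum] at h1
      exact (mul_eq_zero.mp h1).resolve_left hec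
    · intro x _ hx
      by_contra hxD
      apply hx
      exact fully_ramified_vanish Z χ θ e he hχZ _ (fun h => hxD (hcomm_conv x gw hgwq h))
  -- sum over w
  have hsum : ∑ x : D, ∑ w : Z.subgroupOf D,
      ρ'.character (x * (⟨g₀, hg₀D⟩ * (w : D)) * x⁻¹ * (⟨g₀, hg₀D⟩ * (w : D))⁻¹) = 0 := by
    rw [Finset.sum_comm]
    exact Finset.sum_eq_zero fun w _ => key w
  have hinner : ∀ x : D, ∑ w : Z.subgroupOf D,
      ρ'.character (x * (⟨g₀, hg₀D⟩ * (w : D)) * x⁻¹ * (⟨g₀, hg₀D⟩ * (w : D))⁻¹) =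
      (Nat.card (Z.subgroupOf D) : ℂ) / (d : ℂ) *
        (ρ'.character x * starRingEnd ℂ (ρ'.character x)) := by
    intro x
    have h1 : ∀ w : Z.subgroupOf D,
        ρ'.character (x * (⟨g₀, hg₀D⟩ * (w : D)) * x⁻¹ * (⟨g₀, hg₀D⟩ * (w : D))⁻¹) =
        ρ'.character (((⟨g₀, hg₀D⟩ : D)⁻¹ * x * ⟨g₀, hg₀D⟩) * (w : D) * x⁻¹ * (w : D)⁻¹) := by
      intro w
      rw [← Representation.char_conj ρ' _ (⟨g₀, hg₀D⟩ : D)⁻¹]
      congr 1
      group
    rw [Finset.sum_congr rfl (fun w _ => h1 w),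
      sum_sub_char_conj_mul (Z.subgroupOf D) ρ' hirr', Module.finrank_fin_fun]
    have h2 : ρ'.character ((⟨g₀, hg₀D⟩ : D)⁻¹ * x * ⟨g₀, hg₀D⟩) = ρ'.character x := by
      have := Representation.char_conj ρ' x (⟨g₀, hg₀D⟩ : D)⁻¹
      rwa [inv_inv] at this
    rw [h2, char_inv]
    ring
  rw [Finset.sum_congr rfl (fun x _ => hinner x), ← Finset.mul_sum] at hsum
  have hnorm := irr_inner_self (⟨ρ'.character, hψirr⟩ : IrrCharacter D)
  have hD0 : (Nat.card D : ℂ) ≠ 0 := Nat.cast_ne_zero.mpr Nat.card_pos.ne'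
  have hZ'0 : (Nat.card (Z.subgroupOf D) : ℂ) ≠ 0 := Nat.cast_ne_zero.mpr Nat.card_pos.ne'
  rw [classInner_def', inv_mul_eq_one₀ hD0] at hnorm
  have hnorm' : ∑ x : D, ρ'.character x * starRingEnd ℂ (ρ'.character x) = (Nat.card D : ℂ) := hnorm.symm
  rw [hnorm'] at hsum
  rcases mul_eq_zero.mp hsum with h | h
  · rcases div_eq_zero_iff.mp h with h' | h'
    · exact hZ'0 h'
    · exact hd0 h'
  · exact hD0 h

end Cfsg.Agent.Helper24
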