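import Mathlib
import Cfsg.Agent.Helper24.GalOdd1
import Cfsg.Agent.Helper5.BlkNorm
import Cfsg.Agent.Helper5.BlkReg
import Cfsg.Agent.S0913
import Cfsg.Agent.S0964

/-!
helper24: Galois-fixed characters over normal subgroups of odd index and the principal 2-block.
-/

set_option autoImplicit false
set_option maxHeartbeats 1600000

namespace Cfsg.Agent.Helper24

open Cfsg

universe u

theorem gb_index_centralizer_equiv {N : Type*} [Group N] (φ : N ≃* N) (n : N) :
    (Subgroup.centralizer ({φ n} : Set N)).index = (Subgroup.centralizer ({n} : Set N)).index := by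
  have h : Subgroup.centralizer ({φ n} : Set N)
      = (Subgroup.centralizer ({n} : Set N)).map φ.toMonoidHom := by
    ext x
    rw [Subgroup.mem_map_equiv, Subgroup.mem_centralizer_singleton_iff,
      Subgroup.mem_centralizer_singleton_iff]
    constructor
    · intro hx
      have := congrArg φ.symm hx
      simpa using this
    · intro hx
      have := congrArg φ hx
      simpa using this
  rw [h]
  exact Subgroup.index_map_equiv (Subgroup.centralizer ({n} : Set N)) φ

theorem gb_centralizer_pow {G : Type*} [Group G] [Finite G] (g : G) (k : ℕ)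
    (hk : k.Coprime (Nat.card G)) :
    Subgroup.centralizer ({g ^ k} : Set G) = Subgroup.centralizer ({g} : Set G) := by
  have hk' : k.Coprime (orderOf g) := Nat.Coprime.coprime_dvd_right (orderOf_dvd_natCard g) hk
  obtain ⟨m, hm⟩ := exists_pow_eq_self_of_coprime hk'
  ext x
  rw [Subgroup.mem_centralizer_singleton_iff, Subgroup.mem_centralizer_singleton_iff]
  constructor
  · intro hx
    have hc : Commute x (g ^ k) := hx
    have h2 := hc.pow_right m
    rw [hm] at h2
    exact h2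
  · intro hx
    have hc : Commute x g := hx
    exact hc.pow_right k

/-- the principal block of `G` covers only the principal block of a normal subgroup. -/
theorem gb_down {G : Type u} [Group G] [Fintype G] {p : ℕ} [Fact p.Prime] (M : Ideal AlgInt)
    (hM : IsPModular p M) (N : Subgroup G) [hN : N.Normal] [Fintype N] (θ : IrrCharacter N)
    (χ : IrrCharacter G)
    (hover : classInner (fun n : N => (χ : G → ℂ) n) (θ : N → ℂ) ≠ 0)
    (hχ : χ ∈ principalBlock M G) : θ ∈ principalBlock M N := by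
  classical
  haveI hMp : M.IsPrime := hM.2.1.isPrime
  obtain ⟨oneG, honeG⟩ : ∃ o : IrrCharacter G, (o : G → ℂ) = fun _ => 1 :=
    ⟨⟨_, Cfsg.Agent.Helper24.isIrrCharacter_one⟩, rfl⟩
  obtain ⟨oneN, honeN⟩ : ∃ o : IrrCharacter N, (o : N → ℂ) = fun _ => 1 :=
    ⟨⟨_, Cfsg.Agent.Helper24.isIrrCharacter_one⟩, rfl⟩
  have hBG : IsPBlock M (principalBlock M G) := ⟨oneG, by unfold principalBlock; rw [honeG]⟩
  have hBN : IsPBlock M (principalBlock M N) := ⟨oneN, by unfold principalBlock; rw [honeN]⟩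
  have h1G : oneG ∈ principalBlock M G := by
    show SameBlock M (fun _ : G => (1:ℂ)) (oneG : G → ℂ)
    rw [honeG]; exact Cfsg.Agent.Helper5.sameBlock_refl _
  have h1N : oneN ∈ principalBlock M N := by
    show SameBlock M (fun _ : N => (1:ℂ)) (oneN : N → ℂ)
    rw [honeN]; exact Cfsg.Agent.Helper5.sameBlock_refl _
  have hcon : classInner (fun n : N => (oneG : G → ℂ) n) (oneN : N → ℂ) ≠ 0 := by
    have e : (fun n : N => (oneG : G → ℂ) n) = (oneN : N → ℂ) := by rw [honeG, honeN]
    rw [e, irr_inner_self]; exact one_ne_zero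
  obtain ⟨g, θ', hθ', hθeq⟩ := Cfsg.Agent.S0964.result p M hM N _ hBG _ hBN oneG h1G oneN h1N
    hcon χ hχ θ hover
  have hθ'' : SameBlock M (fun _ : N => (1:ℂ)) (θ' : N → ℂ) := hθ'
  show SameBlock M (fun _ : N => (1:ℂ)) (θ : N → ℂ)
  intro n
  obtain ⟨c, hcdef⟩ : ∃ c : N, c = MulAut.conjNormal g n := ⟨_, rfl⟩
  have hidxc : (Subgroup.centralizer ({c} : Set N)).index
      = (Subgroup.centralizer ({n} : Set N)).index := by
    rw [hcdef]; exact gb_index_centralizer_equiv (MulAut.conjNormal g) n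
  have hval : ∀ m : N, (θ : N → ℂ) m = (θ' : N → ℂ) (MulAut.conjNormal g m) := by
    intro m
    rw [hθeq m]
    exact congrArg _ (Subtype.ext (MulAut.conjNormal_apply g m).symm)
  have h2 := hθ'' c
  have e1 : centralChar (fun _ : N => (1:ℂ)) c = centralChar (fun _ : N => (1:ℂ)) n := by
    unfold centralChar; rw [hidxc]
  have e2 : centralChar (θ' : N → ℂ) c = centralChar (θ : N → ℂ) n := by
    unfold centralChar
    rw [hidxc, hval n, hval 1, map_one, hcdef]
  rw [e1, e2] at h2
  exact h2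

/-- a Galois-fixed character in the principal 2-block of a normal subgroup of odd index lies
under a Galois-fixed character of the principal 2-block. -/
theorem gb_up {G : Type u} [Group G] [Fintype G] (M : Ideal AlgInt) (hM : IsPModular 2 M)
    (N : Subgroup G) [hN : N.Normal] [Fintype N] (hidx : Odd N.index) {k e : ℕ}
    (h : GalHyp G k e) (θ : IrrCharacter N)
    (hθ : ∀ n : N, (θ : N → ℂ) (n ^ k) = (θ : N → ℂ) n)
    (hθB : θ ∈ principalBlock M N) :
    ∃ χ' : IrrCharacter G, χ' ∈ principalBlock M G ∧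
      (∀ g, (χ' : G → ℂ) (g ^ k) = (χ' : G → ℂ) g) ∧
      classInner (fun n : N => (χ' : G → ℂ) n) (θ : N → ℂ) ≠ 0 := by
  classical
  haveI hMp : M.IsPrime := hM.2.1.isPrime
  haveI : Fact (Nat.Prime 2) := ⟨Nat.prime_two⟩
  obtain ⟨oneG, honeG⟩ : ∃ o : IrrCharacter G, (o : G → ℂ) = fun _ => 1 :=
    ⟨⟨_, Cfsg.Agent.Helper24.isIrrCharacter_one⟩, rfl⟩
  obtain ⟨oneN, honeN⟩ : ∃ o : IrrCharacter N, (o : N → ℂ) = fun _ => 1 :=
    ⟨⟨_, Cfsg.Agent.Helper24.isIrrCharacter_one⟩, rfl⟩
  have hG0 : (Nat.card G : ℂ) ≠ 0 := Nat.cast_ne_zero.mpr Nat.card_pos.ne'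
  have hN0 : (Nat.card N : ℂ) ≠ 0 := Nat.cast_ne_zero.mpr Nat.card_pos.ne'
  have hidx0 : (N.index : ℂ) ≠ 0 := Nat.cast_ne_zero.mpr Subgroup.index_ne_zero_of_finite
  have hθ1 : (θ : N → ℂ) 1 ≠ 0 := Cfsg.Agent.Helper24.irr_one_ne_zero θ
  have hkN : k.Coprime (Nat.card N) :=
    Nat.Coprime.coprime_dvd_right (Subgroup.card_subgroup_dvd_card N) h.cop
  have hBG : IsPBlock M (principalBlock M G) := ⟨oneG, by unfold principalBlock; rw [honeG]⟩
  have h1G : oneG ∈ principalBlock M G := by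
    show SameBlock M (fun _ : G => (1:ℂ)) (oneG : G → ℂ)
    rw [honeG]; exact Cfsg.Agent.Helper5.sameBlock_refl _
  -- multiplicities
  choose c hc using fun χ : IrrCharacter G => isCharacter_inner_irr
    (isCharacter_restrict N (isCharacter_of_isIrrCharacter χ.2)) θ
  choose c₁ hc₁ using fun χ : IrrCharacter G => isCharacter_inner_irr
    (isCharacter_restrict N (isCharacter_of_isIrrCharacter χ.2)) oneN
  choose dg hdg using fun χ : IrrCharacter G => irr_one_eq_natCast χ
  have hinvσ : ∀ (φ : IrrCharacter N), (∀ n : N, (φ : N → ℂ) (n ^ k) = (φ : N → ℂ) n) →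
      ∀ χ : IrrCharacter G,
      classInner (fun n : N => (galIrr k h.cop χ : G → ℂ) n) (φ : N → ℂ) =
        classInner (fun n : N => (χ : G → ℂ) n) (φ : N → ℂ) := by
    intro φ hφ χ
    have h1 := Cfsg.Agent.Helper22.classInner_pow_coprime (fun n : N => (χ : G → ℂ) n)
      (φ : N → ℂ) k hkN
    rw [show (fun n : N => (φ : N → ℂ) (n ^ k)) = (φ : N → ℂ) from funext hφ] at h1
    rw [← h1]
    rfl
  have hcσ : ∀ χ, c (galIrr k h.cop χ) = c χ := by
    intro χ
    have h1 := hinvσ θ hθ χ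
    rw [hc, hc] at h1
    exact_mod_cast h1
  have hc₁σ : ∀ χ, c₁ (galIrr k h.cop χ) = c₁ χ := by
    intro χ
    have h1 := hinvσ oneN (fun n => by rw [honeN]) χ
    rw [hc₁, hc₁] at h1
    exact_mod_cast h1
  have hdgσ : ∀ χ, dg (galIrr k h.cop χ) = dg χ := by
    intro χ
    have h1 : (galIrr k h.cop χ : G → ℂ) 1 = (χ : G → ℂ) 1 := by
      show (χ : G → ℂ) (1 ^ k) = _
      rw [one_pow]
    rw [hdg, hdg] at h1
    exact_mod_cast h1
  -- the principal block is stable
  have hfw : ∀ χ : IrrCharacter G, χ ∈ principalBlock M G →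
      galIrr k h.cop χ ∈ principalBlock M G := by
    intro χ hχ
    have hχ' : SameBlock M (fun _ : G => (1:ℂ)) (χ : G → ℂ) := hχ
    show SameBlock M (fun _ : G => (1:ℂ)) (galIrr k h.cop χ : G → ℂ)
    intro g
    have hcent := gb_centralizer_pow g k h.cop
    have h1 := hχ' (g ^ k)
    have e1 : centralChar (fun _ : G => (1:ℂ)) (g ^ k) = centralChar (fun _ : G => (1:ℂ)) g := by
      unfold centralChar; rw [hcent]
    have e2 : centralChar (χ : G → ℂ) (g ^ k) = centralChar (galIrr k h.cop χ : G → ℂ) g := by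
      unfold centralChar
      rw [hcent]
      show _ = _ * (χ : G → ℂ) (g ^ k) / (χ : G → ℂ) (1 ^ k)
      rw [one_pow]
    rw [e1, e2] at h1
    exact h1
  have hBσ : ∀ χ : IrrCharacter G,
      galIrr k h.cop χ ∈ principalBlock M G ↔ χ ∈ principalBlock M G := by
    intro χ
    refine ⟨fun hχ => ?_, hfw χ⟩
    have hiter : ∀ j : ℕ, ∀ χ' : IrrCharacter G, χ' ∈ principalBlock M G →
        (galIrr k h.cop)^[j] χ' ∈ principalBlock M G := by
      intro j
      induction j with
      | zero => intro χ' h'; exact h'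
      | succ j ih => intro χ' h'; rw [Function.iterate_succ_apply]; exact ih _ (hfw χ' h')
    have h2 := hiter (2 ^ e - 1) _ hχ
    have h2e : (2 ^ e - 1).succ = 2 ^ e := by
      have := Nat.one_le_two_pow (n := e)
      omega
    rw [← Function.iterate_succ_apply, h2e, h.galIrr_iterate_eq] at h2
    exact h2
  -- Clifford degrees
  obtain ⟨t, ht⟩ : ∃ t : ℕ, t = Set.ncard {φ : N → ℂ | ∃ g : G, φ = twist N (θ : N → ℂ) g} :=
    ⟨_, rfl⟩
  have hdeg : ∀ χ : IrrCharacter G, (c χ : ℂ) * (χ : G → ℂ) 1 =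
      ((c χ * c χ * t : ℕ) : ℂ) * (θ : N → ℂ) 1 := by
    intro χ
    by_cases h0 : c χ = 0
    · rw [h0]; simp
    · have h1 := clifford_degree_inner N (χ : G → ℂ) χ.2 (θ : N → ℂ) θ.2
        (by rw [hc]; exact_mod_cast h0)
      rw [hc, ← ht] at h1
      rw [h1]; push_cast; ring
  -- the truncated idempotent of the principal block
  obtain ⟨F, hFdef⟩ : ∃ F : N → ℂ,
      F = fun n : N => blockCoeff (principalBlock M G) (n : G) := ⟨_, rfl⟩
  have hFapp : ∀ n : N, F n = (Nat.card G : ℂ)⁻¹ * ∑ χ : IrrCharacter G,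
      if χ ∈ principalBlock M G then
        (χ : G → ℂ) 1 * starRingEnd ℂ ((χ : G → ℂ) (n : G)) else 0 := by
    intro n
    rw [hFdef]
    show blockCoeff (principalBlock M G) (n : G) = _
    unfold blockCoeff
    rw [Cfsg.Agent.Helper5.finsum_mem_eq_sum_ite']
  have hFcl : IsClassFunction N F := by
    intro n m
    rw [hFapp, hFapp]
    congr 1
    refine Finset.sum_congr rfl fun χ _ => ?_
    rw [show (((m * n * m⁻¹ : N) : G)) = (m : G) * (n : G) * (m : G)⁻¹ from rfl, irr_conj]
  have hFloc : ∀ n : N, MemLocalRing M (F n) := by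
    intro n
    rw [hFdef]
    exact Cfsg.Agent.S0913.result 2 M hM _ hBG (n : G)
  have hθB' : SameBlock M (oneN : N → ℂ) (θ : N → ℂ) := by rw [honeN]; exact hθB
  have hcong := Cfsg.Agent.Helper5.classFun_congr hFcl hFloc (χ := oneN) (ψ := θ) hθB'
  have hkey : ∀ (φ : IrrCharacter N) (cφ : IrrCharacter G → ℕ),
      (∀ χ : IrrCharacter G,
        classInner (fun n : N => (χ : G → ℂ) n) (φ : N → ℂ) = (cφ χ : ℂ)) →
      ∑ n : N, F n * (φ : N → ℂ) n = (N.index : ℂ)⁻¹ *
        ∑ χ : IrrCharacter G,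
          if χ ∈ principalBlock M G then (dg χ : ℂ) * (cφ χ : ℂ) else 0 := by
    intro φ cφ hcφ
    have hinner : ∀ χ : IrrCharacter G,
        ∑ n : N, starRingEnd ℂ ((χ : G → ℂ) (n : G)) * (φ : N → ℂ) n
          = (Nat.card N : ℂ) * (cφ χ : ℂ) := by
      intro χ
      have h1 := hcφ χ
      rw [classInner_def'] at h1
      have h2 : ∑ n : N, (χ : G → ℂ) (n : G) * starRingEnd ℂ ((φ : N → ℂ) n)
          = (Nat.card N : ℂ) * (cφ χ : ℂ) := by
        rw [← h1, ← mul_assoc, mul_inv_cancel₀ hN0, one_mul]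
      have h3 := congrArg (starRingEnd ℂ) h2
      rw [map_sum, map_mul, Complex.conj_natCast, Complex.conj_natCast] at h3
      rw [← h3]
      refine Finset.sum_congr rfl fun n _ => ?_
      rw [map_mul, Complex.conj_conj]
    have hidxeq : (Nat.card G : ℂ) = (Nat.card N : ℂ) * (N.index : ℂ) := by
      rw [← Nat.cast_mul, Subgroup.card_mul_index]
    calc ∑ n : N, F n * (φ : N → ℂ) n
        = ∑ n : N, ∑ χ : IrrCharacter G, (Nat.card G : ℂ)⁻¹ *
            ((if χ ∈ principalBlock M G then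
              (χ : G → ℂ) 1 * starRingEnd ℂ ((χ : G → ℂ) (n : G)) else 0) *
              (φ : N → ℂ) n) := by
          refine Finset.sum_congr rfl fun n _ => ?_
          rw [hFapp, mul_assoc, Finset.sum_mul, Finset.mul_sum]
      _ = ∑ χ : IrrCharacter G, ∑ n : N, (Nat.card G : ℂ)⁻¹ *
            ((if χ ∈ principalBlock M G then
              (χ : G → ℂ) 1 * starRingEnd ℂ ((χ : G → ℂ) (n : G)) else 0) *
              (φ : N → ℂ) n) := Finset.sum_comm
      _ = ∑ χ : IrrCharacter G, (N.index : ℂ)⁻¹ *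
            (if χ ∈ principalBlock M G then (dg χ : ℂ) * (cφ χ : ℂ) else 0) := by
          refine Finset.sum_congr rfl fun χ _ => ?_
          by_cases hχ : χ ∈ principalBlock M G
          · simp only [if_pos hχ]
            rw [← Finset.mul_sum]
            have e1 : ∑ n : N, (χ : G → ℂ) 1 * starRingEnd ℂ ((χ : G → ℂ) (n : G)) *
                (φ : N → ℂ) n = (χ : G → ℂ) 1 * ((Nat.card N : ℂ) * (cφ χ : ℂ)) := by
              rw [← hinner χ, Finset.mul_sum]
              exact Finset.sum_congr rfl fun n _ => by rw [mul_assoc]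
            rw [e1, hdg χ, hidxeq]
            field_simp
          · simp only [if_neg hχ, zero_mul, mul_zero, Finset.sum_const_zero]
      _ = _ := by rw [Finset.mul_sum]
  have hkθ := hkey θ c hc
  have hk1 := hkey oneN c₁ hc₁
  have hone1 : (oneN : N → ℂ) 1 = 1 := by rw [honeN]
  rw [hkθ, hk1, hone1, inv_one, one_mul] at hcong
  obtain ⟨Q, hQdef⟩ : ∃ Q : ℕ, Q = ∑ χ : IrrCharacter G,
      if χ ∈ principalBlock M G then c χ * c χ * t else 0 := ⟨_, rfl⟩
  obtain ⟨Q₁, hQ₁def⟩ : ∃ Q₁ : ℕ, Q₁ = ∑ χ : IrrCharacter G,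
      if χ ∈ principalBlock M G then dg χ * c₁ χ else 0 := ⟨_, rfl⟩
  have hQθ : ∑ χ : IrrCharacter G,
      (if χ ∈ principalBlock M G then (dg χ : ℂ) * (c χ : ℂ) else 0)
      = (θ : N → ℂ) 1 * (Q : ℂ) := by
    rw [hQdef, Nat.cast_sum, Finset.mul_sum]
    refine Finset.sum_congr rfl fun χ _ => ?_
    by_cases hχ : χ ∈ principalBlock M G
    · rw [if_pos hχ, if_pos hχ, ← hdg χ, mul_comm ((χ : G → ℂ) 1), hdeg χ, mul_comm]
    · rw [if_neg hχ, if_neg hχ, Nat.cast_zero, mul_zero]
  have hQ1 : ∑ χ : IrrCharacter G,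
      (if χ ∈ principalBlock M G then (dg χ : ℂ) * (c₁ χ : ℂ) else 0) = (Q₁ : ℂ) := by
    rw [hQ₁def, Nat.cast_sum]
    refine Finset.sum_congr rfl fun χ _ => ?_
    by_cases hχ : χ ∈ principalBlock M G
    · rw [if_pos hχ, if_pos hχ, Nat.cast_mul]
    · rw [if_neg hχ, if_neg hχ, Nat.cast_zero]
  rw [hQθ, hQ1] at hcong
  have hcong2 := Cfsg.Agent.Helper5.memLocalIdeal_mul_left
    (Cfsg.Agent.Helper5.natCast_memLocalRing (M := M) N.index) hcong
  have e3 : (N.index : ℂ) * ((N.index : ℂ)⁻¹ * (Q₁ : ℂ) -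
      ((θ : N → ℂ) 1)⁻¹ * ((N.index : ℂ)⁻¹ * ((θ : N → ℂ) 1 * (Q : ℂ))))
      = (((Q₁ : ℤ) - (Q : ℤ) : ℤ) : ℂ) := by
    push_cast
    field_simp
  rw [e3] at hcong2
  have hdvd : ((2 : ℕ) : ℤ) ∣ (Q₁ : ℤ) - (Q : ℤ) := by
    by_contra hnd
    exact Cfsg.Agent.Helper5.not_memLocalIdeal_intCast hM hnd hcong2
  -- parity
  obtain ⟨s, hs⟩ : ∃ s : Finset (IrrCharacter G),
      s = Finset.univ.filter (fun β : IrrCharacter G => galIrr k h.cop β = β) := ⟨_, rfl⟩
  have hsmem : ∀ β, β ∈ s ↔ galIrr k h.cop β = β := fun β => by rw [hs]; simp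
  obtain ⟨m₁, hm₁⟩ := sum_pow_two_parity
    (fun χ : IrrCharacter G => if χ ∈ principalBlock M G then dg χ * c₁ χ else 0) e
    (galIrr k h.cop) (fun χ => by
      show (if galIrr k h.cop χ ∈ principalBlock M G then
        dg (galIrr k h.cop χ) * c₁ (galIrr k h.cop χ) else 0)
        = if χ ∈ principalBlock M G then dg χ * c₁ χ else 0
      rw [hdgσ, hc₁σ, if_congr (hBσ χ) rfl rfl])
    (fun β => h.galIrr_iterate_eq β) s hsmem
  obtain ⟨m, hm⟩ := sum_pow_two_parity
    (fun χ : IrrCharacter G => if χ ∈ principalBlock M G then c χ * c χ * t else 0) e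
    (galIrr k h.cop) (fun χ => by
      show (if galIrr k h.cop χ ∈ principalBlock M G then
        c (galIrr k h.cop χ) * c (galIrr k h.cop χ) * t else 0)
        = if χ ∈ principalBlock M G then c χ * c χ * t else 0
      rw [hcσ, if_congr (hBσ χ) rfl rfl])
    (fun β => h.galIrr_iterate_eq β) s hsmem
  have hres1 : (fun n : N => (oneG : G → ℂ) n) = (oneN : N → ℂ) := by rw [honeG, honeN]
  have hc1one : classInner (fun n : N => (oneG : G → ℂ) n) (oneN : N → ℂ) = 1 := by
    rw [hres1, irr_inner_self]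
  have hσone : ∀ g, (oneG : G → ℂ) (g ^ k) = (oneG : G → ℂ) g := fun g => by rw [honeG]
  have hones : oneG ∈ s := (hsmem oneG).mpr (Subtype.ext (funext fun g => hσone g))
  have hfix1 : ∑ χ ∈ s, (if χ ∈ principalBlock M G then dg χ * c₁ χ else 0) = 1 := by
    rw [Finset.sum_eq_single oneG]
    · rw [if_pos h1G]
      have hd1 : dg oneG = 1 := by
        have h1 : (1 : ℂ) = (dg oneG : ℂ) := by
          have h0 := hdg oneG
          rw [honeG] at h0
          exact h0
        exact_mod_cast h1.symm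
      have hc11 : c₁ oneG = 1 := by
        have h1 := hc₁ oneG
        rw [hc1one] at h1
        exact_mod_cast h1.symm
      rw [hd1, hc11]
    · intro χ hχs hne
      by_cases hχ : χ ∈ principalBlock M G
      · rw [if_pos hχ]
        have hc0 : c₁ χ = 0 := by
          by_contra h0
          apply hne
          refine gal_over_unique h N hidx oneN χ oneG
            (fun g => congrFun (congrArg Subtype.val ((hsmem χ).mp hχs)) g) hσone ?_ ?_
          · rw [hc₁]; exact_mod_cast h0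
          · rw [hc1one]; exact one_ne_zero
        rw [hc0, mul_zero]
      · rw [if_neg hχ]
    · intro hnot
      exact absurd hones hnot
  rw [← hQ₁def, hfix1] at hm₁
  rw [← hQdef] at hm
  have hsum_ne : ∑ χ ∈ s, (if χ ∈ principalBlock M G then c χ * c χ * t else 0) ≠ 0 := by
    intro h0
    rw [h0, zero_add] at hm
    omega
  obtain ⟨χ', hχ's, hχ'0⟩ := Finset.exists_ne_zero_of_sum_ne_zero hsum_ne
  have hχ'B : χ' ∈ principalBlock M G := by
    by_contra hn
    exact hχ'0 (if_neg hn)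
  rw [if_pos hχ'B] at hχ'0
  refine ⟨χ', hχ'B, fun g => congrFun (congrArg Subtype.val ((hsmem χ').mp hχ's)) g, ?_⟩
  rw [hc]
  have hc0 : c χ' ≠ 0 := fun h0 => hχ'0 (by rw [h0]; simp)
  exact_mod_cast hc0

end Cfsg.Agent.Helper24
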