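import Mathlib
import Cfsg.Agent.Helper5.BlkOrth2
import Cfsg.Agent.Helper5.BlkLoc
import Cfsg.Agent.Helper22.GalIrr
import Cfsg.Agent.Helper22.Brauer5
import Cfsg.Agent.Helper5.CentralChar

/-!
helper24: parity of the number of Galois-fixed odd-degree characters in the principal `2`-block.
-/

set_option autoImplicit false

namespace Cfsg.Agent.Helper24

open Cfsg Cfsg.Agent.Helper22 Cfsg.Agent.Helper5

universe u

variable {G : Type u} [Group G] [Fintype G]

/-- the value at an involution is congruent to the degree modulo a `2`-modular ideal. -/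
theorem gp_invol_congr {M : Ideal AlgInt} (hM : IsPModular 2 M) (χ : IrrCharacter G) (t : G)
    (ht : orderOf t = 2) : MemLocalIdeal M ((χ : G → ℂ) t - (χ : G → ℂ) 1) := by
  obtain ⟨n, ρ, hρ, hχ⟩ := χ.2
  obtain ⟨z, hz, hzv⟩ := char_sub_mem_of_ppart hM ρ t t 1 (mul_one t) (Commute.one_right t)
    (k := 1) (by rw [ht, pow_one])
  rw [← hχ, ← hzv]
  exact memLocalIdeal_of_mem hM.2.1.ne_top hz

/-- arithmetic of the exponent `k` acting as `3` on `2`-elements and trivially on odd-order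
elements. -/
theorem gp_pow_modEq (k : ℕ) (hk₁ : ∀ g : G, (∃ j : ℕ, orderOf g = 2 ^ j) → g ^ k = g ^ 3)
    (hk₂ : ∀ g : G, Odd (orderOf g) → g ^ k = g) (g : G) :
    Nat.Coprime k (orderOf g) ∧ k ^ (2 ^ Nat.card G) ≡ 1 [MOD orderOf g] := by
  obtain ⟨n, hn⟩ : ∃ n, n = orderOf g := ⟨_, rfl⟩
  have hn0 : n ≠ 0 := by rw [hn]; exact (orderOf_pos g).ne'
  obtain ⟨b, hb⟩ : ∃ b, b = n.factorization 2 := ⟨_, rfl⟩
  obtain ⟨c, hc⟩ : ∃ c, c = n / 2 ^ b := ⟨_, rfl⟩
  have hnbc : 2 ^ b * c = n := by rw [hc, hb]; exact Nat.ordProj_mul_ordCompl_eq_self n 2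
  have hc0 : c ≠ 0 := by rintro rfl; rw [mul_zero] at hnbc; exact hn0 hnbc.symm
  have hcodd : ¬ 2 ∣ c := by rw [hc, hb]; exact Nat.not_dvd_ordCompl Nat.prime_two hn0
  have h2b0 : 2 ^ b ≠ 0 := by positivity
  have hu : orderOf (g ^ c) = 2 ^ b := by
    rw [orderOf_pow' g hc0, ← hn, Nat.gcd_eq_right (Dvd.intro_left _ hnbc)]
    exact Nat.div_eq_of_eq_mul_left (Nat.pos_of_ne_zero hc0) hnbc.symm
  have hv : orderOf (g ^ 2 ^ b) = c := by
    rw [orderOf_pow' g h2b0, ← hn, Nat.gcd_eq_right (Dvd.intro _ hnbc)]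
    exact Nat.div_eq_of_eq_mul_right (Nat.pos_of_ne_zero h2b0) hnbc.symm
  have h1 : k ≡ 3 [MOD 2 ^ b] := by
    have h := hk₁ (g ^ c) ⟨b, hu⟩
    rw [← pow_mul, ← pow_mul, pow_eq_pow_iff_modEq, ← hn, ← hnbc, mul_comm (2 ^ b) c] at h
    exact Nat.ModEq.mul_left_cancel' hc0 h
  have h2 : k ≡ 1 [MOD c] := by
    have h := hk₂ (g ^ 2 ^ b) (by rw [hv]; exact Nat.odd_iff.mpr (by omega))
    rw [← pow_mul] at h
    have h' : g ^ (2 ^ b * k) = g ^ (2 ^ b * 1) := by rw [mul_one]; exact h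
    rw [pow_eq_pow_iff_modEq, ← hn, ← hnbc] at h'
    exact Nat.ModEq.mul_left_cancel' h2b0 h'
  have hcop2 : Nat.Coprime k (2 ^ b) := by
    have h3 : Nat.gcd k (2 ^ b) = Nat.gcd 3 (2 ^ b) := h1.gcd_eq
    show Nat.gcd k (2 ^ b) = 1
    rw [h3]
    exact Nat.Coprime.pow_right b (by norm_num)
  have hcopc : Nat.Coprime k c := by
    have h3 : Nat.gcd k c = Nat.gcd 1 c := h2.gcd_eq
    show Nat.gcd k c = 1
    rw [h3]; exact Nat.gcd_one_left c
  refine ⟨?_, ?_⟩
  · rw [← hn, ← hnbc]; exact Nat.Coprime.mul_right hcop2 hcopc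
  · rw [← hn, ← hnbc]
    have hco : Nat.Coprime (2 ^ b) c :=
      Nat.Coprime.pow_left b ((Nat.Prime.coprime_iff_not_dvd Nat.prime_two).mpr hcodd)
    refine (Nat.modEq_and_modEq_iff_modEq_mul hco).mp ⟨?_, ?_⟩
    · have htot : Nat.totient (2 ^ b) ∣ 2 ^ Nat.card G := by
        rcases Nat.eq_zero_or_pos b with rfl | hbpos
        · simp
        · rw [Nat.totient_prime_pow Nat.prime_two hbpos]
          have h21 : 2 - 1 = 1 := rfl
          rw [h21, mul_one]
          apply pow_dvd_pow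
          have h4 : 2 ^ b ≤ Nat.card G := by
            have h5 : 2 ^ b ∣ n := Dvd.intro _ hnbc
            have h6 : n ∣ Nat.card G := hn ▸ orderOf_dvd_natCard g
            exact Nat.le_of_dvd Nat.card_pos (h5.trans h6)
          have h7 : b < 2 ^ b := Nat.lt_two_pow_self
          omega
      obtain ⟨e, he⟩ := htot
      rw [he, pow_mul]
      have h8 := (Nat.ModEq.pow_totient hcop2).pow e
      rwa [one_pow] at h8
    · have h8 := h2.pow (2 ^ Nat.card G)
      rwa [one_pow] at h8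

theorem gp_coprime_card (k : ℕ) (hk₁ : ∀ g : G, (∃ j : ℕ, orderOf g = 2 ^ j) → g ^ k = g ^ 3)
    (hk₂ : ∀ g : G, Odd (orderOf g) → g ^ k = g) : Nat.Coprime k (Nat.card G) := by
  by_contra h
  obtain ⟨q, hq, hqk, hqG⟩ := Nat.Prime.not_coprime_iff_dvd.mp h
  haveI : Fact q.Prime := ⟨hq⟩
  obtain ⟨g, hg⟩ := exists_prime_orderOf_dvd_card' q hqG
  have h1 := (gp_pow_modEq k hk₁ hk₂ g).1
  rw [hg] at h1
  exact hq.one_lt.ne' (Nat.Coprime.eq_one_of_dvd h1.symm hqk)

/-- the number of odd-degree characters in the principal `2`-block of a group of even order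
is even. -/
theorem gp_even_odd_principal {M : Ideal AlgInt} (hM : IsPModular 2 M)
    (hev : Even (Nat.card G)) :
    Even (Nat.card {χ : IrrCharacter G //
      χ ∈ principalBlock M G ∧ Odd (charDegree (χ : G → ℂ))}) := by
  classical
  haveI hMp : M.IsPrime := hM.2.1.isPrime
  haveI : Fact (Nat.Prime 2) := ⟨Nat.prime_two⟩
  obtain ⟨t, ht⟩ := exists_prime_orderOf_dvd_card' 2 hev.two_dvd
  obtain ⟨t₀, ht₀⟩ : ∃ t₀ : IrrCharacter G, (t₀ : G → ℂ) = fun _ => (1 : ℂ) :=
    ⟨⟨fun _ => 1, isIrrCharacter_one⟩, rfl⟩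
  have h := weak_block_orth_sum hM t₀ 1 t (by rw [orderOf_one]; decide) (by rw [ht])
  choose d hd0 hd using fun χ : IrrCharacter G => irr_one_eq_natCast_pos χ
  obtain ⟨B, hB⟩ : ∃ B : Finset (IrrCharacter G), B = Finset.univ.filter
      (fun χ : IrrCharacter G => SameBlock M (t₀ : G → ℂ) (χ : G → ℂ)) := ⟨_, rfl⟩
  rw [← hB] at h
  have htinv : t⁻¹ = t := by
    have h2 : t ^ 2 = 1 := by rw [← ht]; exact pow_orderOf_eq_one t
    rw [inv_eq_iff_mul_eq_one, ← sq]; exact h2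
  have hsum : MemLocalIdeal M (((∑ χ ∈ B, d χ * d χ : ℕ) : ℂ)) := by
    have e : ∑ χ ∈ B, ((d χ * d χ : ℕ) : ℂ)
        - ∑ χ ∈ B, (χ : G → ℂ) 1 * starRingEnd ℂ ((χ : G → ℂ) t)
        = ∑ χ ∈ B, (d χ : ℂ) * (-((χ : G → ℂ) t - (χ : G → ℂ) 1)) := by
      rw [← Finset.sum_sub_distrib]
      refine Finset.sum_congr rfl fun χ _ => ?_
      rw [← irr_inv χ t, htinv, hd χ]; push_cast; ring
    rw [h, sub_zero] at e
    rw [Nat.cast_sum, e]
    refine memLocalIdeal_sum _ _ fun χ _ => ?_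
    exact memLocalIdeal_mul_left
      (integral_mem_locRing (by rw [← hd χ]; exact irr_isIntegral χ 1))
      (memLocalIdeal_neg (gp_invol_congr hM χ t ht))
  have hNeven : Even (∑ χ ∈ B, d χ * d χ) := by
    by_contra hodd
    rw [Nat.not_even_iff_odd] at hodd
    exact not_memLocalIdeal_natCast hM (Nat.Coprime.symm
      ((Nat.Prime.coprime_iff_not_dvd Nat.prime_two).mpr (fun h2 => by
        have := Nat.odd_iff.mp hodd; omega))) hsum
  rw [Finset.even_sum_iff_even_card_odd] at hNeven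
  have hcard : Nat.card {χ : IrrCharacter G //
      χ ∈ principalBlock M G ∧ Odd (charDegree (χ : G → ℂ))}
      = (B.filter (fun χ => Odd (d χ * d χ))).card := by
    rw [Nat.card_eq_fintype_card, Fintype.card_subtype]
    congr 1
    ext χ
    simp only [Finset.mem_filter, Finset.mem_univ, true_and, hB]
    have hdeg : charDegree (χ : G → ℂ) = d χ := charDegree_of_eq (hd χ)
    rw [hdeg, Nat.odd_mul, and_self]
    constructor
    · rintro ⟨h1, h2⟩; refine ⟨?_, h2⟩; rw [ht₀]; exact h1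
    · rintro ⟨h1, h2⟩; refine ⟨?_, h2⟩; rw [ht₀] at h1; exact h1
  rw [hcard]; exact hNeven

/-- **even number of Galois-fixed odd-degree characters in the principal `2`-block**. -/
theorem gp_main {G : Type u} [Group G] [Finite G] (M : Ideal AlgInt) (hM : IsPModular 2 M)
    (hev : Even (Nat.card G)) (k : ℕ)
    (hk₁ : ∀ g : G, (∃ j : ℕ, orderOf g = 2 ^ j) → g ^ k = g ^ 3)
    (hk₂ : ∀ g : G, Odd (orderOf g) → g ^ k = g) :
    Even (Nat.card {χ : IrrCharacter G // χ ∈ principalBlock M G ∧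
      Odd (charDegree (χ : G → ℂ)) ∧ ∀ g : G, (χ : G → ℂ) (g ^ k) = (χ : G → ℂ) g}) := by
  classical
  haveI : Fintype G := Fintype.ofFinite G
  haveI hMp : M.IsPrime := hM.2.1.isPrime
  haveI : Fact (Nat.Prime 2) := ⟨Nat.prime_two⟩
  have hkG := gp_coprime_card k hk₁ hk₂
  have hpowk : ∀ g : G, g ^ (k ^ (2 ^ Nat.card G)) = g := fun g => by
    have h := (gp_pow_modEq k hk₁ hk₂ g).2
    have h' := (pow_eq_pow_iff_modEq (x := g)).mpr h
    rwa [pow_one] at h'
  have hidx : ∀ g : G, Subgroup.centralizer ({g ^ k} : Set G)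
      = Subgroup.centralizer ({g} : Set G) := by
    intro g
    apply le_antisymm
    · intro x hx
      rw [Subgroup.mem_centralizer_singleton_iff] at hx ⊢
      have hg : (g ^ k) ^ (k ^ (2 ^ Nat.card G - 1)) = g := by
        rw [← pow_mul, ← pow_succ', Nat.sub_add_cancel Nat.one_le_two_pow]
        exact hpowk g
      have hc : Commute x (g ^ k) := hx
      have h3 := hc.pow_right (k ^ (2 ^ Nat.card G - 1))
      rw [hg] at h3
      exact h3
    · intro x hx
      rw [Subgroup.mem_centralizer_singleton_iff] at hx ⊢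
      have hc : Commute x g := hx
      exact hc.pow_right k
  have hblock : ∀ χ : IrrCharacter G, χ ∈ principalBlock M G → ∀ ψ : IrrCharacter G,
      (ψ : G → ℂ) = (fun g => (χ : G → ℂ) (g ^ k)) → ψ ∈ principalBlock M G := by
    intro χ hχ ψ hψ
    show SameBlock M (fun _ : G => (1 : ℂ)) (ψ : G → ℂ)
    intro g
    have h : MemLocalIdeal M (centralChar (fun _ : G => (1 : ℂ)) (g ^ k)
        - centralChar (χ : G → ℂ) (g ^ k)) := hχ (g ^ k)
    have hψg : ∀ x, (ψ : G → ℂ) x = (χ : G → ℂ) (x ^ k) := fun x => by rw [hψ]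
    have e : centralChar (fun _ : G => (1 : ℂ)) g - centralChar (ψ : G → ℂ) g
        = centralChar (fun _ : G => (1 : ℂ)) (g ^ k) - centralChar (χ : G → ℂ) (g ^ k) := by
      show ((Subgroup.centralizer ({g} : Set G)).index : ℂ) * 1 / 1
          - ((Subgroup.centralizer ({g} : Set G)).index : ℂ) * (ψ : G → ℂ) g / (ψ : G → ℂ) 1
        = ((Subgroup.centralizer ({g ^ k} : Set G)).index : ℂ) * 1 / 1
          - ((Subgroup.centralizer ({g ^ k} : Set G)).index : ℂ) * (χ : G → ℂ) (g ^ k)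
            / (χ : G → ℂ) 1
      rw [hidx g, hψg g, hψg 1, one_pow]
    rw [e]; exact h
  obtain ⟨τ, hτ⟩ : ∃ τ : Function.End {χ : IrrCharacter G //
      χ ∈ principalBlock M G ∧ Odd (charDegree (χ : G → ℂ))},
      ∀ χ, ((τ χ).1 : G → ℂ) = fun g => (χ.1 : G → ℂ) (g ^ k) := by
    refine ⟨fun χ => ⟨⟨fun g => (χ.1 : G → ℂ) (g ^ k), isIrrCharacter_pow_coprime χ.1 k hkG⟩,
      hblock χ.1 χ.2.1 _ rfl, ?_⟩, fun χ => rfl⟩
    show Odd (⌊((χ.1 : G → ℂ) (1 ^ k)).re⌋₊)
    rw [one_pow]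
    exact χ.2.2
  have hiter : ∀ (j : ℕ) (χ : {χ : IrrCharacter G //
      χ ∈ principalBlock M G ∧ Odd (charDegree (χ : G → ℂ))}),
      (((τ ^ j) χ).1 : G → ℂ) = fun g => (χ.1 : G → ℂ) (g ^ (k ^ j)) := by
    intro j
    induction j with
    | zero =>
      intro χ
      show (χ.1 : G → ℂ) = fun g => (χ.1 : G → ℂ) (g ^ (k ^ 0))
      funext g
      rw [pow_zero, pow_one]
    | succ j ih =>
      intro χ
      rw [pow_succ']
      show ((τ ((τ ^ j) χ)).1 : G → ℂ) = _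
      rw [hτ]
      funext g
      rw [ih χ]
      show (χ.1 : G → ℂ) ((g ^ k) ^ (k ^ j)) = (χ.1 : G → ℂ) (g ^ (k ^ (j + 1)))
      rw [← pow_mul, pow_succ']
  have hf : τ ^ 2 ^ Nat.card G = 1 := by
    funext χ
    apply Subtype.ext
    apply Subtype.ext
    rw [hiter]
    funext g
    rw [hpowk g]
    rfl
  have hmod := Equiv.Perm.card_fixedPoints_modEq (p := 2) (n := Nat.card G) hf
  have e : {χ : IrrCharacter G // χ ∈ principalBlock M G ∧
      Odd (charDegree (χ : G → ℂ)) ∧ ∀ g : G, (χ : G → ℂ) (g ^ k) = (χ : G → ℂ) g}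
      ≃ Function.fixedPoints τ :=
    { toFun := fun χ => ⟨⟨χ.1, χ.2.1, χ.2.2.1⟩, by
        show τ _ = _
        apply Subtype.ext
        apply Subtype.ext
        rw [hτ]
        funext g
        exact χ.2.2.2 g⟩
      invFun := fun χ => ⟨χ.1.1, χ.1.2.1, χ.1.2.2, fun g => by
        have h : τ χ.1 = χ.1 := χ.2
        have h2 := hτ χ.1
        rw [h] at h2
        exact (congrFun h2 g).symm⟩
      left_inv := fun χ => rfl
      right_inv := fun χ => rfl }
  rw [Nat.card_congr e]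
  have hX := gp_even_odd_principal hM hev
  rw [Nat.even_iff] at hX ⊢
  unfold Nat.ModEq at hmod
  rw [Fintype.card_eq_nat_card, Fintype.card_eq_nat_card] at hmod
  omega

end Cfsg.Agent.Helper24
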