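import Mathlib
import Cfsg.Prelude.Def_BlockFusion
import Cfsg.Agent.Helper5.BlkPair
import Cfsg.Agent.Helper5.BlkNil
import Cfsg.Agent.Helper5.GlCorr
import Cfsg.Agent.Helper5.BlkOsima

/-!
helper24: the fusion system of the principal block on a Sylow subgroup is the fusion system of
the group (Brauer's third main theorem for normal inclusions of Brauer pairs).
-/

set_option autoImplicit false

namespace Cfsg.Agent.Helper24

open Cfsg Cfsg.Agent.Helper5 Cfsg.Agent.Helper22

universe u

theorem pf_index {A B : Type*} [Group A] [Group B] (φ : A ≃* B) (k : A) :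
    (Subgroup.centralizer ({φ k} : Set B)).index
      = (Subgroup.centralizer ({k} : Set A)).index := by
  have h : Subgroup.centralizer ({φ k} : Set B)
      = (Subgroup.centralizer ({k} : Set A)).map (φ : A →* B) := by
    ext x
    rw [Subgroup.mem_centralizer_singleton_iff, Subgroup.mem_map]
    constructor
    · intro hx
      refine ⟨φ.symm x, ?_, φ.apply_symm_apply x⟩
      rw [Subgroup.mem_centralizer_singleton_iff]
      apply φ.injective
      rw [map_mul, map_mul, φ.apply_symm_apply]
      exact hx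
    · rintro ⟨y, hy, rfl⟩
      rw [Subgroup.mem_centralizer_singleton_iff] at hy
      show φ y * φ k = φ k * φ y
      rw [← map_mul, ← map_mul, hy]
  rw [h]
  exact Subgroup.index_map_equiv _ φ

/-- the principal block is transported by group isomorphisms. -/
theorem pf_transport {A B : Type u} [Group A] [Group B] {M : Ideal AlgInt} (φ : A ≃* B)
    (χ : IrrCharacter B) (hχ : χ ∈ principalBlock M B) (χ' : IrrCharacter A)
    (h : ∀ a, (χ' : A → ℂ) a = (χ : B → ℂ) (φ a)) : χ' ∈ principalBlock M A := by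
  intro k
  have h1 := hχ (φ k)
  have e1 : centralChar (fun _ : A => (1 : ℂ)) k
      = centralChar (fun _ : B => (1 : ℂ)) (φ k) := by
    unfold centralChar
    rw [pf_index φ k]
  have e2 : centralChar (χ' : A → ℂ) k = centralChar (χ : B → ℂ) (φ k) := by
    unfold centralChar
    rw [pf_index φ k, h k, h 1, map_one]
  rw [e1, e2]
  exact h1

/-- the idempotent coefficients of the principal block are transported by isomorphisms. -/
theorem pf_coeff {A B : Type u} [Group A] [Group B] {M : Ideal AlgInt} (φ : A ≃* B) (a : A) :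
    blockCoeff (principalBlock M B) (φ a) = blockCoeff (principalBlock M A) a := by
  unfold blockCoeff
  rw [Nat.card_congr φ.toEquiv]
  congr 1
  symm
  refine finsum_mem_eq_of_bijOn
    (fun θ : IrrCharacter A => (⟨fun b => (θ : A → ℂ) (φ.symm b),
      isIrrCharacter_comp_mulEquiv φ.symm θ.2⟩ : IrrCharacter B)) ⟨?_, ?_, ?_⟩ ?_
  · intro θ hθ
    exact pf_transport φ.symm θ hθ _ (fun b => rfl)
  · intro θ _ θ' _ hh
    apply Subtype.ext
    funext a'
    have h1 := congrFun (congrArg Subtype.val hh) (φ a')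
    simpa using h1
  · intro χ hχ
    refine ⟨⟨fun a' => (χ : B → ℂ) (φ a'), isIrrCharacter_comp_mulEquiv φ χ.2⟩, ?_, ?_⟩
    · exact pf_transport φ χ hχ _ (fun a' => rfl)
    · apply Subtype.ext
      funext b
      show (χ : B → ℂ) (φ (φ.symm b)) = (χ : B → ℂ) b
      rw [φ.apply_symm_apply]
  · intro θ _
    show (θ : A → ℂ) 1 * (starRingEnd ℂ) ((θ : A → ℂ) a)
      = (θ : A → ℂ) (φ.symm 1) * (starRingEnd ℂ) ((θ : A → ℂ) (φ.symm (φ a)))
    rw [map_one, φ.symm_apply_apply]

variable {G : Type u} [Group G] [Fintype G]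

/-- invariance of the principal-block idempotent of a subgroup under its normalizer. -/
theorem pf_beta_inv {M : Ideal AlgInt} (K : Subgroup G) (u : G)
    (hu : u ∈ Subgroup.normalizer (K : Set G)) (g : G) :
    subgroupBlockCoeff K (principalBlock M K) (u * g * u⁻¹)
      = subgroupBlockCoeff K (principalBlock M K) g := by
  classical
  have h1 : ∀ k ∈ K, u * k * u⁻¹ ∈ K := fun k hk =>
    (Subgroup.mem_normalizer_iff.mp hu k).mp hk
  have h2 : ∀ k ∈ K, u⁻¹ * k * u ∈ K := fun k hk => by
    have := (Subgroup.mem_normalizer_iff.mp (inv_mem hu) k).mp hk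
    simpa using this
  unfold subgroupBlockCoeff
  by_cases hg : g ∈ K
  · have hg' : u * g * u⁻¹ ∈ K := h1 g hg
    rw [dif_pos hg, dif_pos hg']
    exact pf_coeff (conjEquiv K u h1 h2) ⟨g, hg⟩
  · have hg' : ¬ u * g * u⁻¹ ∈ K := by
      intro h
      apply hg
      have := h2 _ h
      simpa [mul_assoc] using this
    rw [dif_neg hg, dif_neg hg']

/-- a sum of a `P`-invariant local function over a `P`-invariant set without fixed points lies
in the local ideal. -/
theorem pf_pfix {p : ℕ} [Fact p.Prime] {M : Ideal AlgInt} (hM : IsPModular p M)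
    [hMp : M.IsPrime] (P : Subgroup G) (hP : IsPGroup p P) (f : G → ℂ)
    (hf : ∀ u ∈ P, ∀ x, f (u * x * u⁻¹) = f x) (hloc : ∀ x, MemLocalRing M (f x)) :
    ∀ (n : ℕ) (X : Finset G), X.card ≤ n → (∀ x ∈ X, ∀ u ∈ P, u * x * u⁻¹ ∈ X) →
      (∀ x ∈ X, ∃ u ∈ P, u * x * u⁻¹ ≠ x) → MemLocalIdeal M (∑ x ∈ X, f x) := by
  classical
  letI : MulAction P G := MulAction.compHom G ((MulAut.conj : G →* MulAut G).comp P.subtype)
  have hsm : ∀ (u : P) (x : G), u • x = (u : G) * x * (u : G)⁻¹ := fun u x => rfl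
  intro n
  induction n with
  | zero =>
    intro X hX _ _
    rw [Finset.card_eq_zero.mp (Nat.le_zero.mp hX), Finset.sum_empty]
    exact memLocalIdeal_zero hMp.ne_top
  | succ n ih =>
    intro X hX hinv hfix
    by_cases hXe : X = ∅
    · rw [hXe, Finset.sum_empty]
      exact memLocalIdeal_zero hMp.ne_top
    obtain ⟨x, hx⟩ := Finset.nonempty_iff_ne_empty.mpr hXe
    obtain ⟨O, hOdef⟩ : ∃ O : Finset G, O = (MulAction.orbit P x).toFinset := ⟨_, rfl⟩
    have hOmem : ∀ y, y ∈ O ↔ ∃ u : P, (u : G) * x * (u : G)⁻¹ = y := by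
      intro y
      rw [hOdef, Set.mem_toFinset, MulAction.mem_orbit_iff]
      exact Iff.rfl
    have hOX : O ⊆ X := by
      intro y hy
      obtain ⟨u, rfl⟩ := (hOmem y).mp hy
      exact hinv x hx u u.2
    have hxO : x ∈ O := (hOmem x).mpr ⟨1, by simp⟩
    have hOcard : p ∣ O.card := by
      obtain ⟨k, hk⟩ := hP.card_orbit (α := G) x
      have h1 : O.card = Nat.card (MulAction.orbit P x) := by
        rw [hOdef, Set.toFinset_card, Nat.card_eq_fintype_card]
      rw [h1, hk]
      rcases Nat.eq_zero_or_pos k with h0 | h0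
      · exfalso
        rw [h0, pow_zero] at hk
        rw [← h1] at hk
        obtain ⟨u, hu, hne⟩ := hfix x hx
        have hyO : u * x * u⁻¹ ∈ O := (hOmem _).mpr ⟨⟨u, hu⟩, rfl⟩
        exact hne ((Finset.card_le_one.mp hk.le) _ hyO _ hxO)
      · exact dvd_pow_self p (by omega)
    have hsumO : ∑ y ∈ O, f y = (O.card : ℂ) * f x := by
      have hc : ∀ y ∈ O, f y = f x := fun y hy => by
        obtain ⟨u, rfl⟩ := (hOmem y).mp hy
        exact hf u u.2 x
      rw [Finset.sum_congr rfl hc, Finset.sum_const, nsmul_eq_mul]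
    have hO_mem : MemLocalIdeal M (∑ y ∈ O, f y) := by
      rw [hsumO]
      obtain ⟨m, hm⟩ := hOcard
      rw [hm, Nat.cast_mul, mul_assoc, mul_comm]
      exact memLocalIdeal_mul_left (by
        have := (locRing M).mul_mem (natCast_memLocalRing (M := M) m) (hloc x)
        exact this) (prime_memLocalIdeal hM)
    have hrest : MemLocalIdeal M (∑ y ∈ X \ O, f y) := by
      apply ih
      · have h1 : (X \ O).card < X.card :=
          Finset.card_lt_card (Finset.sdiff_ssubset hOX ⟨x, hxO⟩)
        omega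
      · intro y hy u hu
        rw [Finset.mem_sdiff] at hy ⊢
        refine ⟨hinv y hy.1 u hu, fun h => hy.2 ?_⟩
        obtain ⟨v, hv⟩ := (hOmem _).mp h
        refine (hOmem y).mpr ⟨⟨u⁻¹ * v, P.mul_mem (P.inv_mem hu) v.2⟩, ?_⟩
        show (u⁻¹ * (v : G)) * x * (u⁻¹ * (v : G))⁻¹ = y
        have : y = u⁻¹ * (u * y * u⁻¹) * u := by group
        rw [this, ← hv]
        group
      · intro y hy
        exact hfix y (Finset.mem_sdiff.mp hy).1
    rw [← Finset.sum_sdiff hOX]
    exact memLocalIdeal_add hMp hrest hO_mem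

/-- a class function summed against a central character through class representatives. -/
theorem pf_cls_sum {C : Type u} [Group C] [Fintype C] (F θ : C → ℂ) (hF : IsClassFunction C F)
    (hθ : IsClassFunction C θ) (ι : Finset C)
    (hι : ∀ Φ : C → ℂ, IsClassFunction C Φ →
      ∑ g : C, Φ g / ((Subgroup.centralizer ({g} : Set C)).index : ℂ) = ∑ r ∈ ι, Φ r) :
    ∑ x : C, F x * θ x / θ 1 = ∑ r ∈ ι, F r * centralChar θ r := by
  have hcl : IsClassFunction C (fun g => F g * centralChar θ g) := by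
    intro g h
    show F (h * g * h⁻¹) * centralChar θ (h * g * h⁻¹) = F g * centralChar θ g
    unfold centralChar
    rw [hF g h, hθ g h, index_centralizer_conj]
  rw [← hι _ hcl]
  refine Finset.sum_congr rfl fun g _ => ?_
  have hi := index_centralizer_ne_zero g
  unfold centralChar
  rw [show F g * (((Subgroup.centralizer ({g} : Set C)).index : ℂ) * θ g / θ 1)
      / ((Subgroup.centralizer ({g} : Set C)).index : ℂ)
      = F g * θ g / θ 1 * (((Subgroup.centralizer ({g} : Set C)).index : ℂ)
        / ((Subgroup.centralizer ({g} : Set C)).index : ℂ)) by ring, div_self hi, mul_one]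

theorem pf_step1 {C : Type u} [Group C] [Fintype C] {M : Ideal AlgInt} [hMp : M.IsPrime]
    (F : C → ℂ) (hF : IsClassFunction C F) (hloc : ∀ x, MemLocalRing M (F x))
    (ξ : IrrCharacter C) (hξ : ξ ∈ principalBlock M C) :
    MemLocalIdeal M (∑ x : C, F x * (ξ : C → ℂ) x / (ξ : C → ℂ) 1 - ∑ x : C, F x) := by
  classical
  obtain ⟨ι, hι⟩ := exists_class_reps C
  have h1 := pf_cls_sum F (ξ : C → ℂ) hF (fun g h => Helper24.irr_conj ξ g h) ι hι
  have h2 := pf_cls_sum F (fun _ : C => (1 : ℂ)) hF (fun g h => rfl) ι hι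
  have h3 : ∑ x : C, F x = ∑ x : C, F x * (fun _ : C => (1 : ℂ)) x / (fun _ : C => (1 : ℂ)) 1 :=
    Finset.sum_congr rfl fun x _ => by simp
  rw [h3, h2, h1, ← Finset.sum_sub_distrib]
  refine memLocalIdeal_sum _ _ fun r _ => ?_
  rw [← mul_sub]
  have h4 := memLocalIdeal_neg (hξ r)
  rw [neg_sub] at h4
  exact memLocalIdeal_mul_left (hloc r) h4

theorem pf_sum_one {K : Type u} [Group K] [Fintype K] {M : Ideal AlgInt} [hMp : M.IsPrime] :
    ∑ k : K, blockCoeff (principalBlock M K) k = 1 := by
  classical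
  obtain ⟨triv, htriv⟩ : ∃ t : IrrCharacter K, (t : K → ℂ) = fun _ => 1 :=
    ⟨⟨_, Helper24.isIrrCharacter_one⟩, rfl⟩
  have hPB := principalBlock_eq_blockOf M triv htriv
  obtain ⟨c, hc⟩ : ∃ c : IrrCharacter K → ℂ,
      c = fun ψ => if ψ ∈ blockOf M (triv : K → ℂ) then (1 : ℂ) else 0 := ⟨_, rfl⟩
  have hc1 : ∀ ψ ∈ blockOf M (triv : K → ℂ), c ψ = 1 := fun ψ h => by rw [hc]; exact if_pos h
  have hc0 : ∀ ψ, ψ ∉ blockOf M (triv : K → ℂ) → c ψ = 0 := fun ψ h => by
    rw [hc]; exact if_neg h
  obtain ⟨ι, hι⟩ := exists_class_reps K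
  have h1 := spec_value c ι hι triv
  have h2 := pf_cls_sum (specFun c) (triv : K → ℂ) (specFun_isClassFunction c)
    (fun g h => Helper24.irr_conj triv g h) ι hι
  rw [← h1, hc1 triv (sameBlock_refl _)] at h2
  rw [← h2, hPB]
  refine Finset.sum_congr rfl fun k _ => ?_
  rw [blockCoeff_eq_specFun _ c hc1 hc0, htriv]
  simp

theorem pf_norm_cent (Q : Subgroup G) (u : G) (hu : u ∈ Subgroup.normalizer (Q : Set G)) :
    u ∈ Subgroup.normalizer ((Subgroup.centralizer (Q : Set G) : Subgroup G) : Set G) := by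
  rw [Subgroup.mem_normalizer_iff]
  intro k
  constructor
  · intro hk
    rw [Subgroup.mem_centralizer_iff] at hk ⊢
    intro q hq
    have hq' : u⁻¹ * q * u ∈ Q := by
      have := (Subgroup.mem_normalizer_iff.mp (inv_mem hu) q).mp hq
      simpa using this
    have h1 := hk _ hq'
    calc q * (u * k * u⁻¹) = u * ((u⁻¹ * q * u) * k) * u⁻¹ := by group
      _ = u * (k * (u⁻¹ * q * u)) * u⁻¹ := by rw [h1]
      _ = u * k * u⁻¹ * q := by group
  · intro hk
    rw [Subgroup.mem_centralizer_iff] at hk ⊢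
    intro q hq
    have hq' : u * q * u⁻¹ ∈ Q := (Subgroup.mem_normalizer_iff.mp hu q).mp hq
    have h1 := hk _ hq'
    calc q * k = u⁻¹ * ((u * q * u⁻¹) * (u * k * u⁻¹)) * u := by group
      _ = u⁻¹ * ((u * k * u⁻¹) * (u * q * u⁻¹)) * u := by rw [h1]
      _ = k * q := by group

theorem pf_isPBlock {K : Type u} [Group K] (M : Ideal AlgInt) :
    IsPBlock M (principalBlock M K) :=
  ⟨⟨_, Helper24.isIrrCharacter_one⟩, rfl⟩

/-- Brauer's third main theorem for normal inclusions: the principal block of `C_G(P)` occurs in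
the Brauer-map image at `P` of the principal block idempotent of `C_G(Q)`. -/
theorem pf_brauer {p : ℕ} [Fact p.Prime] {M : Ideal AlgInt} (hM : IsPModular p M)
    [hMp : M.IsPrime] (Q P : Subgroup G) (hQP : Q ≤ P)
    (hPN : P ≤ Subgroup.normalizer (Q : Set G)) (hP : IsPGroup p P)
    (ξ : IrrCharacter (Subgroup.centralizer (P : Set G)))
    (hξ : ξ ∈ principalBlock M (Subgroup.centralizer (P : Set G))) :
    MemLocalIdeal M (brauerOmega P (subgroupBlockCoeff (Subgroup.centralizer (Q : Set G))
      (principalBlock M (Subgroup.centralizer (Q : Set G))))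
        (ξ : Subgroup.centralizer (P : Set G) → ℂ) - 1) := by
  classical
  obtain ⟨K, hKdef⟩ : ∃ K : Subgroup G, K = Subgroup.centralizer (Q : Set G) := ⟨_, rfl⟩
  obtain ⟨C, hCdef⟩ : ∃ C : Subgroup G, C = Subgroup.centralizer (P : Set G) := ⟨_, rfl⟩
  have hCK : Subgroup.centralizer (P : Set G) ≤ Subgroup.centralizer (Q : Set G) :=
    Subgroup.centralizer_le hQP
  have hPK : ∀ u ∈ P, u ∈ Subgroup.normalizer
      ((Subgroup.centralizer (Q : Set G) : Subgroup G) : Set G) :=
    fun u hu => pf_norm_cent Q u (hPN hu)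
  have hPC : ∀ u ∈ P, u ∈ Subgroup.normalizer
      ((Subgroup.centralizer (P : Set G) : Subgroup G) : Set G) :=
    fun u hu => pf_norm_cent P u (Subgroup.le_normalizer hu)
  obtain ⟨β, hβdef⟩ : ∃ β : G → ℂ, β = subgroupBlockCoeff (Subgroup.centralizer (Q : Set G))
      (principalBlock M (Subgroup.centralizer (Q : Set G))) := ⟨_, rfl⟩
  rw [← hβdef]
  have hβinv : ∀ u ∈ Subgroup.normalizer
      ((Subgroup.centralizer (Q : Set G) : Subgroup G) : Set G), ∀ x,
      β (u * x * u⁻¹) = β x := fun u hu x => by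
    rw [hβdef]; exact pf_beta_inv _ u hu x
  have hβK : ∀ k : Subgroup.centralizer (Q : Set G), β (k : G)
      = blockCoeff (principalBlock M (Subgroup.centralizer (Q : Set G))) k := by
    intro k
    rw [hβdef]
    unfold subgroupBlockCoeff
    rw [dif_pos k.2]
  have hβloc : ∀ x, MemLocalRing M (β x) := by
    intro x
    by_cases hx : x ∈ Subgroup.centralizer (Q : Set G)
    · have h1 := hβK ⟨x, hx⟩
      have h2 : β x = blockCoeff (principalBlock M (Subgroup.centralizer (Q : Set G))) ⟨x, hx⟩ :=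
        h1
      rw [h2]
      obtain ⟨triv, htriv⟩ : ∃ t : IrrCharacter (Subgroup.centralizer (Q : Set G)),
          (t : Subgroup.centralizer (Q : Set G) → ℂ) = fun _ => 1 :=
        ⟨⟨_, Helper24.isIrrCharacter_one⟩, rfl⟩
      rw [principalBlock_eq_blockOf M triv htriv]
      exact blockCoeff_memLocalRing triv _
    · rw [hβdef]
      unfold subgroupBlockCoeff
      rw [dif_neg hx]
      exact (locRing M).zero_mem
  -- step 1
  have hF : IsClassFunction (Subgroup.centralizer (P : Set G))
      (fun x : Subgroup.centralizer (P : Set G) => β (x : G)) := by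
    intro g h
    show β ((h : G) * (g : G) * (h : G)⁻¹) = β (g : G)
    exact hβinv _ (Subgroup.le_normalizer (hCK h.2)) _
  have h1 := pf_step1 (M := M) (fun x : Subgroup.centralizer (P : Set G) => β (x : G)) hF
    (fun x => hβloc _) ξ hξ
  have hom : brauerOmega P β (ξ : Subgroup.centralizer (P : Set G) → ℂ)
      = ∑ x : Subgroup.centralizer (P : Set G), β (x : G)
        * (ξ : Subgroup.centralizer (P : Set G) → ℂ) x
        / (ξ : Subgroup.centralizer (P : Set G) → ℂ) 1 := by
    unfold brauerOmega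
    rw [finsum_eq_sum_of_fintype]
  rw [hom]
  -- step 2
  have hsK : ∑ x ∈ Finset.univ.filter (fun x : G => x ∈ Subgroup.centralizer (Q : Set G)), β x
      = 1 := by
    rw [Finset.sum_subtype (Finset.univ.filter
      (fun x : G => x ∈ Subgroup.centralizer (Q : Set G)))
      (p := fun x => x ∈ Subgroup.centralizer (Q : Set G)) (fun x => by simp) β]
    rw [← pf_sum_one (K := Subgroup.centralizer (Q : Set G)) (M := M)]
    exact Finset.sum_congr rfl fun k _ => hβK k
  have hsC : ∑ x ∈ Finset.univ.filter (fun x : G => x ∈ Subgroup.centralizer (P : Set G)), β x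
      = ∑ x : Subgroup.centralizer (P : Set G), β (x : G) := by
    rw [Finset.sum_subtype (Finset.univ.filter
      (fun x : G => x ∈ Subgroup.centralizer (P : Set G)))
      (p := fun x => x ∈ Subgroup.centralizer (P : Set G)) (fun x => by simp) β]
  have hsub : Finset.univ.filter (fun x : G => x ∈ Subgroup.centralizer (P : Set G))
      ⊆ Finset.univ.filter (fun x : G => x ∈ Subgroup.centralizer (Q : Set G)) := by
    intro x hx
    rw [Finset.mem_filter] at hx ⊢
    exact ⟨hx.1, hCK hx.2⟩
  have hX := pf_pfix hM P hP β (fun u hu x => hβinv u (hPK u hu) x) hβloc _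
    (Finset.univ.filter (fun x : G => x ∈ Subgroup.centralizer (Q : Set G))
      \ Finset.univ.filter (fun x : G => x ∈ Subgroup.centralizer (P : Set G))) le_rfl
    (by
      intro x hx u hu
      rw [Finset.mem_sdiff, Finset.mem_filter, Finset.mem_filter] at hx ⊢
      refine ⟨⟨Finset.mem_univ _, (Subgroup.mem_normalizer_iff.mp (hPK u hu) x).mp hx.1.2⟩, ?_⟩
      intro h
      exact hx.2 ⟨Finset.mem_univ _, (Subgroup.mem_normalizer_iff.mp (hPC u hu) x).mpr h.2⟩)
    (by
      intro x hx
      rw [Finset.mem_sdiff, Finset.mem_filter, Finset.mem_filter] at hx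
      have h2 : ¬ x ∈ Subgroup.centralizer (P : Set G) := fun h => hx.2 ⟨Finset.mem_univ _, h⟩
      rw [Subgroup.mem_centralizer_iff] at h2
      push Not at h2
      obtain ⟨u, hu, hne⟩ := h2
      refine ⟨u, hu, fun h => hne ?_⟩
      calc u * x = u * x * u⁻¹ * u := by group
        _ = x * u := by rw [h])
  have h2 : MemLocalIdeal M (∑ x : Subgroup.centralizer (P : Set G), β (x : G) - 1) := by
    rw [← hsC, ← hsK, ← Finset.sum_sdiff hsub]
    have h3 := memLocalIdeal_neg hX
    have e : (∑ x ∈ Finset.univ.filter (fun x : G => x ∈ Subgroup.centralizer (P : Set G)), β x)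
        - ((∑ x ∈ Finset.univ.filter (fun x : G => x ∈ Subgroup.centralizer (Q : Set G))
            \ Finset.univ.filter (fun x : G => x ∈ Subgroup.centralizer (P : Set G)), β x)
          + ∑ x ∈ Finset.univ.filter (fun x : G => x ∈ Subgroup.centralizer (P : Set G)), β x)
        = -(∑ x ∈ Finset.univ.filter (fun x : G => x ∈ Subgroup.centralizer (Q : Set G))
            \ Finset.univ.filter (fun x : G => x ∈ Subgroup.centralizer (P : Set G)), β x) := by
      ring
    rw [e]
    exact h3
  have h4 := memLocalIdeal_add hMp h1 h2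
  rwa [sub_add_sub_cancel] at h4

theorem pf_normal {p : ℕ} [Fact p.Prime] {M : Ideal AlgInt} (hM : IsPModular p M)
    [hMp : M.IsPrime] (Q P : Subgroup G) (hQP : Q ≤ P)
    (hPN : P ≤ Subgroup.normalizer (Q : Set G)) (hP : IsPGroup p P) :
    IsNormalSubpair p M Q (principalBlock M (Subgroup.centralizer (Q : Set G))) P
      (principalBlock M (Subgroup.centralizer (P : Set G))) := by
  refine ⟨⟨hP.to_le hQP, pf_isPBlock M⟩, ⟨hP, pf_isPBlock M⟩, hQP, hPN, ?_, ?_⟩
  · intro x hx
    have hxN := pf_norm_cent Q x (hPN hx)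
    exact ⟨hxN, fun χ hχ => principal_conj_stable _ x hxN χ hχ⟩
  · intro ξ hξ
    exact pf_brauer hM Q P hQP hPN hP ξ hξ

theorem pf_chain {p : ℕ} [Fact p.Prime] {M : Ideal AlgInt} (hM : IsPModular p M)
    [hMp : M.IsPrime] (S : Subgroup G) (hS : IsPGroup p S) :
    ∀ (n : ℕ) (Q : Subgroup G), Q ≤ S → Nat.card S - Nat.card Q ≤ n →
      SubpairLE p M Q (principalBlock M (Subgroup.centralizer (Q : Set G))) S
        (principalBlock M (Subgroup.centralizer (S : Set G))) := by
  intro n
  induction n with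
  | zero =>
    intro Q hQS hn
    have hle : Nat.card S ≤ Nat.card Q := by omega
    obtain rfl := Subgroup.eq_of_le_of_card_ge hQS hle
    exact Relation.ReflTransGen.refl
  | succ n ih =>
    intro Q hQS hn
    by_cases hQ : Q = S
    · subst hQ
      exact Relation.ReflTransGen.refl
    have hnil : Group.IsNilpotent S := hS.isNilpotent
    have hnc := Group.normalizerCondition_of_isNilpotent (G := S)
    have hlt : Q.subgroupOf S < ⊤ := by
      rw [lt_top_iff_ne_top]
      intro h
      rw [Subgroup.subgroupOf_eq_top] at h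
      exact hQ (le_antisymm hQS h)
    have h2 := hnc _ hlt
    obtain ⟨x, hxN, hxQ⟩ := SetLike.exists_of_lt h2
    have hxQ' : (x : G) ∉ Q := fun h => hxQ (Subgroup.mem_subgroupOf.mpr h)
    have hxN' : (x : G) ∈ Subgroup.normalizer (Q : Set G) := by
      rw [Subgroup.mem_normalizer_iff] at hxN ⊢
      intro q
      constructor
      · intro hq
        have h3 := (hxN ⟨q, hQS hq⟩).mp (Subgroup.mem_subgroupOf.mpr hq)
        exact Subgroup.mem_subgroupOf.mp h3
      · intro hq
        have hqS : q ∈ S := by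
          have h4 : q = (x : G)⁻¹ * ((x : G) * q * (x : G)⁻¹) * (x : G) := by group
          rw [h4]
          exact S.mul_mem (S.mul_mem (S.inv_mem x.2) (hQS hq)) x.2
        have h3 := (hxN ⟨q, hqS⟩).mpr (Subgroup.mem_subgroupOf.mpr hq)
        exact Subgroup.mem_subgroupOf.mp h3
    obtain ⟨Q₁, hQ₁⟩ : ∃ Q₁ : Subgroup G, Q₁ = S ⊓ Subgroup.normalizer (Q : Set G) := ⟨_, rfl⟩
    have hQQ₁ : Q ≤ Q₁ := by
      rw [hQ₁]
      exact le_inf hQS Subgroup.le_normalizer
    have hQ₁S : Q₁ ≤ S := by rw [hQ₁]; exact inf_le_left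
    have hQ₁N : Q₁ ≤ Subgroup.normalizer (Q : Set G) := by rw [hQ₁]; exact inf_le_right
    have hxQ₁ : (x : G) ∈ Q₁ := by rw [hQ₁]; exact ⟨x.2, hxN'⟩
    have hcard : Nat.card Q < Nat.card Q₁ := by
      by_contra hc
      have h5 := Subgroup.eq_of_le_of_card_ge hQQ₁ (by omega)
      rw [← h5] at hxQ₁
      exact hxQ' hxQ₁
    have hstep := pf_normal hM Q Q₁ hQQ₁ hQ₁N (hS.to_le hQ₁S)
    have hrest := ih Q₁ hQ₁S (by omega)
    have hstep' : NormalSubpairRel p M
        ⟨Q, principalBlock M (Subgroup.centralizer (Q : Set G))⟩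
        ⟨Q₁, principalBlock M (Subgroup.centralizer (Q₁ : Set G))⟩ := hstep
    exact Relation.ReflTransGen.head hstep' hrest

omit [Fintype G] in
theorem pf_le {p : ℕ} {M : Ideal AlgInt} (a b : BrauerPairIdx G)
    (h : Relation.ReflTransGen (NormalSubpairRel p M) a b) : a.1 ≤ b.1 := by
  induction h with
  | refl => exact le_rfl
  | tail _ hbc ih => exact le_trans ih hbc.2.2.1

omit [Fintype G] in
theorem pf_conj_mem (Q : Subgroup G) (g y : G) :
    y ∈ Q.map (MulAut.conj g).toMonoidHom ↔ ∃ q ∈ Q, g * q * g⁻¹ = y := by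
  rw [Subgroup.mem_map]
  exact Iff.rfl

/-- the conjugate of the principal block of `C_G(Q)` is the principal block of the centralizer
of the conjugate subgroup. -/
theorem pf_conj {M : Ideal AlgInt} (Q : Subgroup G) (g : G) :
    conjBlock Q g (principalBlock M (Subgroup.centralizer (Q : Set G)))
      = principalBlock M (Subgroup.centralizer
          ((Q.map (MulAut.conj g).toMonoidHom : Subgroup G) : Set G)) := by
  have h1 : ∀ c' ∈ Subgroup.centralizer ((Q.map (MulAut.conj g).toMonoidHom : Subgroup G) : Set G),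
      g⁻¹ * c' * g ∈ Subgroup.centralizer (Q : Set G) := by
    intro c' hc'
    rw [Subgroup.mem_centralizer_iff] at hc' ⊢
    intro q hq
    have h2 := hc' (g * q * g⁻¹) ((pf_conj_mem Q g _).mpr ⟨q, hq, rfl⟩)
    calc q * (g⁻¹ * c' * g) = g⁻¹ * ((g * q * g⁻¹) * c') * g := by group
      _ = g⁻¹ * (c' * (g * q * g⁻¹)) * g := by rw [h2]
      _ = g⁻¹ * c' * g * q := by group
  have h2 : ∀ c ∈ Subgroup.centralizer (Q : Set G),
      g * c * g⁻¹ ∈ Subgroup.centralizer
        ((Q.map (MulAut.conj g).toMonoidHom : Subgroup G) : Set G) := by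
    intro c hc
    rw [Subgroup.mem_centralizer_iff] at hc ⊢
    intro y hy
    obtain ⟨q, hq, rfl⟩ := (pf_conj_mem Q g y).mp hy
    have h3 := hc q hq
    calc g * q * g⁻¹ * (g * c * g⁻¹) = g * (q * c) * g⁻¹ := by group
      _ = g * (c * q) * g⁻¹ := by rw [h3]
      _ = g * c * g⁻¹ * (g * q * g⁻¹) := by group
  obtain ⟨φ, hφ⟩ : ∃ φ : Subgroup.centralizer
      ((Q.map (MulAut.conj g).toMonoidHom : Subgroup G) : Set G) ≃*
        Subgroup.centralizer (Q : Set G), ∀ c', ((φ c' : Subgroup.centralizer (Q : Set G)) : G)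
          = g⁻¹ * (c' : G) * g := by
    refine ⟨{ toFun := fun c' => ⟨g⁻¹ * (c' : G) * g, h1 _ c'.2⟩
              invFun := fun c => ⟨g * (c : G) * g⁻¹, h2 _ c.2⟩
              left_inv := fun c' => by
                apply Subtype.ext
                show g * (g⁻¹ * (c' : G) * g) * g⁻¹ = (c' : G)
                group
              right_inv := fun c => by
                apply Subtype.ext
                show g⁻¹ * (g * (c : G) * g⁻¹) * g = (c : G)
                group
              map_mul' := fun a b => by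
                apply Subtype.ext
                show g⁻¹ * ((a : G) * (b : G)) * g = (g⁻¹ * (a : G) * g) * (g⁻¹ * (b : G) * g)
                group }, fun c' => rfl⟩
  ext ξ'
  constructor
  · rintro ⟨ξ, hξ, hrel⟩
    refine pf_transport φ ξ hξ ξ' (fun c' => hrel (φ c') c' ?_)
    rw [hφ]
    group
  · intro hξ'
    refine ⟨⟨fun c => (ξ' : _ → ℂ) (φ.symm c), isIrrCharacter_comp_mulEquiv φ.symm ξ'.2⟩,
      pf_transport φ.symm ξ' hξ' _ (fun _ => rfl), ?_⟩
    intro c c' hcc
    show (ξ' : _ → ℂ) c' = (ξ' : _ → ℂ) (φ.symm c)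
    have h5 : φ.symm c = c' := by
      rw [MulEquiv.symm_apply_eq]
      apply Subtype.ext
      rw [hφ, hcc]
      group
    rw [h5]

/-- the principal block: maximal Brauer pair on a Sylow subgroup and its fusion system. -/
theorem pf_main {p : ℕ} [Fact p.Prime] {M : Ideal AlgInt} (hM : IsPModular p M)
    (S : Sylow p G) :
    IsMaximalBrauerPair p M (principalBlock M G) (S : Subgroup G)
        (principalBlock M (Subgroup.centralizer ((S : Subgroup G) : Set G))) ∧
      ∀ F : FusionSystem (S : Subgroup G),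
        IsBlockFusionSystemOn p M (principalBlock M G) (S : Subgroup G)
          (principalBlock M (Subgroup.centralizer ((S : Subgroup G) : Set G))) F →
        ∀ Q : Subgroup G, F.Hom Q = (groupFusionSystem (S : Subgroup G)).Hom Q := by
  classical
  have hMp : M.IsPrime := hM.2.1.isPrime
  have hS : IsPGroup p (S : Subgroup G) := S.isPGroup'
  refine ⟨⟨?_, ?_⟩, ?_⟩
  · obtain ⟨triv, htriv⟩ : ∃ t : IrrCharacter (Subgroup.centralizer ((S : Subgroup G) : Set G)),
        (t : Subgroup.centralizer ((S : Subgroup G) : Set G) → ℂ) = fun _ => 1 :=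
      ⟨⟨_, Helper24.isIrrCharacter_one⟩, rfl⟩
    have h1 := (principal_brauerPair_iff hM (S : Subgroup G) hS triv).mpr
      (principalBlock_eq_blockOf M triv htriv).symm
    rw [← principalBlock_eq_blockOf M triv htriv] at h1
    exact h1
  · intro R g hR hle
    have hSR : (S : Subgroup G) ≤ R := pf_le _ _ hle
    exact S.is_maximal' hR.1.1 hSR
  · intro F hF Q
    ext φ
    rw [hF.2 Q φ]
    constructor
    · rintro ⟨hQS, g, hg, hmap, -⟩
      refine ⟨hQS, fun x => ?_, g, hg⟩
      rw [hg]
      exact hmap ((pf_conj_mem Q g _).mpr ⟨x, x.2, rfl⟩)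
    · rintro ⟨hQS, hφS, g, hg⟩
      have hmap : Q.map (MulAut.conj g).toMonoidHom ≤ (S : Subgroup G) := by
        intro y hy
        obtain ⟨q, hq, rfl⟩ := (pf_conj_mem Q g y).mp hy
        have := hφS ⟨q, hq⟩
        rwa [hg] at this
      refine ⟨hQS, g, hg, hmap, principalBlock M (Subgroup.centralizer (Q : Set G)),
        pf_chain hM (S : Subgroup G) hS _ Q hQS le_rfl, ?_⟩
      rw [pf_conj]
      exact pf_chain hM (S : Subgroup G) hS _ _ hmap le_rfl

end Cfsg.Agent.Helper24
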