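import Mathlib
import Cfsg.Agent.Helper24.GalOdd1
import Cfsg.Agent.Helper5.BlkReal2
import Cfsg.Agent.Helper5.BlkKer
import Cfsg.Agent.Helper5.BlkLoc
import Cfsg.Agent.Helper5.BlkOsima
import Cfsg.Agent.Helper5.Isom
import Cfsg.Agent.Helper24.CharLinear
import Cfsg.Agent.Helper24.CharCliff
import Cfsg.Agent.Helper24.CharIto
import Cfsg.Agent.S0906
import Cfsg.Agent.S0908

/-!
helper24: real odd-degree extendible characters have an extension in the principal 2-block.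
-/

set_option autoImplicit false
set_option maxHeartbeats 1600000

namespace Cfsg.Agent.Helper24

open Cfsg

universe u

/-- a 2-block of full defect containing `χ₀` and its complex conjugate is principal. -/
theorem re_principal {G : Type u} [Group G] [Finite G] (M : Ideal AlgInt) (hM : IsPModular 2 M)
    (χ₀ χ₀c : IrrCharacter G) (hc : ∀ g, (χ₀c : G → ℂ) g = starRingEnd ℂ ((χ₀ : G → ℂ) g))
    (hsb0 : SameBlock M (χ₀ : G → ℂ) (χ₀c : G → ℂ))
    (hdeg : Odd (charDegree (χ₀ : G → ℂ))) : χ₀ ∈ principalBlock M G := by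
  classical
  haveI := Fintype.ofFinite G
  haveI hMp : M.IsPrime := hM.2.1.isPrime
  haveI : Fact (Nat.Prime 2) := ⟨Nat.prime_two⟩
  have hB : IsPBlock M (blockOf M (χ₀ : G → ℂ)) := ⟨χ₀, rfl⟩
  have hmem : χ₀ ∈ blockOf M (χ₀ : G → ℂ) := Cfsg.Agent.Helper5.sameBlock_refl _
  have hdef : blockDefect 2 (blockOf M (χ₀ : G → ℂ)) = (Nat.card G).factorization 2 := by
    unfold blockDefect
    have h0 : sInf ((fun χ : IrrCharacter G => (charDegree (χ : G → ℂ)).factorization 2) ''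
        blockOf M (χ₀ : G → ℂ)) = 0 :=
      Nat.sInf_eq_zero.mpr (Or.inl ⟨χ₀, hmem,
        Nat.factorization_eq_zero_of_not_dvd (fun h2 => (Nat.not_even_iff_odd.mpr hdeg)
          (even_iff_two_dvd.mpr h2))⟩)
    rw [h0, Nat.sub_zero]
  obtain ⟨g₀, hg₀⟩ := Cfsg.Agent.S0906.result 2 M hM _ hB
  obtain ⟨Q⟩ : Nonempty (Sylow 2 (Subgroup.centralizer ({g₀} : Set G))) := inferInstance
  have hD : IsDefectGroup 2 M (blockOf M (χ₀ : G → ℂ))
      ((Q : Subgroup (Subgroup.centralizer ({g₀} : Set G))).map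
        (Subgroup.centralizer ({g₀} : Set G)).subtype) := ⟨g₀, hg₀, Q, rfl⟩
  have hcard := Cfsg.Agent.S0908.result 2 M hM _ hB _ hD
  rw [hdef] at hcard
  obtain ⟨P, hP⟩ : ∃ P : Sylow 2 G, (P : Subgroup G) =
      (Q : Subgroup (Subgroup.centralizer ({g₀} : Set G))).map
        (Subgroup.centralizer ({g₀} : Set G)).subtype :=
    ⟨Sylow.ofCard _ hcard, Sylow.coe_ofCard _ hcard⟩
  have hprin := Cfsg.Agent.Helper5.real_full_defect_principal hM χ₀ P (by rw [hP]; exact hD) (by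
    intro χ hχ ψ hψ
    have hχ' : SameBlock M (χ₀ : G → ℂ) (χ : G → ℂ) := hχ
    have h1 : SameBlock M (χ₀c : G → ℂ) (ψ : G → ℂ) := by
      intro g
      have h2 := hχ' g⁻¹
      have hcent : Subgroup.centralizer ({g⁻¹} : Set G) = Subgroup.centralizer ({g} : Set G) := by
        ext x
        rw [Subgroup.mem_centralizer_singleton_iff, Subgroup.mem_centralizer_singleton_iff]
        show Commute x g⁻¹ ↔ Commute x g
        exact Commute.inv_right_iff
      have e1 : centralChar (χ₀c : G → ℂ) g = centralChar (χ₀ : G → ℂ) g⁻¹ := by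
        unfold centralChar
        rw [hcent, hc g, hc 1, irr_inv χ₀ g, Cfsg.Agent.Helper5.irr_one_conj]
      have hψg : ∀ g, (ψ : G → ℂ) g = starRingEnd ℂ ((χ : G → ℂ) g) := fun g => by rw [hψ]
      have e2 : centralChar (ψ : G → ℂ) g = centralChar (χ : G → ℂ) g⁻¹ := by
        unfold centralChar
        rw [hcent, hψg g, hψg 1, irr_inv χ g, Cfsg.Agent.Helper5.irr_one_conj]
      rw [← e1, ← e2] at h2
      exact h2
    exact Cfsg.Agent.Helper5.sameBlock_trans hsb0 h1)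
  rw [← hprin]
  exact hmem

theorem re_main {G : Type u} [Group G] [Finite G] (N : Subgroup G) [hN : N.Normal]
    (M : Ideal AlgInt) (hM : IsPModular 2 M) (θ : IrrCharacter N)
    (hreal : ∀ n : N, ((θ : N → ℂ) n).im = 0) (hodd : Odd (charDegree (θ : N → ℂ)))
    (hext : ∃ η : IrrCharacter G, ∀ n : N, (η : G → ℂ) n = (θ : N → ℂ) n) :
    ∃ η : IrrCharacter G, (∀ n : N, (η : G → ℂ) n = (θ : N → ℂ) n) ∧
      η ∈ principalBlock M G := by
  classical
  haveI := Fintype.ofFinite G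
  haveI : Fintype N := Fintype.ofFinite N
  haveI hMp : M.IsPrime := hM.2.1.isPrime
  haveI : Fact (Nat.Prime 2) := ⟨Nat.prime_two⟩
  obtain ⟨η, hη⟩ := hext
  have hconjθ : ∀ n : N, starRingEnd ℂ ((θ : N → ℂ) n) = (θ : N → ℂ) n :=
    fun n => Complex.conj_eq_iff_im.mpr (hreal n)
  obtain ⟨η', hη'⟩ : ∃ η' : IrrCharacter G,
      ∀ g, (η' : G → ℂ) g = starRingEnd ℂ ((η : G → ℂ) g) :=
    ⟨⟨_, isIrrCharacter_star η.2⟩, fun g => rfl⟩
  have hη'N : ∀ n : N, (η' : G → ℂ) n = (θ : N → ℂ) n := fun n => by rw [hη', hη, hconjθ]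
  obtain ⟨oneN, honeN⟩ : ∃ o : IrrCharacter N, (o : N → ℂ) = fun _ => 1 :=
    ⟨⟨_, Cfsg.Agent.Helper24.isIrrCharacter_one⟩, rfl⟩
  have hmul1 : (oneN : N → ℂ) * (θ : N → ℂ) = (θ : N → ℂ) := by
    funext n; rw [Pi.mul_apply, honeN, one_mul]
  have hθinv : ∀ (g : G) (n : N),
      (θ : N → ℂ) ⟨g * n * g⁻¹, hN.conj_mem (n : G) n.2 g⟩ = (θ : N → ℂ) n := by
    intro g n
    rw [← hη, ← hη]
    exact irr_conj η n g
  have hgal := Cfsg.Agent.Helper5.gallagher_bij N (oneN : N → ℂ) (θ : N → ℂ) oneN.2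
    (fun g n => by rw [honeN]) hθinv (by rw [hmul1]; exact θ.2) (η : G → ℂ) η.2 hη
  have hin : classInner (indFun N ((oneN : N → ℂ) * (θ : N → ℂ))) (η' : G → ℂ) ≠ 0 := by
    rw [hmul1, classInner_indFun N _ _ (irr_isClassFunction η'),
      show (fun h : N => (η' : G → ℂ) h) = (θ : N → ℂ) from funext hη'N, irr_inner_self]
    exact one_ne_zero
  obtain ⟨β, hβin, hβ⟩ := hgal.2.2 (η' : G → ℂ) η'.2 hin
  have hβg : ∀ g, (β : G → ℂ) g * (η : G → ℂ) g = starRingEnd ℂ ((η : G → ℂ) g) := fun g => by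
    have h0 := congrFun hβ g
    rw [Pi.mul_apply, hη'] at h0
    exact h0
  have hη1 : (η : G → ℂ) 1 ≠ 0 := Cfsg.Agent.Helper24.irr_one_ne_zero η
  obtain ⟨d, hd⟩ := irr_one_eq_natCast θ
  have hη1d : (η : G → ℂ) 1 = d := by
    have h0 := hη 1
    rw [Subgroup.coe_one] at h0
    rw [h0, hd]
  have hd0 : (d : ℂ) ≠ 0 := by rw [← hη1d]; exact hη1
  have hβ1 : (β : G → ℂ) 1 = 1 := by
    have h1 := hβg 1
    rw [hη1d, Complex.conj_natCast] at h1
    exact mul_right_cancel₀ hd0 (by rw [h1, one_mul])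
  have hβmul : ∀ g k : G, (β : G → ℂ) (g * k) = (β : G → ℂ) g * (β : G → ℂ) k :=
    irr_linear_mul β hβ1
  have hβpow : ∀ (n : ℕ) (g : G), (β : G → ℂ) (g ^ n) = (β : G → ℂ) g ^ n := by
    intro n g
    induction n with
    | zero => rw [pow_zero, pow_zero, hβ1]
    | succ n ih => rw [pow_succ, pow_succ, hβmul, ih]
  have hβcard : ∀ g : G, (β : G → ℂ) g ^ Nat.card G = 1 := fun g => by
    rw [← hβpow, pow_card_eq_one', hβ1]
  have hβnorm : ∀ g : G, starRingEnd ℂ ((β : G → ℂ) g) * (β : G → ℂ) g = 1 := by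
    intro g
    rw [← irr_inv β g, ← hβmul, inv_mul_cancel, hβ1]
  have hβN : ∀ x ∈ N, (β : G → ℂ) x = 1 := by
    have hs : ∑ n : N, (β : G → ℂ) n ≠ 0 := by
      intro h0
      apply hβin
      rw [classInner_indFun N _ _ (irr_isClassFunction β), classInner_def']
      have h2 : ∑ n : N, (oneN : N → ℂ) n * starRingEnd ℂ ((β : G → ℂ) (n : G)) = 0 := by
        have h1 := congrArg (starRingEnd ℂ) h0
        rw [map_sum, map_zero] at h1
        rw [← h1]
        exact Finset.sum_congr rfl fun n _ => by rw [honeN, one_mul]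
      rw [h2, mul_zero]
    intro x hx
    rw [irr_ker_of_sum_ne_zero N β hs x hx, hβ1]
  -- powers of `β` are irreducible characters
  have hβirr : ∀ n : ℕ, IsIrrCharacter G (fun g => (β : G → ℂ) g ^ n) := by
    intro n
    induction n with
    | zero =>
      have e : (fun g : G => (β : G → ℂ) g ^ 0) = fun _ => (1 : ℂ) := by
        funext g; rw [pow_zero]
      rw [e]; exact Cfsg.Agent.Helper24.isIrrCharacter_one
    | succ n ih =>
      have e : (fun g : G => (β : G → ℂ) g ^ (n + 1))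
          = (β : G → ℂ) * (fun g : G => (β : G → ℂ) g ^ n) := by
        funext g; rw [Pi.mul_apply, pow_succ']
      rw [e]; exact linear_mul_irr _ _ β.2 hβ1 ih
  obtain ⟨a, m, hm', hm⟩ := Nat.exists_eq_two_pow_mul_odd (Nat.card_pos (α := G)).ne'
  obtain ⟨i, hi⟩ := hm'
  obtain ⟨χ₀, hχ₀⟩ : ∃ χ₀ : IrrCharacter G,
      ∀ g, (χ₀ : G → ℂ) g = (β : G → ℂ) g ^ (i + 1) * (η : G → ℂ) g :=
    ⟨⟨_, linear_mul_irr _ _ (hβirr (i + 1)) (by rw [hβ1, one_pow]) η.2⟩, fun g => rfl⟩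
  obtain ⟨χ₀c, hχ₀c⟩ : ∃ χ₀c : IrrCharacter G,
      ∀ g, (χ₀c : G → ℂ) g = starRingEnd ℂ ((χ₀ : G → ℂ) g) :=
    ⟨⟨_, isIrrCharacter_star χ₀.2⟩, fun g => rfl⟩
  obtain ⟨lam, hlam⟩ : ∃ lam : G → ℂ,
      lam = fun g => (starRingEnd ℂ ((β : G → ℂ) g)) ^ (2 * i + 1) := ⟨_, rfl⟩
  have hlamapp : ∀ g, lam g = (starRingEnd ℂ ((β : G → ℂ) g)) ^ (2 * i + 1) := fun g => by
    rw [hlam]
  have hA : ∀ g, starRingEnd ℂ ((χ₀ : G → ℂ) g) = lam g * (χ₀ : G → ℂ) g := by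
    intro g
    rw [hχ₀ g, map_mul, map_pow, ← hβg g, hlamapp]
    have hb := hβnorm g
    have h1 : (starRingEnd ℂ ((β : G → ℂ) g)) ^ (i + 1) * (β : G → ℂ) g
        = (starRingEnd ℂ ((β : G → ℂ) g)) ^ i := by
      rw [pow_succ, mul_assoc, hb, mul_one]
    have h2 : (starRingEnd ℂ ((β : G → ℂ) g)) ^ (2 * i + 1) * (β : G → ℂ) g ^ (i + 1)
        = (starRingEnd ℂ ((β : G → ℂ) g)) ^ i := by
      rw [show 2 * i + 1 = i + (i + 1) by ring, pow_add, mul_assoc, ← mul_pow, hb, one_pow,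
        mul_one]
    calc (starRingEnd ℂ ((β : G → ℂ) g)) ^ (i + 1) * ((β : G → ℂ) g * (η : G → ℂ) g)
        = ((starRingEnd ℂ ((β : G → ℂ) g)) ^ (i + 1) * (β : G → ℂ) g) * (η : G → ℂ) g := by
          ring
      _ = ((starRingEnd ℂ ((β : G → ℂ) g)) ^ (2 * i + 1) * (β : G → ℂ) g ^ (i + 1))
            * (η : G → ℂ) g := by rw [h1, h2]
      _ = _ := by ring
  have hBp : ∀ g, lam g ^ (2 ^ a) = 1 := by
    intro g
    rw [hlamapp, ← pow_mul, ← map_pow, show (2 * i + 1) * 2 ^ a = Nat.card G by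
      rw [hm, hi]; ring, hβcard, map_one]
  have hC : lam 1 = 1 := by rw [hlamapp, hβ1, map_one, one_pow]
  have hsb0 : SameBlock M (χ₀ : G → ℂ) (χ₀c : G → ℂ) := by
    intro g
    have e : centralChar (χ₀ : G → ℂ) g - centralChar (χ₀c : G → ℂ) g
        = -(centralChar (χ₀ : G → ℂ) g * (lam g - 1)) := by
      unfold centralChar
      rw [hχ₀c g, hχ₀c 1, hA g, hA 1, hC, one_mul]
      ring
    rw [e]
    exact Cfsg.Agent.Helper5.memLocalIdeal_neg (Cfsg.Agent.Helper5.memLocalIdeal_mul_left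
      (Cfsg.Agent.Helper5.integral_mem_locRing (Cfsg.Agent.Helper5.centralChar_isIntegral χ₀ g))
      (Cfsg.Agent.Helper5.ppow_root_sub_one_mem hM (k := a) (hBp g)))
  have hχ₀1 : (χ₀ : G → ℂ) 1 = d := by rw [hχ₀, hβ1, one_pow, one_mul, hη1d]
  have hdθ : charDegree (θ : N → ℂ) = d := charDegree_of_eq hd
  have hdeg : Odd (charDegree (χ₀ : G → ℂ)) := by
    rw [charDegree_of_eq hχ₀1, ← hdθ]; exact hodd
  refine ⟨χ₀, fun n => ?_, re_principal M hM χ₀ χ₀c hχ₀c hsb0 hdeg⟩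
  rw [hχ₀, hβN n n.2, one_pow, one_mul, hη]

end Cfsg.Agent.Helper24
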