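import Cfsg.Agent.Helper24.PQSolv

/-!
# TI Sylow subgroups and faithful characters of small degree: the character part

A finite group `A` (a `p`-group) acts by automorphisms on a finite `p'`-group `Q` through
`φ : A →* MulAut Q`.  `ψ` is a faithful `A`-invariant character of `Q` with
`ψ(1)^2 ≤ |A|`.  If every nonidentity element of `A` has the same fixed points on `Q` as the
whole of `A`, these fixed points are central in `Q` and contain all commutators of `Q`, then
`A` acts trivially on `Q` (`ti_char_part`).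
-/

set_option autoImplicit false

namespace Cfsg.Agent.Helper24

open Cfsg Cfsg.Agent.Helper22
open scoped Classical

universe u v

section
variable {Q : Type u} {A : Type v} [Group Q] [Group A]

/-- Stabilizer of a function under an action by automorphisms. -/
def tiStab (φ : A →* MulAut Q) (θ : Q → ℂ) : Subgroup A where
  carrier := {t | ∀ u, θ (φ t u) = θ u}
  mul_mem' := by
    intro a b ha hb
    have ha' : ∀ u, θ (φ a u) = θ u := ha
    have hb' : ∀ u, θ (φ b u) = θ u := hb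
    show ∀ u, θ (φ (a * b) u) = θ u
    intro u
    rw [map_mul, MulAut.mul_apply, ha', hb']
  one_mem' := by
    show ∀ u, θ (φ 1 u) = θ u
    intro u
    rw [map_one, MulAut.one_apply]
  inv_mem' := by
    intro a ha
    have ha' : ∀ u, θ (φ a u) = θ u := ha
    show ∀ u, θ (φ a⁻¹ u) = θ u
    intro u
    have h := ha' (φ a⁻¹ u)
    rw [← MulAut.mul_apply, ← map_mul, mul_inv_cancel, map_one, MulAut.one_apply] at h
    exact h.symm

theorem mem_tiStab (φ : A →* MulAut Q) (θ : Q → ℂ) (t : A) :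
    t ∈ tiStab φ θ ↔ ∀ u, θ (φ t u) = θ u := Iff.rfl

/-- Composition with an automorphism preserves irreducibility. -/
theorem ti_irr_comp (f : MulAut Q) (θ : Q → ℂ) (hθ : IsIrrCharacter Q θ) :
    IsIrrCharacter Q (fun u => θ (f u)) :=
  isIrrCharacter_comp_surj (f : Q ≃* Q).toMonoidHom (f : Q ≃* Q).surjective θ hθ

/-- The twisted irreducible character `θ ∘ φ a`. -/
noncomputable def tiTw (φ : A →* MulAut Q) (θ : IrrCharacter Q) (a : A) : IrrCharacter Q :=
  ⟨fun u => θ.1 (φ a u), ti_irr_comp (φ a) θ.1 θ.2⟩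

theorem ti_classInner_comp [Fintype Q] (f : MulAut Q) (ψ θ : Q → ℂ) :
    classInner (fun u => ψ (f u)) (fun u => θ (f u)) = classInner ψ θ := by
  unfold classInner
  congr 1
  exact Equiv.sum_comp (f : Q ≃* Q).toEquiv (fun u => ψ u * (starRingEnd ℂ) (θ u))

/-- Orbit counting: a constituent `θ` of an invariant character `ψ` with `ψ(1)^2 ≤ |A|` has
`θ(1)^2 ≤ |T|` for its stabilizer `T`, and `T ≠ 1` unless `A = 1`. -/
theorem ti_orbit_bound [Fintype Q] [Finite A] (φ : A →* MulAut Q) (ψ : Q → ℂ)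
    (hψ : IsCharacter Q ψ) (hinv : ∀ a u, ψ (φ a u) = ψ u)
    (hdeg : charDegree ψ ^ 2 ≤ Nat.card A) (θ : IrrCharacter Q)
    (hθ : classInner ψ θ.1 ≠ 0) :
    charDegree θ.1 ^ 2 ≤ Nat.card (tiStab φ θ.1) ∧
      (Nat.card (tiStab φ θ.1) = 1 → Nat.card A = 1) := by
  haveI := Fintype.ofFinite A
  choose m hm using fun θ' : IrrCharacter Q => isCharacter_inner_irr hψ θ'
  have hd : ∀ θ' : IrrCharacter Q, θ'.1 1 = (charDegree θ'.1 : ℂ) :=
    fun θ' => (irr_charDegree_spec θ').1
  have hsum : ψ 1 = ((∑ θ' : IrrCharacter Q, m θ' * charDegree θ'.1 : ℕ) : ℂ) := by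
    have h := congrFun (classFunction_eq_sum_irr ψ (isCharacter_isClassFunction hψ)) 1
    refine h.trans ?_
    simp only [Finset.sum_apply, Pi.smul_apply, smul_eq_mul]
    rw [Nat.cast_sum]
    apply Finset.sum_congr rfl
    intro x _
    rw [Nat.cast_mul, hm, hd]
  have hN : charDegree ψ = ∑ θ' : IrrCharacter Q, m θ' * charDegree θ'.1 := by
    show ⌊(ψ 1).re⌋₊ = _
    rw [hsum, Complex.natCast_re, Nat.floor_natCast]
  have hmpos : 0 < m θ := by
    rw [Nat.pos_iff_ne_zero]
    intro h0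
    apply hθ
    rw [hm, h0, Nat.cast_zero]
  obtain ⟨O, hO⟩ : ∃ O : Finset (IrrCharacter Q),
      O = Finset.univ.image (fun a : A => tiTw φ θ a) := ⟨_, rfl⟩
  have hmO : ∀ a : A, m (tiTw φ θ a) = m θ := by
    intro a
    have h2 := ti_classInner_comp (φ a) ψ θ.1
    have h3 : (fun u => ψ (φ a u)) = ψ := funext (hinv a)
    rw [h3] at h2
    have h4 : classInner ψ (tiTw φ θ a).1 = classInner ψ θ.1 := h2
    rw [hm, hm] at h4
    exact_mod_cast h4
  have hdO : ∀ a : A, charDegree (tiTw φ θ a).1 = charDegree θ.1 := by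
    intro a
    show ⌊((θ.1 (φ a 1)).re)⌋₊ = ⌊((θ.1 1).re)⌋₊
    rw [map_one]
  have hOle : O.card * charDegree θ.1 ≤ charDegree ψ := by
    rw [hN]
    calc O.card * charDegree θ.1 ≤ O.card * (m θ * charDegree θ.1) :=
          Nat.mul_le_mul_left _ (Nat.le_mul_of_pos_left _ hmpos)
      _ = ∑ _θ' ∈ O, m θ * charDegree θ.1 := by rw [Finset.sum_const, smul_eq_mul]
      _ = ∑ θ' ∈ O, m θ' * charDegree θ'.1 := by
          apply Finset.sum_congr rfl
          intro θ' hθ'
          rw [hO] at hθ'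
          obtain ⟨a, -, rfl⟩ := Finset.mem_image.mp hθ'
          rw [hmO, hdO]
      _ ≤ ∑ θ' : IrrCharacter Q, m θ' * charDegree θ'.1 :=
          Finset.sum_le_sum_of_subset (Finset.subset_univ O)
  have hAO : Nat.card A ≤ Nat.card (tiStab φ θ.1) * O.card := by
    rw [Nat.card_eq_fintype_card, ← Finset.card_univ, hO]
    apply Finset.card_le_mul_card_image
    intro θ' hθ'
    obtain ⟨a₀, -, rfl⟩ := Finset.mem_image.mp hθ'
    have hT : Nat.card (tiStab φ θ.1) =
        (Finset.univ.filter (fun t : A => t ∈ tiStab φ θ.1)).card :=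
      Nat.subtype_card _ (by simp)
    rw [hT]
    apply Finset.card_le_card_of_injOn (fun a => a * a₀⁻¹)
    · intro a ha
      have ha' : tiTw φ θ a = tiTw φ θ a₀ := (Finset.mem_filter.mp (Finset.mem_coe.mp ha)).2
      have h1 : ∀ u, θ.1 (φ a u) = θ.1 (φ a₀ u) :=
        fun u => congrFun (congrArg Subtype.val ha') u
      apply Finset.mem_coe.mpr
      apply Finset.mem_filter.mpr
      refine ⟨Finset.mem_univ _, ?_⟩
      rw [mem_tiStab]
      intro u
      rw [map_mul, MulAut.mul_apply, h1, ← MulAut.mul_apply, ← map_mul, mul_inv_cancel, map_one,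
        MulAut.one_apply]
    · intro a _ b _ hab
      exact mul_right_cancel hab
  have hO1 : 0 < O.card := by
    rw [hO]
    exact Finset.card_pos.mpr ⟨tiTw φ θ 1, Finset.mem_image_of_mem _ (Finset.mem_univ 1)⟩
  have hd0 : charDegree θ.1 ≠ 0 := (irr_charDegree_spec θ).2.1
  have hA1 : 0 < Nat.card A := Nat.card_pos
  obtain ⟨o, ho⟩ : ∃ o, o = O.card := ⟨_, rfl⟩
  obtain ⟨d, hd'⟩ : ∃ d, d = charDegree θ.1 := ⟨_, rfl⟩
  obtain ⟨t, ht⟩ : ∃ t, t = Nat.card (tiStab φ θ.1) := ⟨_, rfl⟩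
  obtain ⟨N, hN'⟩ : ∃ N, N = charDegree ψ := ⟨_, rfl⟩
  obtain ⟨c, hc⟩ : ∃ c, c = Nat.card A := ⟨_, rfl⟩
  rw [← ho, ← hd', ← hN'] at hOle
  rw [← hc, ← ht, ← ho] at hAO
  rw [← hN', ← hc] at hdeg
  rw [← ho] at hO1
  rw [← hc] at hA1
  rw [← hd'] at hd0
  rw [← hd', ← ht, ← hc]
  have h1 : (o * d) ^ 2 ≤ t * o := le_trans (le_trans (Nat.pow_le_pow_left hOle 2) hdeg) hAO
  have h2 : o * d ^ 2 ≤ t := by
    have h3 : o * (o * d ^ 2) ≤ o * t := by
      calc o * (o * d ^ 2) = (o * d) ^ 2 := by ring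
        _ ≤ t * o := h1
        _ = o * t := by ring
    exact Nat.le_of_mul_le_mul_left h3 hO1
  have hd2 : 1 ≤ d ^ 2 := Nat.one_le_pow _ _ (Nat.pos_of_ne_zero hd0)
  constructor
  · calc d ^ 2 = 1 * d ^ 2 := by ring
      _ ≤ o * d ^ 2 := Nat.mul_le_mul_right _ hO1
      _ ≤ t := h2
  · intro ht1
    rw [ht1] at h2 hAO
    have ho1 : o ≤ 1 := le_trans (Nat.le_mul_of_pos_right o hd2) h2
    omega

/-- An irreducible character vanishes at `g` if `θ(z g) = θ(g)` for a central `z` outside the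
kernel. -/
theorem ti_irr_eq_zero (θ : IrrCharacter Q) (g z : Q) (hz : ∀ w : Q, z * w = w * z)
    (h2 : θ.1 (z * g) = θ.1 g) (hne : θ.1 z ≠ θ.1 1) : θ.1 g = 0 := by
  obtain ⟨n, ρ, hρ, hχ⟩ := θ.2
  haveI : ρ.IsIrreducible := hρ
  obtain ⟨c, hc⟩ : ∃ c : ℂ, ρ z = c • LinearMap.id := by
    refine ⟨_, eq_smul_of_comm_of_irreducible ρ (ρ z) (fun x => ?_)⟩
    show ρ z * ρ x = ρ x * ρ z
    rw [← map_mul, ← map_mul, hz]
  have h3 : θ.1 (z * g) = c * θ.1 g := by
    rw [← hχ]
    show LinearMap.trace ℂ (Fin n → ℂ) (ρ (z * g)) = c * LinearMap.trace ℂ (Fin n → ℂ) (ρ g)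
    have h4 : ρ (z * g) = c • ρ g := by
      rw [map_mul, hc]
      apply LinearMap.ext
      intro v
      simp
    rw [h4, map_smul, smul_eq_mul]
  have h5 : θ.1 z = c * θ.1 1 := by
    rw [← hχ]
    show LinearMap.trace ℂ (Fin n → ℂ) (ρ z) = c * LinearMap.trace ℂ (Fin n → ℂ) (ρ 1)
    rw [hc, map_smul, smul_eq_mul, map_one]
    rfl
  by_contra hg
  apply hne
  have hc1 : c = 1 := by
    rw [h3] at h2
    have h6 : (c - 1) * θ.1 g = 0 := by rw [sub_mul, one_mul, h2, sub_self]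
    rcases mul_eq_zero.mp h6 with h | h
    · exact sub_eq_zero.mp h
    · exact absurd h hg
  rw [h5, hc1, one_mul]

/-- If the irreducible character `θ` vanishes off the subgroup `Y`, then `|Q| ≤ |Y| θ(1)^2`. -/
theorem ti_card_le_of_vanish [Finite Q] (θ : IrrCharacter Q) (Y : Subgroup Q)
    (hvan : ∀ u : Q, u ∉ Y → θ.1 u = 0) : Nat.card Q ≤ Nat.card Y * charDegree θ.1 ^ 2 := by
  haveI := Fintype.ofFinite Q
  have hd := (irr_charDegree_spec θ).1
  have h1 := irr_inner_self θ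
  rw [classInner_def'] at h1
  have hQ0 : (Nat.card Q : ℂ) ≠ 0 := Nat.cast_ne_zero.mpr Nat.card_pos.ne'
  have h2 := (inv_mul_eq_one₀ hQ0).mp h1
  have h3 : (∑ g : Q, ‖θ.1 g‖ ^ 2 : ℝ) = (Nat.card Q : ℝ) := by
    have h4 : ((∑ g : Q, ‖θ.1 g‖ ^ 2 : ℝ) : ℂ) = (Nat.card Q : ℂ) := by
      rw [h2, Complex.ofReal_sum]
      apply Finset.sum_congr rfl
      intro g _
      rw [Complex.mul_conj, Complex.normSq_eq_norm_sq]
    exact_mod_cast h4
  have h5 : (∑ g : Q, ‖θ.1 g‖ ^ 2 : ℝ) ≤
      ∑ g : Q, (if g ∈ Y then (charDegree θ.1 : ℝ) ^ 2 else 0) := by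
    apply Finset.sum_le_sum
    intro g _
    by_cases hg : g ∈ Y
    · rw [if_pos hg]
      have h6 := irr_norm_le θ g
      rw [hd, Complex.norm_natCast] at h6
      exact pow_le_pow_left₀ (norm_nonneg _) h6 2
    · rw [if_neg hg, hvan g hg, norm_zero]
      norm_num
  rw [Finset.sum_ite, Finset.sum_const_zero, add_zero, Finset.sum_const, nsmul_eq_mul] at h5
  have h7 : (Finset.univ.filter (fun g : Q => g ∈ Y)).card = Nat.card Y :=
    (Nat.subtype_card _ (by simp)).symm
  rw [h7, h3] at h5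
  exact_mod_cast h5

/-- A free action on the complement of a subgroup: the order of the acting group divides
`|Q| - |Y|`. -/
theorem ti_card_dvd_of_free {T : Type v} [Group T] [Finite T] [Finite Q]
    (f : T →* Equiv.Perm Q) (Y : Subgroup Q) (hY : ∀ (t : T) (u : Q), u ∈ Y → f t u ∈ Y)
    (hfree : ∀ (t : T) (u : Q), u ∉ Y → f t u = u → t = 1) :
    Nat.card T ∣ Nat.card Q - Nat.card Y := by
  haveI := Fintype.ofFinite T
  haveI := Fintype.ofFinite Q
  letI : MulAction T {u : Q // u ∉ Y} :=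
    { smul := fun t u => ⟨f t u.1, fun h => u.2 (by
        have h1 := hY t⁻¹ _ h
        rwa [← Equiv.Perm.mul_apply, ← map_mul, inv_mul_cancel, map_one,
          Equiv.Perm.one_apply] at h1)⟩
      one_smul := fun u => Subtype.ext (by
        show f 1 u.1 = u.1
        rw [map_one]; rfl)
      mul_smul := fun s t u => Subtype.ext (by
        show f (s * t) u.1 = f s (f t u.1)
        rw [map_mul]; rfl) }
  have hstab : ∀ u : {u : Q // u ∉ Y}, MulAction.stabilizer T u = ⊥ := by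
    intro u
    rw [eq_bot_iff]
    intro t ht
    rw [MulAction.mem_stabilizer_iff] at ht
    rw [Subgroup.mem_bot]
    exact hfree t u.1 u.2 (congrArg Subtype.val ht)
  haveI : Fintype (Quotient (MulAction.orbitRel T {u : Q // u ∉ Y})) := Fintype.ofFinite _
  have key := MulAction.card_eq_sum_card_group_div_card_stabilizer T {u : Q // u ∉ Y}
  have h1 : ∀ ω : Quotient (MulAction.orbitRel T {u : Q // u ∉ Y}),
      Fintype.card T / Fintype.card (MulAction.stabilizer T ω.out) = Fintype.card T := by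
    intro ω
    have h2 : Fintype.card (MulAction.stabilizer T ω.out) = 1 := by
      rw [← Nat.card_eq_fintype_card, hstab, Subgroup.card_bot]
    rw [h2, Nat.div_one]
  rw [Finset.sum_congr rfl (fun ω _ => h1 ω), Finset.sum_const, smul_eq_mul] at key
  have hX : Fintype.card {u : Q // u ∉ Y} = Fintype.card Q - Fintype.card Y :=
    Fintype.card_subtype_compl (fun u => u ∈ Y)
  rw [Nat.card_eq_fintype_card, Nat.card_eq_fintype_card, Nat.card_eq_fintype_card, ← hX, key]
  exact dvd_mul_left _ _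

end

end Cfsg.Agent.Helper24
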