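import Cfsg.Agent.Helper24.TISyl1

/-!
# TI Sylow subgroups and faithful characters of small degree: the character part, II

* `ti_center_case`: constituents have all commutators in their kernel.
* `ti_lin_key`: the abelian case.
* `ti_char_part`: the action is trivial.
-/

set_option autoImplicit false

namespace Cfsg.Agent.Helper24

open Cfsg Cfsg.Agent.Helper22
open scoped Classical

universe u v

theorem ti_center_case {Q : Type u} {A : Type v} [Group Q] [Group A] [Finite Q] [Finite A]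
    (p : ℕ) [hp : Fact p.Prime] (hA : IsPGroup p A) (hQ : ¬ p ∣ Nat.card Q) (φ : A →* MulAut Q)
    (hH : ∀ x : A, x ≠ 1 → ∀ c : Q, φ x c = c → ∀ y : A, φ y c = c)
    (hC : ∀ c : Q, (∀ y : A, φ y c = c) → ∀ u : Q, c * u = u * c)
    (hQ' : ∀ (u v : Q) (y : A), φ y (u * v * u⁻¹ * v⁻¹) = u * v * u⁻¹ * v⁻¹)
    (θ : IrrCharacter Q) (hd : charDegree θ.1 ^ 2 ≤ Nat.card (tiStab φ θ.1)) (g h : Q) :
    θ.1 (g * h * g⁻¹ * h⁻¹) = θ.1 1 := by
  obtain ⟨K, n, hKn, hKmem, -, -, -⟩ := codeg_spec θ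
  by_contra hne
  obtain ⟨Y, hY⟩ : ∃ Y : Subgroup Q, ∀ u, u ∈ Y ↔ ∀ x : Q, u * x * u⁻¹ * x⁻¹ ∈ K :=
    ⟨{ carrier := {u | ∀ x : Q, u * x * u⁻¹ * x⁻¹ ∈ K}
       mul_mem' := by
         intro a b ha hb
         have ha' : ∀ x : Q, a * x * a⁻¹ * x⁻¹ ∈ K := ha
         have hb' : ∀ x : Q, b * x * b⁻¹ * x⁻¹ ∈ K := hb
         show ∀ x : Q, a * b * x * (a * b)⁻¹ * x⁻¹ ∈ K
         intro x
         have e : a * b * x * (a * b)⁻¹ * x⁻¹ =
             a * (b * x * b⁻¹ * x⁻¹) * a⁻¹ * (a * x * a⁻¹ * x⁻¹) := by group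
         rw [e]
         exact K.mul_mem (hKn.conj_mem _ (hb' x) a) (ha' x)
       one_mem' := by
         show ∀ x : Q, 1 * x * 1⁻¹ * x⁻¹ ∈ K
         intro x
         have e : (1 : Q) * x * 1⁻¹ * x⁻¹ = 1 := by group
         rw [e]
         exact K.one_mem
       inv_mem' := by
         intro a ha
         have ha' : ∀ x : Q, a * x * a⁻¹ * x⁻¹ ∈ K := ha
         show ∀ x : Q, a⁻¹ * x * a⁻¹⁻¹ * x⁻¹ ∈ K
         intro x
         have e : a⁻¹ * x * a⁻¹⁻¹ * x⁻¹ = a⁻¹ * (a * x * a⁻¹ * x⁻¹)⁻¹ * a⁻¹⁻¹ := by group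
         rw [e]
         exact hKn.conj_mem _ (K.inv_mem (ha' x)) a⁻¹ },
     fun u => Iff.rfl⟩
  have hKT : ∀ t ∈ tiStab φ θ.1, ∀ k ∈ K, φ t k ∈ K := by
    intro t ht k hk
    apply (hKmem _).mpr
    rw [(mem_tiStab φ θ.1 t).mp ht k]
    exact (hKmem _).mp hk
  have hYT : ∀ t ∈ tiStab φ θ.1, ∀ u ∈ Y, φ t u ∈ Y := by
    intro t ht u hu
    apply (hY _).mpr
    intro x
    have h1 := hKT t ht _ ((hY u).mp hu ((φ t).symm x))
    have h2 : φ t (u * (φ t).symm x * u⁻¹ * ((φ t).symm x)⁻¹) = φ t u * x * (φ t u)⁻¹ * x⁻¹ := by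
      simp only [map_mul, map_inv, MulEquiv.apply_symm_apply]
    rw [h2] at h1
    exact h1
  have hCY : ∀ c : Q, (∀ y : A, φ y c = c) → c ∈ Y := by
    intro c hc
    apply (hY _).mpr
    intro x
    have e : c * x * c⁻¹ * x⁻¹ = 1 := by
      rw [hC c hc x]; group
    rw [e]
    exact K.one_mem
  have hgY : g ∉ Y := by
    intro hg
    exact hne ((hKmem _).mp ((hY g).mp hg h))
  have hvan : ∀ u : Q, u ∉ Y → θ.1 u = 0 := by
    intro u hu
    have hu' : ¬ ∀ x : Q, u * x * u⁻¹ * x⁻¹ ∈ K := fun h' => hu ((hY u).mpr h')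
    push Not at hu'
    obtain ⟨x, hx⟩ := hu'
    obtain ⟨z, hz⟩ : ∃ z, z = u * x * u⁻¹ * x⁻¹ := ⟨_, rfl⟩
    rw [← hz] at hx
    have hzfix : ∀ y : A, φ y z⁻¹ = z⁻¹ := by
      intro y
      rw [map_inv, hz, hQ']
    have hzc : ∀ w : Q, z⁻¹ * w = w * z⁻¹ := hC z⁻¹ hzfix
    have hzK : θ.1 z⁻¹ ≠ θ.1 1 := by
      intro h1
      apply hx
      have h2 := K.inv_mem ((hKmem _).mpr h1)
      rwa [inv_inv] at h2
    have hconj : x * u * x⁻¹ = z⁻¹ * u := by
      rw [hz]; group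
    have h2 : θ.1 (z⁻¹ * u) = θ.1 u := by
      rw [← hconj]; exact irr_conj θ u x
    exact ti_irr_eq_zero θ u z⁻¹ hzc h2 hzK
  have hcard1 : Nat.card Q ≤ Nat.card Y * charDegree θ.1 ^ 2 := ti_card_le_of_vanish θ Y hvan
  obtain ⟨f, hf⟩ : ∃ f : ↥(tiStab φ θ.1) →* Equiv.Perm Q,
      ∀ (t : tiStab φ θ.1) (u : Q), f t u = φ (t : A) u :=
    ⟨(MulAut.toPerm Q).comp (φ.comp (tiStab φ θ.1).subtype), fun _ _ => rfl⟩
  have hdvd : Nat.card (tiStab φ θ.1) ∣ Nat.card Q - Nat.card Y := by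
    apply ti_card_dvd_of_free f Y
    · intro t u hu
      rw [hf]; exact hYT t t.2 u hu
    · intro t u hu htu
      rw [hf] at htu
      by_contra ht1
      have ht1' : (t : A) ≠ 1 := fun h' => ht1 (Subtype.ext h')
      exact hu (hCY u (hH t ht1' u htu))
  obtain ⟨k, hk⟩ := Subgroup.card_subgroup_dvd_card Y
  have hYpos : 0 < Nat.card Y := Nat.card_pos
  have hQpos : 0 < Nat.card Q := Nat.card_pos
  have hk2 : 2 ≤ k := by
    by_contra hcon
    push Not at hcon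
    have hk1 : k = 1 := by
      rcases Nat.lt_or_ge k 1 with h0 | h1
      · have h00 : k = 0 := by omega
        rw [h00, mul_zero] at hk
        omega
      · omega
    rw [hk1, mul_one] at hk
    apply hgY
    rw [Subgroup.eq_top_of_card_eq Y hk.symm]
    exact Subgroup.mem_top g
  obtain ⟨a, ha⟩ := IsPGroup.iff_card.mp (hA.to_subgroup (tiStab φ θ.1))
  have hpY : ¬ p ∣ Nat.card Y := fun h' => hQ (h'.trans (Subgroup.card_subgroup_dvd_card Y))
  have hcop : (Nat.card (tiStab φ θ.1)).Coprime (Nat.card Y) := by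
    rw [ha]
    exact Nat.Coprime.pow_left a ((Nat.Prime.coprime_iff_not_dvd hp.out).mpr hpY)
  have hsub : Nat.card Q - Nat.card Y = Nat.card Y * (k - 1) := by
    rw [hk, Nat.mul_sub_one]
  rw [hsub] at hdvd
  have hdvd2 : Nat.card (tiStab φ θ.1) ∣ k - 1 := hcop.dvd_of_dvd_mul_left hdvd
  have hle : Nat.card (tiStab φ θ.1) ≤ k - 1 := Nat.le_of_dvd (by omega) hdvd2
  have hk3 : k ≤ charDegree θ.1 ^ 2 := by
    rw [hk] at hcard1
    exact Nat.le_of_mul_le_mul_left hcard1 hYpos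
  obtain ⟨D, hD⟩ : ∃ D, D = charDegree θ.1 ^ 2 := ⟨_, rfl⟩
  rw [← hD] at hd hk3
  omega

/-- The abelian case: a multiplicative function fixed by a nonidentity element is fixed by the
whole group. -/
theorem ti_lin_key {Q : Type u} {A : Type v} [cg : CommGroup Q] [Finite Q] [Group A] [Finite A]
    (hcop : (Nat.card A).Coprime (Nat.card Q)) (φ : A →* MulAut Q)
    (hH : ∀ x : A, x ≠ 1 → ∀ c : Q, φ x c = c → ∀ y : A, φ y c = c)
    (lam : Q → ℂ) (h1 : lam 1 = 1) (hmul : ∀ u v, lam (u * v) = lam u * lam v)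
    (x : A) (hx1 : x ≠ 1) (hx : x ∈ tiStab φ lam) (y : A) (u : Q) : lam (φ y u) = lam u := by
  haveI := Fintype.ofFinite A
  haveI : Fintype (tiStab φ lam) := Fintype.ofFinite _
  obtain ⟨lamh, hlamh⟩ : ∃ lamh : Q →* ℂ, ∀ v, lamh v = lam v :=
    ⟨⟨⟨lam, h1⟩, hmul⟩, fun _ => rfl⟩
  obtain ⟨Lam, hLam⟩ : ∃ Lam : Q →* ℂ, ∀ v, Lam v = ∏ a : A, lam (φ a v) :=
    ⟨{ toFun := fun v => ∏ a : A, lam (φ a v)
       map_one' := by
         apply Finset.prod_eq_one
         intro a _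
         rw [map_one, h1]
       map_mul' := by
         intro v w
         rw [← Finset.prod_mul_distrib]
         apply Finset.prod_congr rfl
         intro a _
         rw [map_mul, hmul] }, fun _ => rfl⟩
  have hLinv : ∀ (b : A) (v : Q), Lam (φ b v) = Lam v := by
    intro b v
    rw [hLam, hLam]
    have h2 := Equiv.prod_comp (Equiv.mulRight b) (fun a : A => lam (φ a v))
    rw [← h2]
    apply Finset.prod_congr rfl
    intro a _
    show lam (φ a (φ b v)) = lam (φ (a * b) v)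
    rw [map_mul, MulAut.mul_apply]
  obtain ⟨e₀, he₀⟩ : ∃ e₀ : Q, e₀ = φ y u * u⁻¹ := ⟨_, rfl⟩
  have hLe : Lam e₀ = 1 := by
    rw [he₀, map_mul, hLinv, ← map_mul, mul_inv_cancel, map_one]
  obtain ⟨ν, hν⟩ : ∃ ν : Q, ν = ∏ t : tiStab φ lam, φ (t : A) e₀ := ⟨_, rfl⟩
  have hxν : φ x ν = ν := by
    rw [hν, map_prod]
    have h2 := Equiv.prod_comp (Equiv.mulLeft (⟨x, hx⟩ : tiStab φ lam))
      (fun t : tiStab φ lam => φ (t : A) e₀)
    rw [← h2]
    apply Finset.prod_congr rfl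
    intro t _
    show φ x (φ (t : A) e₀) = φ ((⟨x, hx⟩ * t : tiStab φ lam) : A) e₀
    rw [Subgroup.coe_mul, map_mul, MulAut.mul_apply]
  have hνfix : ∀ a : A, φ a ν = ν := hH x hx1 ν hxν
  have hLν1 : Lam ν = 1 := by
    rw [hν, map_prod]
    apply Finset.prod_eq_one
    intro t _
    rw [hLinv, hLe]
  have hLν2 : Lam ν = lam ν ^ Nat.card A := by
    rw [hLam]
    have h2 : ∀ a ∈ (Finset.univ : Finset A), lam (φ a ν) = lam ν :=
      fun a _ => by rw [hνfix a]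
    rw [Finset.prod_congr rfl h2, Finset.prod_const, Finset.card_univ, Nat.card_eq_fintype_card]
  have hlamν : lam ν = lam e₀ ^ Nat.card (tiStab φ lam) := by
    have h2 : ∀ t ∈ (Finset.univ : Finset (tiStab φ lam)), lamh (φ (t : A) e₀) = lam e₀ :=
      fun t _ => by rw [hlamh]; exact (mem_tiStab φ lam t).mp t.2 e₀
    rw [← hlamh ν, hν, map_prod, Finset.prod_congr rfl h2, Finset.prod_const, Finset.card_univ,
      Nat.card_eq_fintype_card]
  have hp1 : lam e₀ ^ (Nat.card (tiStab φ lam) * Nat.card A) = 1 := by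
    rw [pow_mul, ← hlamν, ← hLν2, hLν1]
  have hp2 : lam e₀ ^ Nat.card Q = 1 := by
    rw [← hlamh, ← map_pow, pow_card_eq_one', map_one]
  have hcop2 : (Nat.card (tiStab φ lam) * Nat.card A).Coprime (Nat.card Q) :=
    Nat.Coprime.mul_left
      (Nat.Coprime.coprime_dvd_left (Subgroup.card_subgroup_dvd_card _) hcop) hcop
  have hle : lam e₀ = 1 := (pow_eq_one_iff_of_coprime hcop2).mp ⟨hp1, hp2⟩
  rw [he₀, hmul] at hle
  have h3 : lam u * lam u⁻¹ = 1 := by rw [← hmul, mul_inv_cancel, h1]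
  have h4 : lam u⁻¹ ≠ 0 := by
    intro h0
    rw [h0, mul_zero] at h3
    exact zero_ne_one h3
  exact mul_right_cancel₀ h4 (hle.trans h3.symm)

theorem ti_lin_key' {Q : Type u} {A : Type v} [Group Q] [Finite Q] [Group A] [Finite A]
    (hab : ∀ a b : Q, a * b = b * a)
    (hcop : (Nat.card A).Coprime (Nat.card Q)) (φ : A →* MulAut Q)
    (hH : ∀ x : A, x ≠ 1 → ∀ c : Q, φ x c = c → ∀ y : A, φ y c = c)
    (lam : Q → ℂ) (h1 : lam 1 = 1) (hmul : ∀ u v, lam (u * v) = lam u * lam v)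
    (x : A) (hx1 : x ≠ 1) (hx : x ∈ tiStab φ lam) (y : A) (u : Q) : lam (φ y u) = lam u :=
  ti_lin_key (cg := { (inferInstance : Group Q) with mul_comm := hab }) hcop φ hH lam h1 hmul
    x hx1 hx y u

/-- **Character part.**  A `p`-group `A` acting on a `p'`-group `Q` with a faithful invariant
character `ψ` of degree at most `√|A|`, such that every nonidentity element of `A` has the same
fixed points as `A`, these are central in `Q` and contain all commutators: the action is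
trivial. -/
theorem ti_char_part {Q : Type u} {A : Type v} [Group Q] [Finite Q] [Group A] [Finite A]
    (p : ℕ) [hp : Fact p.Prime] (hA : IsPGroup p A) (hQ : ¬ p ∣ Nat.card Q) (φ : A →* MulAut Q)
    (ψ : Q → ℂ) (hψ : IsCharacter Q ψ) (hinv : ∀ a u, ψ (φ a u) = ψ u)
    (hfaith : ∀ u, ψ u = ψ 1 → u = 1) (hdeg : charDegree ψ ^ 2 ≤ Nat.card A)
    (hH : ∀ x : A, x ≠ 1 → ∀ c : Q, φ x c = c → ∀ y : A, φ y c = c)
    (hC : ∀ c : Q, (∀ y : A, φ y c = c) → ∀ u : Q, c * u = u * c)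
    (hQ' : ∀ (u v : Q) (y : A), φ y (u * v * u⁻¹ * v⁻¹) = u * v * u⁻¹ * v⁻¹) :
    ∀ (y : A) (u : Q), φ y u = u := by
  haveI := Fintype.ofFinite Q
  have hkey : ∀ u : Q, (∀ θ : IrrCharacter Q, classInner ψ θ.1 ≠ 0 → θ.1 u = θ.1 1) →
      u = 1 := by
    intro u hu
    apply hfaith
    have hdec := classFunction_eq_sum_irr ψ (isCharacter_isClassFunction hψ)
    rw [congrFun hdec u, congrFun hdec 1]
    simp only [Finset.sum_apply, Pi.smul_apply, smul_eq_mul]
    apply Finset.sum_congr rfl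
    intro θ _
    by_cases h0 : classInner ψ θ.1 = 0
    · rw [h0, zero_mul, zero_mul]
    · rw [hu θ h0]
  by_cases hA1 : Nat.card A = 1
  · intro y u
    have hy : y = 1 := by
      haveI := (Nat.card_eq_one_iff_unique.mp hA1).1
      exact Subsingleton.elim _ _
    rw [hy, map_one]
    rfl
  have hbound := fun (θ : IrrCharacter Q) (hθ : classInner ψ θ.1 ≠ 0) =>
    ti_orbit_bound φ ψ hψ hinv hdeg θ hθ
  have hab : ∀ a b : Q, a * b = b * a := by
    intro a b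
    have h1 : a * b * a⁻¹ * b⁻¹ = 1 := by
      apply hkey
      intro θ hθ
      exact ti_center_case p hA hQ φ hH hC hQ' θ (hbound θ hθ).1 a b
    calc a * b = (a * b * a⁻¹ * b⁻¹) * (b * a) := by group
      _ = b * a := by rw [h1, one_mul]
  obtain ⟨k, hk⟩ := IsPGroup.iff_card.mp hA
  have hcop : (Nat.card A).Coprime (Nat.card Q) := by
    rw [hk]
    exact Nat.Coprime.pow_left k ((Nat.Prime.coprime_iff_not_dvd hp.out).mpr hQ)
  intro y u
  have h2 : φ y u * u⁻¹ = 1 := by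
    apply hkey
    intro θ hθ
    have hθ1 : θ.1 1 = 1 := irr_one_of_comm hab θ
    have hmul := irr_linear_mul θ hθ1
    have hT1 : Nat.card (tiStab φ θ.1) ≠ 1 := fun h => hA1 ((hbound θ hθ).2 h)
    obtain ⟨x, hxT, hx1⟩ : ∃ x ∈ tiStab φ θ.1, x ≠ 1 := by
      by_contra hcon
      push Not at hcon
      apply hT1
      have hbot : tiStab φ θ.1 = ⊥ := by
        rw [eq_bot_iff]
        intro x hx
        rw [Subgroup.mem_bot]
        exact hcon x hx
      rw [hbot, Subgroup.card_bot]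
    have hlin := ti_lin_key' hab hcop φ hH θ.1 hθ1 hmul x hx1 hxT y u
    rw [hmul, hlin, ← hmul, mul_inv_cancel]
  exact mul_inv_eq_one.mp h2

end Cfsg.Agent.Helper24
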