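import Cfsg.Agent.Helper24.TISyl2

/-!
# TI Sylow subgroups and faithful characters of small degree: the group theory

* `ti_core`: a `p`-subgroup `P` normalizing a `p'`-subgroup `Q` such that every nonidentity
  element of `P` has the same centralizer in `Q` as `P`, in a group with a faithful character
  of degree at most `√|P|`, centralizes `Q`.
* `ti_sylow_normal`: a `p`-solvable group with a TI Sylow `p`-subgroup `P` and a faithful
  character of degree at most `√|P|` has `P` normal.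
-/

set_option autoImplicit false

namespace Cfsg.Agent.Helper24

open Cfsg Cfsg.Agent.Helper22
open scoped Classical
open scoped commutatorElement
open scoped Pointwise

universe u

variable {G : Type u} [Group G]

/-- Conjugation action of a subgroup `P` on a subgroup `Q` it normalizes. -/
noncomputable def tiConj (P Q : Subgroup G) (h : ∀ y ∈ P, ∀ u ∈ Q, y * u * y⁻¹ ∈ Q) :
    ↥P →* MulAut ↥Q where
  toFun y :=
    { toFun := fun u => ⟨(y : G) * u * (y : G)⁻¹, h y y.2 u u.2⟩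
      invFun := fun u => ⟨(y : G)⁻¹ * u * (y : G), by
        have h1 := h (y : G)⁻¹ (P.inv_mem y.2) u u.2
        rwa [inv_inv] at h1⟩
      left_inv := fun u => Subtype.ext (by
        show (y : G)⁻¹ * ((y : G) * u * (y : G)⁻¹) * (y : G) = u
        group)
      right_inv := fun u => Subtype.ext (by
        show (y : G) * ((y : G)⁻¹ * u * (y : G)) * (y : G)⁻¹ = u
        group)
      map_mul' := fun a b => Subtype.ext (by
        show (y : G) * ((a : G) * (b : G)) * (y : G)⁻¹ =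
          ((y : G) * a * (y : G)⁻¹) * ((y : G) * b * (y : G)⁻¹)
        group) }
  map_one' := by
    apply MulEquiv.ext
    intro u
    apply Subtype.ext
    show ((1 : P) : G) * u * ((1 : P) : G)⁻¹ = u
    rw [Subgroup.coe_one]
    group
  map_mul' := fun a b => by
    apply MulEquiv.ext
    intro u
    apply Subtype.ext
    show ((a * b : P) : G) * u * ((a * b : P) : G)⁻¹ =
      (a : G) * ((b : G) * u * (b : G)⁻¹) * (a : G)⁻¹
    rw [Subgroup.coe_mul]
    group

theorem tiConj_apply (P Q : Subgroup G) (h : ∀ y ∈ P, ∀ u ∈ Q, y * u * y⁻¹ ∈ Q) (y : P) (u : Q) :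
    ((tiConj P Q h y u : Q) : G) = (y : G) * u * (y : G)⁻¹ := rfl

/-- If `y` commutes with the commutator `[y, u]` and the orders are coprime, `[y, u] = 1`. -/
theorem ti_comm_eq_one (y u : G) (m n : ℕ) (hmn : m.Coprime n) (hy : y ^ m = 1)
    (he : (y * u * y⁻¹ * u⁻¹) ^ n = 1)
    (hc : y * (y * u * y⁻¹ * u⁻¹) = (y * u * y⁻¹ * u⁻¹) * y) :
    y * u * y⁻¹ * u⁻¹ = 1 := by
  obtain ⟨e, he0⟩ : ∃ e, e = y * u * y⁻¹ * u⁻¹ := ⟨_, rfl⟩
  rw [← he0] at he hc ⊢
  have h1 : y * u * y⁻¹ = e * u := by rw [he0]; group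
  have hk : ∀ k : ℕ, y ^ k * u * (y ^ k)⁻¹ = e ^ k * u := by
    intro k
    induction k with
    | zero => simp
    | succ k ih =>
      have hcomm : Commute y (e ^ k) := (show Commute y e from hc).pow_right k
      calc y ^ (k + 1) * u * (y ^ (k + 1))⁻¹ = y * (y ^ k * u * (y ^ k)⁻¹) * y⁻¹ := by
            rw [pow_succ']; group
        _ = y * (e ^ k * u) * y⁻¹ := by rw [ih]
        _ = (y * e ^ k) * u * y⁻¹ := by group
        _ = (e ^ k * y) * u * y⁻¹ := by rw [hcomm.eq]
        _ = e ^ k * (y * u * y⁻¹) := by group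
        _ = e ^ k * (e * u) := by rw [h1]
        _ = e ^ (k + 1) * u := by rw [pow_succ, mul_assoc]
  have h2 := hk m
  rw [hy] at h2
  have h3 : e ^ m = 1 := by
    have h4 : e ^ m * u = 1 * u := by
      rw [one_mul, ← h2]; group
    exact mul_right_cancel h4
  exact (pow_eq_one_iff_of_coprime hmn).mp ⟨h3, he⟩

/-- A `p`-group normalizing a `p'`-subgroup `Q` normalizes a Sylow `q`-subgroup of `Q`. -/
theorem ti_exists_invariant_sylow [Finite G] (p q : ℕ) [hp : Fact p.Prime] [hq : Fact q.Prime]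
    (P Q : Subgroup G) (hP : IsPGroup p P) (hQ : ¬ p ∣ Nat.card Q)
    (hnorm : ∀ y ∈ P, ∀ u ∈ Q, y * u * y⁻¹ ∈ Q) :
    ∃ S : Subgroup G, S ≤ Q ∧ IsPGroup q S ∧ Nat.card S = q ^ (Nat.card Q).factorization q ∧
      ∀ y ∈ P, ∀ g ∈ S, y * g * y⁻¹ ∈ S := by
  letI : MulAction ↥P (Sylow q ↥Q) := MulAction.compHom _ (tiConj P Q hnorm)
  have hcard : ¬ p ∣ Nat.card (Sylow q ↥Q) := by
    intro h2
    obtain ⟨S₀⟩ : Nonempty (Sylow q ↥Q) := inferInstance
    have h3 : Nat.card (Sylow q ↥Q) ∣ Nat.card ↥Q :=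
      (Sylow.card_dvd_index S₀).trans (Subgroup.index_dvd_card _)
    exact hQ (h2.trans h3)
  obtain ⟨S, hS⟩ := hP.nonempty_fixed_point_of_prime_not_dvd_card (Sylow q ↥Q) hcard
  rw [MulAction.mem_fixedPoints] at hS
  refine ⟨(S : Subgroup ↥Q).map Q.subtype, ?_, ?_, ?_, ?_⟩
  · rintro g ⟨m, -, rfl⟩
    exact m.2
  · exact S.isPGroup'.map _
  · rw [← Sylow.card_eq_multiplicity S]
    exact Nat.card_congr
      ((S : Subgroup ↥Q).equivMapOfInjective Q.subtype Q.subtype_injective).toEquiv.symm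
  · rintro y hy g ⟨m, hm, rfl⟩
    refine ⟨tiConj P Q hnorm ⟨y, hy⟩ m, ?_, rfl⟩
    have h1 : tiConj P Q hnorm ⟨y, hy⟩ • m ∈ tiConj P Q hnorm ⟨y, hy⟩ • (S : Subgroup ↥Q) :=
      Subgroup.smul_mem_pointwise_smul m _ _ hm
    have h2 : (tiConj P Q hnorm ⟨y, hy⟩ • S : Sylow q ↥Q) = S := hS ⟨y, hy⟩
    rw [← Sylow.pointwise_smul_def, h2] at h1
    exact h1

/-- An element centralizing a Sylow `q`-subgroup of `Q` for every prime `q` centralizes `Q`. -/
theorem ti_cent_of_sylows [Finite G] (Q : Subgroup G) (y : G)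
    (h : ∀ q : ℕ, q.Prime → ∃ S : Subgroup G, S ≤ Q ∧
      Nat.card S = q ^ (Nat.card Q).factorization q ∧ ∀ g ∈ S, y * g = g * y) :
    ∀ u ∈ Q, y * u = u * y := by
  obtain ⟨C, hC⟩ : ∃ C : Subgroup G, C = Q ⊓ Subgroup.centralizer {y} := ⟨_, rfl⟩
  have hCQ : C ≤ Q := by rw [hC]; exact inf_le_left
  have hdvd : Nat.card Q ∣ Nat.card C := by
    rw [← Nat.factorization_le_iff_dvd Nat.card_pos.ne' Nat.card_pos.ne']
    intro q
    by_cases hq : q.Prime
    · obtain ⟨S, hSQ, hScard, hSy⟩ := h q hq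
      have hSC : S ≤ C := by
        rw [hC]
        intro g hg
        refine ⟨hSQ hg, Subgroup.mem_centralizer_iff.mpr ?_⟩
        intro z hz
        rw [Set.mem_singleton_iff] at hz
        rw [hz]
        exact hSy g hg
      have h1 := Subgroup.card_dvd_of_le hSC
      rw [hScard] at h1
      exact (hq.pow_dvd_iff_le_factorization Nat.card_pos.ne').mp h1
    · rw [Nat.factorization_eq_zero_of_not_prime _ hq]
      exact Nat.zero_le _
  have hle : Nat.card Q ≤ Nat.card C := Nat.le_of_dvd Nat.card_pos hdvd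
  have hCeq : C = Q := Subgroup.eq_of_le_of_card_ge hCQ hle
  intro u hu
  rw [← hCeq, hC] at hu
  exact (Subgroup.mem_centralizer_iff.mp hu.2) y (Set.mem_singleton y)

/-- **Core.** -/
theorem ti_core [Finite G] (p : ℕ) [hp : Fact p.Prime] (χ : G → ℂ) (hχ : IsCharacter G χ)
    (hfaith : ∀ g : G, χ g = χ 1 → g = 1) (P : Subgroup G) (hP : IsPGroup p P)
    (hdeg : charDegree χ ^ 2 ≤ Nat.card P) :
    ∀ (n : ℕ) (Q : Subgroup G), Nat.card Q ≤ n → ¬ p ∣ Nat.card Q →
      (∀ y ∈ P, ∀ u ∈ Q, y * u * y⁻¹ ∈ Q) →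
      (∀ x ∈ P, x ≠ 1 → ∀ c ∈ Q, x * c = c * x → ∀ y ∈ P, y * c = c * y) →
      ∀ y ∈ P, ∀ u ∈ Q, y * u = u * y := by
  intro n
  induction n with
  | zero =>
    intro Q hn
    have hpos : 0 < Nat.card Q := Nat.card_pos
    omega
  | succ n ih =>
    intro Q hn hpQ hnorm hH
    by_contra hcon
    push Not at hcon
    obtain ⟨y₀, hy₀, u₀, hu₀, hne⟩ := hcon
    have hB1 : ∀ Q₁ : Subgroup G, Q₁ ≤ Q → Q₁ ≠ Q → (∀ y ∈ P, ∀ u ∈ Q₁, y * u * y⁻¹ ∈ Q₁) →
        ∀ y ∈ P, ∀ u ∈ Q₁, y * u = u * y := by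
      intro Q₁ hle hne1 hn1
      have hlt : Nat.card Q₁ < Nat.card Q := by
        by_contra h
        push Not at h
        exact hne1 (Subgroup.eq_of_le_of_card_ge hle h)
      exact ih Q₁ (by omega) (fun h => hpQ (h.trans (Subgroup.card_dvd_of_le hle))) hn1
        (fun x hx hx1 c hc hxc y hy => hH x hx hx1 c (hle hc) hxc y hy)
    obtain ⟨a, ha⟩ := IsPGroup.iff_card.mp hP
    have hcop : (Nat.card P).Coprime (Nat.card Q) := by
      rw [ha]
      exact Nat.Coprime.pow_left a ((Nat.Prime.coprime_iff_not_dvd hp.out).mpr hpQ)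
    have hPpow : ∀ y ∈ P, y ^ Nat.card P = 1 := by
      intro y hy
      have h1 : ((⟨y, hy⟩ ^ Nat.card P : P) : G) = 1 := by rw [pow_card_eq_one']; rfl
      exact h1
    have hQpow : ∀ u ∈ Q, u ^ Nat.card Q = 1 := by
      intro u hu
      have h1 : ((⟨u, hu⟩ ^ Nat.card Q : Q) : G) = 1 := by rw [pow_card_eq_one']; rfl
      exact h1
    -- Step 1: `Q` is a `q`-group
    obtain ⟨q, hq, hQq⟩ : ∃ (q : ℕ) (_ : Fact q.Prime), IsPGroup q Q := by
      by_contra hno
      apply hne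
      apply ti_cent_of_sylows Q y₀ _ u₀ hu₀
      intro q hq
      haveI : Fact q.Prime := ⟨hq⟩
      obtain ⟨S, hSQ, hSq, hScard, hSinv⟩ := ti_exists_invariant_sylow p q P Q hP hpQ hnorm
      have hSne : S ≠ Q := by
        rintro rfl
        exact hno ⟨q, ⟨hq⟩, hSq⟩
      exact ⟨S, hSQ, hScard, fun g hg => hB1 S hSQ hSne hSinv y₀ hy₀ g hg⟩
    haveI := hq
    -- Step 2: the commutators `[y, u]` generate `Q`
    obtain ⟨E, hE⟩ : ∃ E : Subgroup G, E = Subgroup.closure
        {e : G | ∃ y ∈ P, ∃ u ∈ Q, e = y * u * y⁻¹ * u⁻¹} := ⟨_, rfl⟩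
    have hEQ : E ≤ Q := by
      rw [hE, Subgroup.closure_le]
      rintro e ⟨y, hy, u, hu, rfl⟩
      exact Q.mul_mem (hnorm y hy u hu) (Q.inv_mem hu)
    have hEinv : ∀ t ∈ P, ∀ e ∈ E, t * e * t⁻¹ ∈ E := by
      intro t ht e he
      have hmap : E.map (MulAut.conj t).toMonoidHom ≤ E := by
        rw [hE, MonoidHom.map_closure, Subgroup.closure_le]
        rintro _ ⟨e, ⟨y, hy, u, hu, rfl⟩, rfl⟩
        apply Subgroup.subset_closure
        refine ⟨t * y * t⁻¹, P.mul_mem (P.mul_mem ht hy) (P.inv_mem ht), t * u * t⁻¹,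
          hnorm t ht u hu, ?_⟩
        show t * (y * u * y⁻¹ * u⁻¹) * t⁻¹ = _
        group
      exact hmap ⟨e, he, rfl⟩
    have hEtop : E = Q := by
      by_contra hEne
      have hcentE := hB1 E hEQ hEne hEinv
      apply hne
      have hmem : y₀ * u₀ * y₀⁻¹ * u₀⁻¹ ∈ E := by
        rw [hE]
        exact Subgroup.subset_closure ⟨y₀, hy₀, u₀, hu₀, rfl⟩
      have h1 : y₀ * u₀ * y₀⁻¹ * u₀⁻¹ = 1 :=
        ti_comm_eq_one y₀ u₀ _ _ hcop (hPpow y₀ hy₀) (hQpow _ (hEQ hmem))
          (hcentE y₀ hy₀ _ hmem)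
      calc y₀ * u₀ = (y₀ * u₀ * y₀⁻¹ * u₀⁻¹) * (u₀ * y₀) := by group
        _ = u₀ * y₀ := by rw [h1, one_mul]
    -- Step 3: elements all of whose `Q`-conjugates are centralized by `P` are central in `Q`
    have hB4 : ∀ w ∈ Q, (∀ u ∈ Q, ∀ y ∈ P, y * (u⁻¹ * w * u) = (u⁻¹ * w * u) * y) →
        ∀ v ∈ Q, v * w = w * v := by
      intro w hw hwc v hv
      have hle : E ≤ Subgroup.centralizer {w} := by
        rw [hE, Subgroup.closure_le]
        rintro e ⟨y, hy, u, hu, rfl⟩
        rw [SetLike.mem_coe, Subgroup.mem_centralizer_iff]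
        intro z hz
        rw [Set.mem_singleton_iff] at hz
        rw [hz]
        have h1 := hwc u hu y hy
        have h2 := hwc 1 Q.one_mem y hy
        simp only [inv_one, one_mul, mul_one] at h2
        have h3 : y⁻¹ * (u⁻¹ * w * u) = (u⁻¹ * w * u) * y⁻¹ :=
          ((show Commute y (u⁻¹ * w * u) from h1).inv_left).eq
        symm
        calc y * u * y⁻¹ * u⁻¹ * w = y * u * (y⁻¹ * (u⁻¹ * w * u)) * u⁻¹ := by group
          _ = y * u * ((u⁻¹ * w * u) * y⁻¹) * u⁻¹ := by rw [h3]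
          _ = (y * w) * u * y⁻¹ * u⁻¹ := by group
          _ = (w * y) * u * y⁻¹ * u⁻¹ := by rw [h2]
          _ = w * (y * u * y⁻¹ * u⁻¹) := by group
      rw [← hEtop] at hv
      exact ((Subgroup.mem_centralizer_iff.mp (hle hv)) w (Set.mem_singleton w)).symm
    -- Step 4: the derived subgroup
    have hQ0 : Q ≠ ⊥ := by
      rintro rfl
      rw [Subgroup.mem_bot] at hu₀
      apply hne
      rw [hu₀, mul_one, one_mul]
    have hDlt : (⁅Q, Q⁆ : Subgroup G) ≠ Q := by
      intro h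
      haveI : Nontrivial Q := (Subgroup.nontrivial_iff_ne_bot Q).2 hQ0
      haveI : Group.IsNilpotent Q := hQq.isNilpotent
      have h2 : commutator Q < ⊤ := Group.IsSolvable.commutator_lt_top_of_nontrivial Q
      apply h2.ne
      apply Subgroup.map_injective Q.subtype_injective
      rw [commutator_def, Subgroup.map_commutator, ← MonoidHom.range_eq_map,
        Subgroup.range_subtype, h]
    have hDQ : (⁅Q, Q⁆ : Subgroup G) ≤ Q := by
      rw [Subgroup.commutator_le]
      intro g₁ h₁ g₂ h₂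
      rw [commutatorElement_def]
      exact Q.mul_mem (Q.mul_mem (Q.mul_mem h₁ h₂) (Q.inv_mem h₁)) (Q.inv_mem h₂)
    have hDinv : ∀ y ∈ P, ∀ d ∈ (⁅Q, Q⁆ : Subgroup G), y * d * y⁻¹ ∈ (⁅Q, Q⁆ : Subgroup G) := by
      intro y hy d hd
      have hmap : Q.map (MulAut.conj y).toMonoidHom ≤ Q := by
        rintro _ ⟨u, hu, rfl⟩
        exact hnorm y hy u hu
      have h1 : (MulAut.conj y).toMonoidHom d ∈
          (⁅Q, Q⁆ : Subgroup G).map (MulAut.conj y).toMonoidHom :=
        Subgroup.mem_map_of_mem _ hd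
      rw [Subgroup.map_commutator] at h1
      exact Subgroup.commutator_mono hmap hmap h1
    have hDc := hB1 _ hDQ hDlt hDinv
    -- Step 5: `C_Q(P)` is central in `Q`
    have hCc : ∀ c ∈ Q, (∀ y ∈ P, y * c = c * y) → ∀ v ∈ Q, v * c = c * v := by
      intro c hc hcP
      apply hB4 c hc
      intro u hu y hy
      have hd : u⁻¹ * c * u * c⁻¹ ∈ (⁅Q, Q⁆ : Subgroup G) := by
        have h0 := Subgroup.commutator_mem_commutator (Q.inv_mem hu) hc
        rwa [commutatorElement_def, inv_inv] at h0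
      have h1 := hDc y hy _ hd
      have h2 := hcP y hy
      calc y * (u⁻¹ * c * u) = y * (u⁻¹ * c * u * c⁻¹) * c := by group
        _ = (u⁻¹ * c * u * c⁻¹) * y * c := by rw [h1]
        _ = (u⁻¹ * c * u * c⁻¹) * (y * c) := by group
        _ = (u⁻¹ * c * u * c⁻¹) * (c * y) := by rw [h2]
        _ = (u⁻¹ * c * u) * y := by group
    -- Step 6: the character part
    obtain ⟨φ, hφ⟩ : ∃ φ : ↥P →* MulAut ↥Q,
        ∀ (y : P) (u : Q), ((φ y u : Q) : G) = (y : G) * u * (y : G)⁻¹ :=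
      ⟨tiConj P Q hnorm, fun _ _ => rfl⟩
    have hfinal := ti_char_part p hP hpQ φ (fun u : Q => χ u) (isCharacter_restrict Q hχ)
      (fun a u => by
        show χ ((φ a u : Q) : G) = χ u
        rw [hφ]
        exact isCharacter_conj hχ u a)
      (fun u hu => Subtype.ext (hfaith u hu))
      hdeg
      (fun x hx1 c hxc y => by
        apply Subtype.ext
        rw [hφ]
        have h0 := congrArg Subtype.val hxc
        rw [hφ] at h0
        have h1 : (x : G) * c = c * x := by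
          calc (x : G) * c = ((x : G) * c * (x : G)⁻¹) * x := by group
            _ = c * x := by rw [h0]
        have h2 := hH x x.2 (fun h => hx1 (Subtype.ext h)) c c.2 h1 y y.2
        rw [h2]
        group)
      (fun c hc u => by
        apply Subtype.ext
        have h1 : ∀ y ∈ P, y * (c : G) = c * y := by
          intro y hy
          have h0 := congrArg Subtype.val (hc ⟨y, hy⟩)
          rw [hφ] at h0
          calc y * (c : G) = (y * c * y⁻¹) * y := by group
            _ = c * y := by rw [h0]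
        exact (hCc c c.2 h1 u u.2).symm)
      (fun u v y => by
        apply Subtype.ext
        rw [hφ]
        have hd : ((u * v * u⁻¹ * v⁻¹ : Q) : G) ∈ (⁅Q, Q⁆ : Subgroup G) := by
          have h0 := Subgroup.commutator_mem_commutator u.2 v.2
          rwa [commutatorElement_def] at h0
        have h1 := hDc y y.2 _ hd
        rw [h1]
        group)
    apply hne
    have h1 := congrArg Subtype.val (hfinal ⟨y₀, hy₀⟩ ⟨u₀, hu₀⟩)
    rw [hφ] at h1
    calc y₀ * u₀ = (y₀ * u₀ * y₀⁻¹) * y₀ := by group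
      _ = u₀ * y₀ := by rw [h1]

end Cfsg.Agent.Helper24
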