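import Cfsg.Agent.Helper24.TISyl3

/-!
# TI Sylow subgroups and faithful characters of small degree: the theorem

`ti_sylow_normal`: a `p`-solvable group with a TI Sylow `p`-subgroup `P` and a faithful
character of degree at most `√|P|` has `P` normal.
-/

set_option autoImplicit false

namespace Cfsg.Agent.Helper24

open Cfsg Cfsg.Agent.Helper22
open scoped Classical
open scoped Pointwise

universe u

variable {G : Type u} [Group G]

/-- A Sylow `p`-subgroup with a trivial intersection with one of its conjugates cannot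
centralize a normal `p'`-subgroup `K` below a normal subgroup `M` with `M/K` a nontrivial
`p`-group. -/
theorem ti_not_cent [Finite G] (p : ℕ) [hp : Fact p.Prime] (P : Sylow p G) (K M : Subgroup G)
    [hKn : K.Normal] [hMn : M.Normal] (hKp : ¬ p ∣ Nat.card K) (hKM : K ≤ M) (m : ℕ)
    (hm0 : m ≠ 0) (hidx : K.relIndex M = p ^ m) (g₀ : G)
    (hg₀ : (P : Subgroup G) ⊓ (MulAut.conj g₀ • (P : Subgroup G)) = ⊥)
    (hcent : ∀ y ∈ (P : Subgroup G), ∀ k ∈ K, y * k = k * y) : False := by
  have hcardM : Nat.card M = Nat.card K * p ^ m := by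
    rw [← hidx, ← Subgroup.relIndex_bot_left, ← Subgroup.relIndex_bot_left (H := K),
      Subgroup.relIndex_mul_relIndex _ _ _ bot_le hKM]
  obtain ⟨S₁⟩ : Nonempty (Sylow p ↥M) := inferInstance
  obtain ⟨S, hS⟩ : ∃ S : Subgroup G, S = (S₁ : Subgroup ↥M).map M.subtype := ⟨_, rfl⟩
  have hSM : S ≤ M := by
    rw [hS]
    rintro g ⟨x, -, rfl⟩
    exact x.2
  have hSp : IsPGroup p S := by
    rw [hS]
    exact S₁.isPGroup'.map _
  have hfac : (Nat.card M).factorization p = m := by
    rw [hcardM, Nat.factorization_mul Nat.card_pos.ne' (pow_ne_zero _ hp.out.ne_zero),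
      Finsupp.add_apply, Nat.factorization_eq_zero_of_not_dvd hKp, zero_add,
      Nat.Prime.factorization_pow hp.out, Finsupp.single_eq_same]
  have hScard : Nat.card S = p ^ m := by
    rw [← hfac, ← Sylow.card_eq_multiplicity S₁, hS]
    exact Nat.card_congr
      ((S₁ : Subgroup ↥M).equivMapOfInjective M.subtype M.subtype_injective).toEquiv.symm
  obtain ⟨R, hR⟩ := hSp.exists_le_sylow
  obtain ⟨g, hg⟩ := MulAction.exists_smul_eq G P R
  have hSP : ∀ s ∈ S, g⁻¹ * s * g ∈ (P : Subgroup G) := by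
    intro s hs
    have h1 : s ∈ ((g • P : Sylow p G) : Subgroup G) := by
      rw [hg]
      exact hR hs
    rw [Sylow.smul_def, Sylow.pointwise_smul_def, Subgroup.mem_pointwise_smul_iff_inv_smul_mem,
      MulAut.smul_def, MulAut.conj_inv_apply] at h1
    exact h1
  have hSK : ∀ s ∈ S, ∀ k ∈ K, s * k = k * s := by
    intro s hs k hk
    have hk' : g⁻¹ * k * g ∈ K := by
      have h0 := hKn.conj_mem k hk g⁻¹
      rwa [inv_inv] at h0
    have h1 := hcent _ (hSP s hs) (g⁻¹ * k * g) hk'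
    calc s * k = g * ((g⁻¹ * s * g) * (g⁻¹ * k * g)) * g⁻¹ := by group
      _ = g * ((g⁻¹ * k * g) * (g⁻¹ * s * g)) * g⁻¹ := by rw [h1]
      _ = k * s := by group
  have hcopKS : (Nat.card K).Coprime (p ^ m) :=
    Nat.Coprime.pow_right m ((Nat.Prime.coprime_iff_not_dvd hp.out).mpr hKp).symm
  have hsup : K ⊔ S = M := by
    apply Subgroup.eq_of_le_of_card_ge (sup_le hKM hSM)
    have h1 : Nat.card K * p ^ m ∣ Nat.card (K ⊔ S : Subgroup G) := by
      apply Nat.Coprime.mul_dvd_of_dvd_of_dvd hcopKS (Subgroup.card_dvd_of_le le_sup_left)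
      rw [← hScard]
      exact Subgroup.card_dvd_of_le le_sup_right
    rw [← hcardM] at h1
    exact Nat.le_of_dvd Nat.card_pos h1
  have hSpow : ∀ s ∈ S, s ^ (p ^ m) = 1 := by
    intro s hs
    have h1 : ((⟨s, hs⟩ ^ Nat.card S : S) : G) = 1 := by rw [pow_card_eq_one']; rfl
    rw [hScard] at h1
    exact h1
  have hKpow : ∀ k ∈ K, k ^ Nat.card K = 1 := by
    intro k hk
    have h1 : ((⟨k, hk⟩ ^ Nat.card K : K) : G) = 1 := by rw [pow_card_eq_one']; rfl
    exact h1
  have hSnorm : ∀ x : G, ∀ s ∈ S, x * s * x⁻¹ ∈ S := by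
    intro x s hs
    have hv : x * s * x⁻¹ ∈ ((K ⊔ S : Subgroup G) : Set G) := by
      rw [hsup]
      exact hMn.conj_mem s (hSM hs) x
    rw [Subgroup.normal_mul, Set.mem_mul] at hv
    obtain ⟨k, hk, s', hs', hks⟩ := hv
    have hcomm : Commute k s' := (hSK s' hs' k hk).symm
    have h1 : (x * s * x⁻¹) ^ (p ^ m) = 1 := by
      rw [conj_pow, hSpow s hs]
      group
    rw [← hks, hcomm.mul_pow, hSpow s' hs', mul_one] at h1
    have hk1 : k = 1 := (pow_eq_one_iff_of_coprime hcopKS).mp ⟨hKpow k hk, h1⟩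
    rw [← hks, hk1, one_mul]
    exact hs'
  have hSall : ∀ h : G, ∀ s ∈ S, h⁻¹ * s * h ∈ (P : Subgroup G) := by
    intro h s hs
    have h1 := hSP _ (hSnorm (g * h⁻¹) s hs)
    have e : g⁻¹ * ((g * h⁻¹) * s * (g * h⁻¹)⁻¹) * g = h⁻¹ * s * h := by group
    rwa [e] at h1
  have hSbot : S ≤ ⊥ := by
    rw [← hg₀]
    intro s hs
    refine ⟨?_, ?_⟩
    · have h1 := hSall 1 s hs
      rwa [inv_one, one_mul, mul_one] at h1
    · apply Subgroup.mem_pointwise_smul_iff_inv_smul_mem.mpr
      rw [MulAut.smul_def, MulAut.conj_inv_apply]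
      exact hSall g₀ s hs
  have hS1 : Nat.card S = 1 := by
    rw [le_bot_iff] at hSbot
    rw [hSbot, Subgroup.card_bot]
  rw [hScard] at hS1
  have h2 : 1 < p ^ m := Nat.one_lt_pow hm0 hp.out.one_lt
  omega

/-- A `p`-solvable group with a TI Sylow `p`-subgroup `P` and a faithful character `χ` with
`χ(1)^2 ≤ |P|` has `P` normal. -/
theorem ti_sylow_normal [Finite G] (p : ℕ) [hp : Fact p.Prime] (hsolv : IsPSolvable p G)
    (P : Sylow p G)
    (hTI : ∀ g : G, g ∉ Subgroup.normalizer ((P : Subgroup G) : Set G) →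
      (P : Subgroup G) ⊓ (MulAut.conj g • (P : Subgroup G)) = ⊥)
    (χ : G → ℂ) (hχ : IsCharacter G χ) (hfaith : ∀ g : G, χ g = χ 1 → g = 1)
    (hdeg : charDegree χ ^ 2 ≤ Nat.card ↥(P : Subgroup G)) : (P : Subgroup G).Normal := by
  by_contra hPn
  have hex : ∃ g₀ : G, g₀ ∉ Subgroup.normalizer ((P : Subgroup G) : Set G) := by
    by_contra h
    push Not at h
    apply hPn
    rw [← Subgroup.normalizer_eq_top_iff, eq_top_iff]
    intro g _
    exact h g
  obtain ⟨g₀, hg₀⟩ := hex
  have hP1 : (P : Subgroup G) ≠ ⊥ := by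
    intro h
    apply hPn
    rw [h]
    exact Subgroup.normal_bot
  obtain ⟨a, ha⟩ := IsPGroup.iff_card.mp P.isPGroup'
  have ha0 : a ≠ 0 := by
    rintro rfl
    rw [pow_zero] at ha
    exact hP1 (Subgroup.eq_bot_of_card_eq _ ha)
  have hpG : p ∣ Nat.card G := by
    have h1 : p ∣ Nat.card (P : Subgroup G) := by
      rw [ha]
      exact dvd_pow_self p ha0
    exact h1.trans (Subgroup.card_subgroup_dvd_card _)
  obtain ⟨K, ⟨hKn, hKp⟩, hKmax⟩ := Set.exists_max_image
    {K : Subgroup G | K.Normal ∧ ¬ p ∣ Nat.card K} (fun K => Nat.card K) (Set.toFinite _)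
    ⟨⊥, Subgroup.normal_bot, by rw [Subgroup.card_bot]; exact hp.out.not_dvd_one⟩
  haveI := hKn
  have hKtop : K ≠ ⊤ := by
    rintro rfl
    apply hKp
    rw [Subgroup.card_top]
    exact hpG
  obtain ⟨M, hMn, hKM, hidx⟩ := hasPSeries_of_isPSolvable hp.out hsolv K hKn hKtop
  haveI := hMn
  have hcardM : Nat.card M = Nat.card K * K.relIndex M := by
    rw [← Subgroup.relIndex_bot_left, ← Subgroup.relIndex_bot_left (H := K),
      Subgroup.relIndex_mul_relIndex _ _ _ bot_le hKM.le]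
  have hlt : Nat.card K < Nat.card M := by
    by_contra hcon
    push Not at hcon
    exact hKM.ne (Subgroup.eq_of_le_of_card_ge hKM.le hcon)
  obtain ⟨m, hm⟩ : ∃ m : ℕ, K.relIndex M = p ^ m := by
    rcases hidx with h | h
    · exact h
    · exfalso
      have hMp : ¬ p ∣ Nat.card M := by
        rw [hcardM]
        intro hdvd
        rcases (Nat.Prime.dvd_mul hp.out).mp hdvd with h1 | h1
        · exact hKp h1
        · exact (Nat.Prime.coprime_iff_not_dvd hp.out).mp h.symm h1
      have h2 := hKmax M ⟨hMn, hMp⟩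
      omega
  have hm0 : m ≠ 0 := by
    rintro rfl
    rw [pow_zero] at hm
    rw [hm, mul_one] at hcardM
    omega
  have hcop : (Nat.card (P : Subgroup G)).Coprime (Nat.card K) := by
    rw [ha]
    exact Nat.Coprime.pow_left a ((Nat.Prime.coprime_iff_not_dvd hp.out).mpr hKp)
  have hPK : ∀ e : G, e ∈ (P : Subgroup G) → e ∈ K → e = 1 := by
    intro e heP heK
    have h1 : ((⟨e, heP⟩ ^ Nat.card (P : Subgroup G) : (P : Subgroup G)) : G) = 1 := by
      rw [pow_card_eq_one']; rfl
    have h2 : ((⟨e, heK⟩ ^ Nat.card K : K) : G) = 1 := by rw [pow_card_eq_one']; rfl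
    exact (pow_eq_one_iff_of_coprime hcop).mp ⟨h1, h2⟩
  have hH : ∀ x ∈ (P : Subgroup G), x ≠ 1 → ∀ c ∈ K, x * c = c * x →
      ∀ y ∈ (P : Subgroup G), y * c = c * y := by
    intro x hx hx1 c hc hxc y hy
    have hcN : c ∈ Subgroup.normalizer ((P : Subgroup G) : Set G) := by
      by_contra hcN
      have h1 := hTI c hcN
      apply hx1
      have h2 : x ∈ (P : Subgroup G) ⊓ (MulAut.conj c • (P : Subgroup G)) := by
        refine ⟨hx, Subgroup.mem_pointwise_smul_iff_inv_smul_mem.mpr ?_⟩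
        rw [MulAut.smul_def, MulAut.conj_inv_apply]
        have e : c⁻¹ * x * c = x := by
          calc c⁻¹ * x * c = c⁻¹ * (x * c) := by group
            _ = c⁻¹ * (c * x) := by rw [hxc]
            _ = x := by group
        rw [e]
        exact hx
      rw [h1, Subgroup.mem_bot] at h2
      exact h2
    have h3 : c * y * c⁻¹ ∈ (P : Subgroup G) := (Subgroup.mem_normalizer_iff.mp hcN y).mp hy
    have h4 : c * y * c⁻¹ * y⁻¹ = 1 := by
      apply hPK
      · exact (P : Subgroup G).mul_mem h3 ((P : Subgroup G).inv_mem hy)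
      · have h5 : y * c⁻¹ * y⁻¹ ∈ K := hKn.conj_mem _ (K.inv_mem hc) y
        have e : c * y * c⁻¹ * y⁻¹ = c * (y * c⁻¹ * y⁻¹) := by group
        rw [e]
        exact K.mul_mem hc h5
    calc y * c = (c * y * c⁻¹ * y⁻¹)⁻¹ * (c * y) := by group
      _ = c * y := by rw [h4, inv_one, one_mul]
  have hcent := ti_core p χ hχ hfaith (P : Subgroup G) P.isPGroup' hdeg (Nat.card K) K le_rfl hKp
    (fun y _ u hu => hKn.conj_mem u hu y) hH
  exact ti_not_cent p P K M hKp hKM.le m hm0 hm g₀ (hTI g₀ hg₀) hcent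

end Cfsg.Agent.Helper24
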